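import Cfsg.Agent.H6.InvChk

/-! The classes of involutions of `E6` in characteristic two. -/

namespace H6.Chev
open Cfsg.Lie

/-- representatives -/
def repsE6 : List (List ℕ × List ℤ × List ℤ) :=
  [([], [0, 0, 0, 0, 0, 0], [1, 1, 1, 1, 1, 1]), ([71], [0, 1, 0, 0, 0, 0], [1, 1, 1, 1, 1, 1]), ([68, 66], [1, 0, 0, 0, 0, 1], [1, 1, 1, 1, 1, 1]), ([55, 65, 67], [0, 0, 0, 1, 0, 0], [1, 1, 1, 1, 1, 1])]

/-- conjugations -/
def tblE6 : List (List ℕ × List Stp) :=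
  [([], []),
   ([71], []),
   ([60, 71], [.w [4, 3, 1, 1, 3, 4, 2, 3, 1]]),
   ([44, 60, 71], [.w [0, 2, 3, 1, 0, 5, 0, 1, 3, 4, 5, 2, 3, 1, 0]]),
   ([44, 60, 71, 39], [.w [0, 1, 3, 2, 5, 4, 3, 1, 0, 5, 5, 0, 1, 3, 4, 5, 2, 3, 1, 0], .f, .w [0, 2, 3, 1, 0, 5, 0, 1, 3, 4, 5, 2, 3, 1, 0]])]

/-- the fusion -/
def fzE6 : List ℕ × List ℕ × List ℕ :=
  ([2, 44, 60, 71, 2, 44, 60, 71], [44, 60, 71, 39], [44, 60, 71])

theorem strE6 : ∀ i, certE6.R.Str i := by decide +kernel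

theorem runE6 : (tblE6.all fun e => chkRun certE6.Z ([] :: [[71], [68, 66], [55, 65, 67]]) fzE6 e.2 e.1) = true := by
  decide +kernel

theorem chkFzE6 : chkFz certE6.Z fzE6 = true := by decide +kernel

theorem sqE6 : (([[71], [68, 66], [55, 65, 67]] : List (List ℕ)).all fun L => L.all (Nat.blt · certE6.Z.n) &&
      eqWordsN certE6.Z 2 (oneW (L ++ L)) (oneW [])) = true := by decide +kernel

theorem treeE6 : tree certE6.Z (fun L => tblE6.any fun e => L.isPerm e.1) (certE6.Z.l + 1)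
    (List.range certE6.Z.l) [] = true := by decide +kernel

theorem classesE6 (F : Type*) [Field F] [Finite F] [CharP F 2] :
    certE6.Classes F [[71], [68, 66], [55, 65, 67]] :=
  certE6.classes_of (reps := repsE6) chkFzE6 rfl (by decide +kernel)
    (fun _ i hi => ChevSys.red_J (strE6 i) hi) treeE6 runE6 sqE6
    (by decide +kernel) (by decide +kernel) (by decide)

end H6.Chev
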