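import Cfsg.Agent.H6.Invol2
import Cfsg.Agent.H6.TwF4

/-! Involutions of `F₄` in characteristic two: classes and centralizers. -/

set_option autoImplicit false
set_option linter.unusedSectionVars false

namespace H6
open Cfsg StSys


namespace Chev.F4
open Cfsg.Lie ChevSys

/-- conjugations -/
def tblF4 : List (List ℕ × List Stp) :=
  [([], []),
   ([44], []),
   ([47], []),
   ([29, 44], [.m [6] [47, 44]]),
   ([44, 32], [.w [1, 0]]),
   ([37, 47], [.w [1, 0, 0, 1, 2, 3]]),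
   ([41, 47], [.m [18] [47, 44]]),
   ([24, 32, 44], [.m [42, 6, 19] [44, 32], .w [1, 0]]),
   ([25, 37, 47], [.m [23, 26, 9] [37, 47], .w [1, 0, 0, 1, 2, 3]]),
   ([27, 32, 44], [.m [14, 34, 4] [44, 32], .w [1, 0]]),
   ([28, 29, 44], [.m [24, 41, 5] [29, 46], .w [1, 0, 0, 1, 2, 1, 0]]),
   ([28, 41, 47], [.m [23, 42, 18] [28, 47], .w [1, 0, 0, 1, 2, 3, 1, 0]]),
   ([29, 30, 44], [.m [14, 36, 6] [44, 30], .w [1, 0, 2, 3]]),
   ([30, 41, 47], [.m [33, 29, 11] [40, 41], .w [1, 0, 2, 3, 0]]),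
   ([33, 37, 47], [.m [36, 18, 17] [37, 47], .w [1, 0, 0, 1, 2, 3]]),
   ([24, 27, 32, 44], [.m [46, 33, 6, 28, 34, 4] [40, 24], .w [1, 0, 2, 1, 2, 0]]),
   ([25, 29, 30, 44], [.m [45, 33, 5, 27, 36, 6] [40, 25], .w [1, 0, 2, 3, 1, 0]]),
   ([25, 30, 41, 47], [.m [2, 30, 41, 47, 2, 30, 41, 47] [30, 41, 47], .m [33, 29, 11] [40, 41], .w [1, 0, 2, 3, 0]]),
   ([25, 33, 37, 47], [.m [24, 40, 18, 30, 26, 9] [33, 46], .w [1, 0, 2, 0, 1, 2, 3, 1, 2, 1]]),
   ([27, 28, 29, 44], [.m [8, 28, 29, 44, 8, 28, 29, 44] [28, 29, 44], .m [24, 41, 5] [29, 46], .w [1, 0, 0, 1, 2, 1, 0]]),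
   ([27, 28, 41, 47], [.m [24, 39, 11, 25, 42, 18] [27, 46], .w [1, 0, 2, 0, 1, 2, 3, 1, 2, 0]])]

variable {K : Type*} [Field K] [CharP K 2] {G : Type*} [Group G] {S : ChevSys certF4.R K G}

lemma max47 (r) : certF4.R.vec r ≤ certF4.R.vec (rt 47) :=
  certF4.le_of_chkMax (by decide +kernel) rfl r

lemma closed3 : certF4.R.Closed {rt 47, rt 44} :=
  RS.closed_pair (RS.not_comb_of_max max47 (by decide +kernel) (by decide +kernel))

lemma cm3 : ∀ a ∈ ({rt 47, rt 44} : Set _), ∀ r, certF4.R.Pos r → certF4.R.Cm 2 a r := by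
  rintro _ (rfl | rfl) <;> decide +kernel

lemma pos3 : ∀ a ∈ ({rt 47, rt 44} : Set _), certF4.R.Pos a := by
  rintro _ (rfl | rfl) <;> decide +kernel

lemma norm3 {A : Set _} (hA : A ⊆ {rt 47, rt 44}) :
    S.Up ≤ Subgroup.normalizer (S.U A : Set G) :=
  normalizer_of_comm fun a ha r hr => (cm3 a (hA ha) r hr).commute _

lemma ess4 : S.Ess (S.w1 [rt 39, rt 45]) (rt 39) :=
  ess_w1 (φ := fun _ => 1) (fun _ => one_pos) (by decide) (by simp) (by decide +kernel)
    (by decide +kernel)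

/-- the centralizer of the third class -/
theorem cent3 (h3 : S.R3) : S.grp ⊓ Subgroup.centralizer {S.w1 [rt 47, rt 44]} =
    S.Up ⊔ S.U {rt 20, rt 22} := by
  refine cent_central h3 (J := {nd 1, nd 2}) (by decide) (by decide +kernel) (by
      convert closed3 using 1; ext; simp) (fun a ha => ?_)
    (fun a ha r hr => (cm3 a (by simpa using ha) r hr).commute _) (fun a ha j hj => RS.Cm.commute
      (p := 2) (by
        simp only [List.mem_cons, List.not_mem_nil, or_false, Set.mem_insert_iff,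
          Set.mem_singleton_iff] at ha hj
        rcases ha with rfl | rfl <;> rcases hj with rfl | rfl <;> decide +kernel) _)
    (fun w hw => ?_) (fun c hc i hi => ?_) fun r => ?_
  · simp only [List.mem_cons, List.not_mem_nil, or_false] at ha
    rcases ha with rfl | rfl
    · convert RS.closed_singleton (rt 44) using 1; ext r; simp; revert r; decide
    · convert RS.closed_singleton (rt 47) using 1; ext r; simp; revert r; decide
  · have e : ∀ a ∈ [rt 47, rt 44], ∀ b ∈ [rt 47, rt 44], certF4.R.nm a = certF4.R.nm b → a = b := by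
      decide +kernel
    have h1 := mem_WJ_of_fix (by decide +kernel) (e _ (hw _ (by simp)) (rt 47) (by simp) (RS.nm_act _ _))
    have h2 := mem_WJ_of_fix (by decide +kernel) (e _ (hw _ (by simp)) (rt 44) (by simp) (RS.nm_act _ _))
    rw [RS.mem_WJ_iff] at h1 h2 ⊢
    intro r hr i hi
    by_contra h
    have e1 : _ := by_contra fun h' => h (h1 r hr i h')
    have e2 : _ := by_contra fun h' => h (h2 r hr i h')
    simp only [Set.mem_insert_iff, Set.mem_singleton_iff, Set.mem_setOf_eq] at hi e1 e2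
    revert hi e1 e2; clear h; revert i; decide +kernel
  · have h1 := hc (rt 47) (by simp)
    have h2 := hc (rt 44) (by simp)
    have e : ∀ i, certF4.R.A i (rt 47) = (if i = nd 3 then 1 else 0) ∧
      certF4.R.A i (rt 44) = if i = nd 0 then 1 else 0 := by decide +kernel
    simp only [e, apply_ite, zpow_one, zpow_zero, Finset.prod_ite_eq', Finset.mem_univ, if_true] at h1 h2
    have : ∀ i, i ≠ nd 1 → i ≠ nd 2 → i = nd 0 ∨ i = nd 3 := by decide
    simp only [Set.mem_insert_iff, Set.mem_singleton_iff, not_or] at hi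
    rcases this i hi.1 hi.2 with rfl | rfl <;> assumption
  · simp only [Set.mem_insert_iff, Set.mem_singleton_iff, exists_eq_or_imp, exists_eq_left]
    revert r; decide +kernel

variable {X : Tw S symF4} (hX : ∀ r, X.φ r 1 = 1)
include hX

lemma σ_w1 (L : List _) : X.σ (S.w1 L) = S.w1 (L.map symF4.ρ) := by
  simp [w1, Tw.σ_wd, hX, Function.comp_def]

lemma σ4 : X.σ (S.w1 [rt 39, rt 45]) = S.w1 [rt 39, rt 45] := by
  rw [σ_w1 hX, show [rt 39, rt 45].map symF4.ρ = [rt 45, rt 39] by decide +kernel]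
  exact S.w1_perm (List.Perm.swap _ _ _) (by
    simpa using RS.Cm.commute (p := 2) (by decide +kernel) _ 1 1)

lemma σ3 : X.σ (S.w1 [rt 47, rt 44]) = S.w1 [rt 47, rt 44] := by
  rw [σ_w1 hX, show [rt 47, rt 44].map symF4.ρ = [rt 44, rt 47] by decide +kernel]
  exact S.w1_perm (List.Perm.swap _ _ _) (by
    simpa using RS.Cm.commute (p := 2) (by decide +kernel) _ 1 1)

lemma ess4' : S.Ess (X.σ (S.w1 [rt 39, rt 45])) (symF4.ρ (rt 45)) := by
  rw [σ4 hX, show symF4.ρ (rt 45) = rt 39 by decide +kernel]; exact ess4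

/-- the fourth class does not meet the centre of `U` -/
theorem not_conj4 {g : G} (hg : g ∈ S.grp) :
    g * S.w1 [rt 39, rt 45] * g⁻¹ ∉ S.U {rt 47, rt 44} := fun h => by
  obtain ⟨u, hu, n, hn, w, hw, v, hv, rfl⟩ := S.exists_unu hg
  have hv' : v ∈ S.Up := S.U_mono (fun _ h => h.1) hv
  have hz : S.w1 [rt 39, rt 45] ∈ S.Up := S.w1_mem (by decide +kernel)
  have h1 := ess4.act_mem hz hu hv' hw rfl closed3 pos3 (norm3 le_rfl) h
  have h2 := (ess4' hX).act_mem_tw X hz hu hv' hn hw rfl closed3 pos3 (norm3 le_rfl)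
    (X.σ_mem_U (by rintro _ (rfl | rfl) <;> simp <;> decide +kernel) h)
  have h3 := certF4.R.pair_act w (rt 39) (rt 45)
  simp only [Set.mem_insert_iff, Set.mem_singleton_iff] at h1 h2
  have : ∀ a, a = rt 47 ∨ a = rt 44 → ∀ b, symF4.ρ b = rt 47 ∨ symF4.ρ b = rt 44 →
      certF4.R.pair a b ≠ certF4.R.pair (rt 39) (rt 45) := by
    rintro _ (rfl | rfl) <;> decide +kernel
  exact this _ h1 _ h2 h3

/-- the roots of the centralizer of the fourth class -/
def T4 : Set (Fin chevF4.nroots) := {r | certF4.R.Pos r ∧ r ∉ [rt 27, rt 25, rt 34, rt 26]}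

omit hX in
lemma conj4 (a b c d e f : K) : S.wd [(rt 27, a), (rt 25, b), (rt 34, c), (rt 26, d)] *
    S.wd [(rt 39, e), (rt 45, f)] * (S.wd [(rt 27, a), (rt 25, b), (rt 34, c), (rt 26, d)])⁻¹ =
    S.wd [(rt 39, e), (rt 40, e * a), (rt 44, e * c), (rt 45, f), (rt 46, f * b), (rt 47, f * d)] := by
  have cm : ∀ r s, certF4.R.Cm 2 r s → ∀ t u, S.x s u * S.x r t * (S.x s u)⁻¹ = S.x r t :=
    fun r s h t u => by rw [(h.commute _ t u).eq, mul_inv_cancel_right]
  have cj : ∀ g a b : G, g * (a * b) * g⁻¹ = g * a * g⁻¹ * (g * b * g⁻¹) := fun _ _ _ => by group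
  have ee : ∀ g h k l z : G, g * (h * (k * l)) * z * (g * (h * (k * l)))⁻¹ =
    g * (h * (k * (l * z * l⁻¹) * k⁻¹) * h⁻¹) * g⁻¹ := fun _ _ _ _ _ => by group
  simp only [wd_cons, wd_nil, mul_one]
  rw [ee, cj (S.x (rt 26) d), cm (rt 39) (rt 26) (by decide +kernel), S.conj2 (r := rt 45) (s := rt 26) (k := rt 47)
    (by decide +kernel) (by decide +kernel), cj (S.x (rt 34) c), cj (S.x (rt 34) c), cm (rt 45) (rt 34) (by decide +kernel),
    cm (rt 47) (rt 34) (by decide +kernel), S.conj2 (r := rt 39) (s := rt 34) (k := rt 44)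
    (by decide +kernel) (by decide +kernel)]
  simp only [cj (S.x (rt 25) b)]
  rw [cm (rt 39) (rt 25) (by decide +kernel),
    cm (rt 44) (rt 25) (by decide +kernel), cm (rt 47) (rt 25) (by decide +kernel),
    S.conj2 (r := rt 45) (s := rt 25) (k := rt 46) (by decide +kernel) (by decide +kernel)]
  simp only [cj (S.x (rt 27) a)]
  rw [cm (rt 44) (rt 27) (by decide +kernel), cm (rt 45) (rt 27) (by decide +kernel),
    cm (rt 46) (rt 27) (by decide +kernel), cm (rt 47) (rt 27) (by decide +kernel),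
    S.conj2 (r := rt 39) (s := rt 27) (k := rt 40) (by decide +kernel) (by decide +kernel)]
  simp only [mul_assoc]

/-- the centralizer of the fourth class -/
theorem cent4 (h3 : S.R3) : S.grp ⊓ Subgroup.centralizer {S.w1 [rt 39, rt 45]} =
    S.U {rt 14, rt 23} ⊔ S.U T4 := by
  classical
  have hz : S.w1 [rt 39, rt 45] ∈ S.Up := S.w1_mem (by decide +kernel)
  have key : ∀ e f, S.U {rt 14, rt 23} ⊔ S.U T4 ≤
      Subgroup.centralizer {S.wd [(rt 39, e), (rt 45, f)]} := fun e f => by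
    rw [← U_union, U_le_iff]
    intro r hr u
    have : certF4.R.Cm 2 (rt 39) r ∧ certF4.R.Cm 2 (rt 45) r := by
      simp only [T4, Set.mem_union, Set.mem_insert_iff, Set.mem_singleton_iff, Set.mem_setOf_eq] at hr
      revert r; decide +kernel
    simpa [Subgroup.mem_centralizer_singleton_iff, wd_cons] using
      ((this.1.commute _ e u).mul_right (this.2.commute S.toStSys f u)).eq
  have hM : S.U {r | certF4.R.InJ {nd 0, nd 3} r} ≤ S.U {rt 14, rt 23} ⊔ S.U T4 :=
    U_inJ_le (by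
      rintro _ (rfl | rfl) t <;> exact Subgroup.mem_sup_right (S.x_mem_U (by
        simp only [T4, Set.mem_setOf_eq]; decide +kernel) t)) (by
      rintro _ (rfl | rfl) t <;> exact Subgroup.mem_sup_left (S.x_mem_U (by
        simp only [Set.mem_insert_iff, Set.mem_singleton_iff]; decide +kernel) t))
  refine le_antisymm (cent_le' (fun u hu n hn w hw v hv e => ?_) hM (key 1 1) fun b hb => ?_)
    (le_inf (sup_le (S.U_le_grp _) (S.U_le_grp _)) (key 1 1))
  · let l : Fin chevF4.rank → ℤ := certF4.R.lam [rt 39, rt 39, rt 45, rt 45, rt 45]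
    let m : Fin chevF4.rank → ℤ := certF4.R.lam [rt 39, rt 39, rt 39, rt 45, rt 45, rt 45, rt 45]
    have hl : ∀ j, 0 ≤ l j := by decide +kernel
    have hm : ∀ j, 0 ≤ m j := by decide +kernel
    have aux : ∀ u ∈ S.Up, ∀ n ∈ S.N, ∀ w, S.Acts n w → ∀ v ∈ S.Up, u * n * v *
        S.w1 [rt 39, rt 45] * (u * n * v)⁻¹ = S.w1 [rt 39, rt 45] →
        ∀ a ∈ [rt 39, rt 39, rt 45, rt 45, rt 45], certF4.R.ev l a ≤ certF4.R.ev l (certF4.R.act w a) := by
      intro u hu n hn w hw v hv e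
      have h1 := ess4.act_mem hz hu hv hw e (closed_ev l four_pos)
        (fun _ h => RS.pos_of_ev_pos hl (four_pos.trans_le h)) (Up_le_normalizer_ev hl four_pos)
        (S.w1_mem (by decide +kernel))
      have h2 := (ess4' hX).act_mem_tw X hz hu hv hn hw e (closed_ev m (by norm_num : (0 : ℤ) < 6))
        (fun _ h => RS.pos_of_ev_pos hm (lt_of_lt_of_le (by norm_num) h))
        (Up_le_normalizer_ev hm (by norm_num)) (by rw [σ4 hX]; exact S.w1_mem (by decide +kernel))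
      have h3 : ∀ r, certF4.R.nm r = certF4.R.nm (rt 45) → 6 ≤ certF4.R.ev m (symF4.ρ r) →
        certF4.R.ev l (rt 45) ≤ certF4.R.ev l r := by decide +kernel
      have h4 : certF4.R.ev l (rt 39) = 4 := by decide +kernel
      simpa [h4] using ⟨h1, h3 _ (RS.nm_act _ _) h2⟩
    refine RS.WJ_mono (fun j => ?_) (RS.mem_WJ_of_da hl (RS.kempf (aux u hu n hn w hw v hv e)
      (aux _ (inv_mem hv) _ (inv_mem hn) _ hw.inv _ (inv_mem hu) (by
        nth_rewrite 1 [← e]; group))))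
    simp only [Set.mem_insert_iff, Set.mem_singleton_iff, Set.mem_setOf_eq]
    revert j; decide +kernel
  obtain ⟨u, hu, y, hy, rfl⟩ := S.nconj.mem_B.1 hb.1
  obtain ⟨L, hL, hLT⟩ := exists_list T4
  obtain ⟨t, rfl⟩ := S.exists_nf certF4.R.closed_pos (fun _ h => certF4.R.fv_one_pos h)
    (L := [rt 27, rt 25, rt 34, rt 26] ++ L) (List.nodup_append.2 ⟨by decide, hL, fun a ha b hb e =>
      ((hLT b).1 hb).2 (e ▸ ha)⟩) (fun r => by
        simp only [List.mem_append, hLT, T4, Set.mem_setOf_eq]; revert r; decide +kernel) hu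
  have hm : S.pr L t ∈ S.U {rt 14, rt 23} ⊔ S.U T4 :=
    Subgroup.mem_sup_right (S.pr_mem fun r hr => Or.inl ((hLT r).1 hr))
  obtain ⟨c, rfl, hc⟩ := S.nconj.exists_chi h3 hy
  have e := mem_cent.1 hb.2
  rw [pr_append, pr_eq_wd] at e ⊢
  have e1 := ActsC.conj_wd hc [(rt 39, 1), (rt 45, 1)]
  simp only [List.map_cons, List.map_nil, RS.act_one, mul_one] at e1 e ⊢
  have e3 := conj4 (S := S) (t (rt 27)) (t (rt 25)) (t (rt 34)) (t (rt 26))
    (certF4.R.chi (certF4.R.cm Kˣ c) (rt 39) : Kˣ) (certF4.R.chi (certF4.R.cm Kˣ c) (rt 45) : Kˣ)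
  have e5 : S.wd [(rt 39, 1), (rt 40, 0), (rt 44, 0), (rt 45, 1), (rt 46, 0), (rt 47, 0)] =
    S.w1 [rt 39, rt 45] := by simp [w1, wd_cons]
  rw [← mem_cent.1 (key _ _ hm), ← e1] at e3
  have e4 := S.inj.wd_inj (w' := [(rt 39, 1), (rt 40, 0), (rt 44, 0), (rt 45, 1), (rt 46, 0),
    (rt 47, 0)]) (by rfl) (by simp only [List.map]; decide) (by simp only [List.map]; decide +kernel)
    (e3.symm.trans (by rw [e5, ← e, w1]; simp only [List.map_cons, List.map_nil]; group))
  simp only [List.cons.injEq, Prod.mk.injEq, true_and, mul_eq_zero, Units.ne_zero, false_or,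
    Units.val_eq_one, RS.chi_cm] at e4
  obtain ⟨h39, ha, hc', h45, hb', hd, -⟩ := e4
  have hA : (∀ i, certF4.R.A (nd i) (rt 39) = ![0, -1, 1, 0] i) ∧
    ∀ i, certF4.R.A (nd i) (rt 45) = ![0, 2, -1, 0] i := by decide +kernel
  change ∏ i : Fin 4, c (nd i) ^ certF4.R.A (nd i) _ = 1 at h39 h45
  simp only [hA, Fin.prod_univ_four, Matrix.cons_val, zpow_zero, zpow_one, zpow_neg, one_mul, mul_one,
    mul_inv_eq_one, inv_mul_eq_one, zpow_ofNat, pow_zero, pow_one] at h39 h45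
  have h1 : c (nd 1) = 1 := by rwa [← h39, pow_two, mul_eq_left] at h45
  simpa [ha, hc', hb', hd, wd_cons] using mul_mem hm (hM (Theta_mem_U h3 fun i hi => by
    have : ∀ i, i ≠ nd 0 → i ≠ nd 3 → i = nd 1 ∨ i = nd 2 := by decide
    simp only [Set.mem_insert_iff, Set.mem_singleton_iff, not_or] at hi
    rcases this i hi.1 hi.2 with rfl | rfl
    exacts [h1, h39.symm.trans h1]))

omit hX in
theorem exists_graph [Finite K] : ∃ (α : chevF4.group K ≃* chevF4.group K)
    (X : Tw (certF4.gsys K) symF4), (∀ g, X.σ g = α g) ∧ ∀ r t, X.φ r t = t ^ grF4.lam r := by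
  have : CharP K grF4.p := ‹CharP K 2›
  have : Fact grF4.p.Prime := ⟨Nat.prime_two⟩
  have hf : ∀ x : K, ∃ y, y ^ grF4.p = x := Finite.injective_iff_surjective.1 (frobenius_inj K _)
  obtain ⟨α, hα⟩ := grF4OK.exists_autB (K := K) grF4S (rk2_of_mem (by simp) _) grF4B hf
    (by decide +kernel)
  have hε : ∀ r : Fin chevF4.nroots, grF4.ε r = 1 := by decide +kernel
  refine ⟨α, ⟨α, fun r t => t ^ grF4.lam r, fun _ _ _ _ => map_mul _ _ _, fun r t => by
    have := hα r t
    simp only [hε, Int.cast_one, one_mul] at this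
    exact this, fun _ _ h => pow_ne_zero _ h, fun i t _ => by
      simp only [Cert.R_neg, (grF4OK.facts _).2.2.2.2.2.1]
      rw [CharTwo.neg_eq, CharTwo.neg_eq, inv_pow]⟩,
    fun _ => rfl, fun _ _ => rfl⟩

omit hX in
lemma cl3 : ∀ A ⊆ ({rt 47, rt 44} : Set _), certF4.R.Closed A := fun A hA r hr s hs k hk => by
  by_cases e : r = s
  · subst e; rwa [RS.closed_singleton r r rfl r rfl k hk]
  · rcases hA hr with rfl | rfl <;> rcases hA hs with rfl | rfl
    exacts [(e rfl).elim, (RS.not_comb_of_max max47 (by decide +kernel) (by decide +kernel) k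
      hk).elim, (RS.not_comb_of_max max47 (by decide +kernel) (by decide +kernel) k hk.symm).elim,
      (e rfl).elim]

omit hX in
lemma conj_cent {L L' : List _} (hL : ∀ a ∈ L, a = rt 47 ∨ a = rt 44) (hn : L.Nodup)
    (hL' : ∀ a ∈ L', a = rt 47 ∨ a = rt 44) {g : G} (hg : g ∈ S.grp)
    (e : g * S.w1 L * g⁻¹ = S.w1 L') : ∃ w, ∀ a ∈ L, certF4.R.act w a ∈ L' := by
  obtain ⟨u, hu, n, -, w, hw, v, hv, rfl⟩ := S.exists_unu hg
  refine ⟨w, fun a ha => Ess.act_mem (ess_of_central (A := {a | a ∈ L}) (fun v hv => mem_cent.1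
    ((U_le_iff _).2 (fun r hr t => Subgroup.mem_centralizer_singleton_iff.2
      (Commute.list_prod_right _ _ (by
        simpa using fun a ha => (cm3 a (hL a ha) r hr).commute _ 1 t))) hv)) (cl3 _ hL)
    (fun r hr => pos3 r (hL r hr)) (S.w1_mem fun _ h => h) fun h => ?_)
    (S.w1_mem fun r hr => pos3 r (hL r hr)) hu (S.U_mono (fun _ h => h.1) hv) hw e
    (A := {a | a ∈ L'}) (cl3 _ hL') (fun r hr => pos3 r (hL' r hr)) (norm3 hL') (S.w1_mem fun _ h => h)⟩
  obtain ⟨L₁, L₂, rfl⟩ := List.append_of_mem ha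
  have h1 : a ∉ L₁ := fun h => (List.disjoint_of_nodup_append hn) h List.mem_cons_self
  have h2 : a ∉ L₂ := (List.nodup_cons.1 (hn.of_append_right)).1
  change S.w1 _ ∈ _ at h
  rw [show S.w1 (L₁ ++ a :: L₂) = S.w1 L₁ * S.x a 1 * S.w1 L₂ by
    simp [w1, wd_append, wd_cons, mul_assoc], mul_mem_cancel_right (S.w1_mem fun b hb => by
      exact ⟨by simp [hb], fun e => h2 (e ▸ hb)⟩), mul_mem_cancel_left (S.w1_mem fun b hb => by
      exact ⟨by simp [hb], fun e => h1 (e ▸ hb)⟩)] at h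
  exact one_ne_zero (eq_zero_of_mem (cl3 _ fun r hr => hL r hr.1) (fun r hr => pos3 r (hL r hr.1))
    (pos3 a (hL a ha)) (fun h => h.2 rfl) h)

omit hX in
lemma eq_of_conj3 (hS : S.grp = ⊤) : ∀ L ∈ [[], [rt 47], [rt 44], [rt 47, rt 44]],
    ∀ L' ∈ [[], [rt 47], [rt 44], [rt 47, rt 44]], IsConj (S.w1 L) (S.w1 L') → L = L' := by
  have hn : ∀ w, certF4.R.act w (rt 47) ≠ rt 44 ∧ certF4.R.act w (rt 44) ≠ rt 47 := fun w => by
    have e : certF4.R.nm (rt 47) ≠ certF4.R.nm (rt 44) := by decide +kernel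
    exact ⟨fun h => e (by rw [← h, RS.nm_act]), fun h => e (by rw [← h, RS.nm_act])⟩
  have a1 : ∀ L ∈ [[], [rt 47], [rt 44], [rt 47, rt 44]],
    (∀ a ∈ L, a = rt 47 ∨ a = rt 44) ∧ L.Nodup := by decide
  intro L hL L' hL' h
  obtain ⟨g, e⟩ := isConj_iff.1 h
  obtain ⟨g', e'⟩ := isConj_iff.1 h.symm
  obtain ⟨w, hw⟩ := conj_cent (a1 L hL).1 (a1 L hL).2 (a1 L' hL').1 (hS.ge trivial) e
  obtain ⟨w', hw'⟩ := conj_cent (a1 L' hL').1 (a1 L' hL').2 (a1 L hL).1 (hS.ge trivial) e'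
  have h1 := hn w
  have h2 := hn w'
  have h3 := (certF4.R.act_injective w).ne (show rt 47 ≠ rt 44 by decide)
  have h4 := (certF4.R.act_injective w').ne (show rt 47 ≠ rt 44 by decide)
  clear e e' h a1 hn
  simp only [List.mem_cons, List.not_mem_nil, or_false] at hL hL'
  rcases hL with rfl | rfl | rfl | rfl <;> rcases hL' with rfl | rfl | rfl | rfl <;>
    first | rfl | (simp only [List.forall_mem_cons] at hw hw'; simp_all)

omit hX in
theorem classes (K : Type*) [Field K] [Finite K] [CharP K 2] :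
    certF4.Classes K [[47], [44], [47, 44], [39, 45]] := by
  obtain ⟨α, X, h1, h2⟩ := exists_graph (K := K)
  have hX : ∀ r, X.φ r 1 = 1 := fun r => by simp [h2]
  have hsq := certF4.wn_sq (F := K) (reps := [[47], [44], [47, 44], [39, 45]]) (by decide +kernel)
  refine ⟨hsq.1, hsq.2, fun _ => certF4.exists_rep (tbl := tblF4) (fz := ([], [], []))
    (certF4.orth (by decide +kernel) _) (red_dual (α := α) symF4 (φ := X.φ) (fun r => by
      simpa [funext (h2 r)] using grF4OK.surj_of_perfect (K := K)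
        (Finite.injective_iff_surjective.1 (frobenius_inj K 2)) r) (fun r t => by rw [← h1, X.σ_x])
      (by decide +kernel) (by decide +kernel)) (by decide +kernel) (by decide +kernel)
      (by decide +kernel), ?_, by decide⟩
  have h4 : ∀ L : List _, (∀ a ∈ L, a = rt 47 ∨ a = rt 44) →
      ¬ IsConj (certF4.wn K [39, 45]) ((certF4.gsys K).w1 L) := fun L hL h => by
    obtain ⟨g, e⟩ := isConj_iff.1 h
    exact not_conj4 hX (certF4.gsys_grp.ge (Subgroup.mem_top g)) (by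
      change g * certF4.wn K [39, 45] * g⁻¹ ∈ _
      rw [e]; exact (certF4.gsys K).w1_mem hL)
  intro L hL L' hL' h
  have e : ∀ L ∈ [[], [47], [44], [47, 44], [39, 45]], L = [39, 45] ∨
      ∃ L' ∈ [[], [rt 47], [rt 44], [rt 47, rt 44]], L = L'.map Fin.val ∧
        ∀ a ∈ L', a = rt 47 ∨ a = rt 44 := by decide
  rcases e L hL with rfl | ⟨M, hM, rfl, hM'⟩ <;> rcases e L' hL' with rfl | ⟨M', hN, rfl, hN'⟩
  · rfl
  · rw [Cert.wn_map] at h; exact (h4 _ hN' h).elim
  · rw [Cert.wn_map] at h; exact (h4 _ hM' h.symm).elim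
  · rw [Cert.wn_map, Cert.wn_map] at h; rw [eq_of_conj3 certF4.gsys_grp _ hM _ hN h]

end Chev.F4
end H6
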