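import Cfsg.Agent.H6.Invol2
import Cfsg.Agent.H6.InvChk
import Cfsg.Agent.H6.TwG2

/-! Involutions of `G₂` in characteristic two: classes and centralizers. -/

set_option autoImplicit false
set_option linter.unusedSectionVars false

namespace H6
open Cfsg StSys

namespace Chev.G2
open Cfsg.Lie ChevSys

variable {K : Type*} [Field K] [CharP K 2] {G : Type*} [Group G] {S : ChevSys certG2.R K G}

lemma sw (r s : Fin 12) {L : List (Fin chevG2.nroots × ℕ × ℕ)}
    (h : rt s ≠ rt r ∧ rt s ≠ certG2.R.neg (rt r) ∧ certG2.R.t2 (rt r) (rt s) = L) (t u : K) (g : G) :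
    S.x (rt s) u * (S.x (rt r) t * g) = S.x (rt r) t * (S.x (rt s) u *
      (S.wd (L.map fun c => (c.1, t ^ c.2.1 * u ^ c.2.2)) * g)) := by
  rw [← mul_assoc, S.comm2 h]; simp only [mul_assoc]

lemma s76 (t u : K) (g : G) : S.x (rt 7) u * (S.x (rt 6) t * g) = S.x (rt 6) t * (S.x (rt 7) u *
    (S.x (rt 8) (t * u) * (S.x (rt 9) (t * u ^ 2) * (S.x (rt 10) (t * u ^ 3) * g)))) := by
  simpa [wd_cons, mul_assoc] using sw (S := S) 6 7 (L := [(rt 8, 1, 1), (rt 9, 1, 2), (rt 10, 1, 3)])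
    (by decide +kernel) t u g
lemma s87 (t u : K) (g : G) : S.x (rt 8) u * (S.x (rt 7) t * g) = S.x (rt 7) t * (S.x (rt 8) u *
    (S.x (rt 10) (t ^ 2 * u) * (S.x (rt 11) (t * u ^ 2) * g))) := by
  simpa [wd_cons, mul_assoc] using sw (S := S) 7 8 (L := [(rt 10, 2, 1), (rt 11, 1, 2)])
    (by decide +kernel) t u g
lemma s1 (r s k : Fin 12) (h : rt s ≠ rt r ∧ rt s ≠ certG2.R.neg (rt r) ∧
    certG2.R.t2 (rt r) (rt s) = [(rt k, 1, 1)]) (t u : K) (g : G) :
    S.x (rt s) u * (S.x (rt r) t * g) = S.x (rt r) t * (S.x (rt s) u * (S.x (rt k) (t * u) * g)) := by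
  simpa [wd_cons, mul_assoc] using sw (S := S) r s h t u g
lemma s0 (r s : Fin 12) (h : rt s ≠ rt r ∧ rt s ≠ certG2.R.neg (rt r) ∧
    certG2.R.t2 (rt r) (rt s) = []) (t u : K) (g : G) :
    S.x (rt s) u * (S.x (rt r) t * g) = S.x (rt r) t * (S.x (rt s) u * g) := by
  simpa [wd_cons, mul_assoc] using sw (S := S) r s h t u g
lemma mg (r) (t u : K) (g : G) : S.x r t * (S.x r u * g) = S.x r (t + u) * g := by
  rw [S.add, mul_assoc]

lemma sws : (∀ t u g, S.x (rt 9) u * (S.x (rt 7) t * g) =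
      S.x (rt 7) t * (S.x (rt 9) u * (S.x (rt 10) (t * u) * g))) ∧
    (∀ t u g, S.x (rt 9) u * (S.x (rt 8) t * g) =
      S.x (rt 8) t * (S.x (rt 9) u * (S.x (rt 11) (t * u) * g))) ∧
    (∀ t u g, S.x (rt 10) u * (S.x (rt 6) t * g) =
      S.x (rt 6) t * (S.x (rt 10) u * (S.x (rt 11) (t * u) * g))) ∧
    ∀ p ∈ [((6 : Fin 12), (8 : Fin 12)), (6, 9), (6, 11), (7, 10), (7, 11), (8, 10), (8, 11), (9, 10),
      (9, 11), (10, 11)], ∀ t u g,
      S.x (rt p.2) u * (S.x (rt p.1) t * g) = S.x (rt p.1) t * (S.x (rt p.2) u * g) :=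
  ⟨s1 7 9 10 (by decide +kernel), s1 8 9 11 (by decide +kernel), s1 6 10 11 (by decide +kernel),
    fun p hp => s0 p.1 p.2 (by revert p; decide +kernel)⟩

lemma e_inj {a b c d e f a' b' c' d' e' f' : K}
    (h : S.x (rt 6) a * (S.x (rt 7) b * (S.x (rt 8) c * (S.x (rt 9) d * (S.x (rt 10) e *
      (S.x (rt 11) f * 1))))) = S.x (rt 6) a' * (S.x (rt 7) b' * (S.x (rt 8) c' * (S.x (rt 9) d' *
      (S.x (rt 10) e' * (S.x (rt 11) f' * 1)))))) :
    a = a' ∧ b = b' ∧ c = c' ∧ d = d' ∧ e = e' ∧ f = f' := by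
  have := S.inj.wd_inj (w := [(rt 6, a), (rt 7, b), (rt 8, c), (rt 9, d), (rt 10, e), (rt 11, f)])
    (w' := [(rt 6, a'), (rt 7, b'), (rt 8, c'), (rt 9, d'), (rt 10, e'), (rt 11, f')]) rfl
    (by simp only [List.map]; decide) (by simp only [List.map]; decide +kernel) h
  simpa using this

theorem red0 : S.Red (nd 0) {r | (certG2.R.Pos r ∧ certG2.R.InJ Set.univ r) ∧
    r ≠ certG2.R.simple (nd 0)} := by
  classical
  intro t ht y hy h
  have hT : ∀ r, r ∈ [rt 6, rt 8, rt 9, rt 10, rt 11] ↔ r ∈ {r | (certG2.R.Pos r ∧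
      certG2.R.InJ Set.univ r) ∧ r ≠ certG2.R.simple (nd 0)} := by
    intro r; simp only [Set.mem_setOf_eq, RS.inJ_univ, and_true]; revert r; decide +kernel
  obtain ⟨u, rfl⟩ := S.exists_nf (f := fun _ => 1) (L := [rt 6, rt 8, rt 9, rt 10, rt 11])
    (T := {r | (certG2.R.Pos r ∧ certG2.R.InJ Set.univ r) ∧ r ≠ certG2.R.simple (nd 0)})
    (fun r hr s hs k hk => ⟨⟨hk.pos hr.1.1 hs.1.1, RS.inJ_univ _ _⟩, fun e => by
      have h1 := hk.fv_ge (f := fun _ => 1) (certG2.R.fv_one_pos hr.1.1).le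
        (certG2.R.fv_one_pos hs.1.1).le
      have h2 := certG2.R.fv_one_pos hr.1.1
      have h3 := certG2.R.fv_one_pos hs.1.1
      rw [e, RS.fv_simple] at h1; omega⟩) (fun _ h => certG2.R.fv_one_pos h.1.1) (by decide) hT hy
  have e7 : certG2.R.simple (nd 0) = rt 7 := by decide +kernel
  have h2 : (2 : K) = 0 := CharTwo.two_eq_zero
  obtain ⟨r1, r2, r3, r4⟩ := sws (S := S)
  simp only [List.forall_mem_cons, List.not_mem_nil, false_imp_iff, implies_true, and_true] at r4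
  rw [e7] at h
  simp only [pr_cons, pr_nil] at h ⊢
  generalize u (rt 6) = a, u (rt 8) = c, u (rt 9) = d, u (rt 10) = e, u (rt 11) = f at h ⊢
  have h' := h.trans (show (1 : G) = S.x (rt 6) 0 * (S.x (rt 7) 0 * (S.x (rt 8) 0 * (S.x (rt 9) 0 *
      (S.x (rt 10) 0 * (S.x (rt 11) 0 * 1))))) by simp)
  simp only [mul_assoc, one_mul, s76, s87, r1, r2, r3, r4, mg] at h'
  obtain ⟨-, -, k1, -, k2, -⟩ := e_inj h'
  obtain rfl : a = 0 := mul_left_cancel₀ ht (by linear_combination k1 - (a * t + c) * h2)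
  obtain rfl : d = t * c := mul_left_cancel₀ ht (by linear_combination k2 - (e + t ^ 2 * c) * h2)
  obtain ⟨v, rfl⟩ : ∃ v, c = t * v := ⟨t⁻¹ * c, by field_simp⟩
  obtain ⟨w, rfl⟩ : ∃ w, e = v * t ^ 3 - t * w := ⟨t⁻¹ * (v * t ^ 3 - e), by field_simp; ring⟩
  refine ⟨S.x (rt 9) w * (S.x (rt 6) v * 1), mul_mem (S.x_mem_U ((hT _).1 (by simp)) _)
    (mul_mem (S.x_mem_U ((hT _).1 (by simp)) _) (one_mem _)), S.x (rt 11) (t * v * w + f),
    S.x_mem_U (Set.mem_inter ((hT _).1 (by simp))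
      (by simp only [Set.mem_setOf_eq]; decide +kernel)) _, ?_⟩
  rw [mul_inv_eq_iff_eq_mul, e7]
  simp only [mul_assoc, one_mul, s76, s87, r1, r2, r3, r4, mg, x_zero]
  rw [show t * v = v * t by ring, show w + t * (v * t) = v * t ^ 2 + w by ring,
    show t * w + (v * t ^ 3 - t * w) = v * t ^ 3 by ring]

theorem red (J : Set (Fin chevG2.rank)) (i : Fin chevG2.rank) (hi : i ∈ J) :
    S.Red i {r | (certG2.R.Pos r ∧ certG2.R.InJ J r) ∧ r ≠ certG2.R.simple i} := by
  have h01 : ∀ j : Fin chevG2.rank, j = nd 0 ∨ j = nd 1 := by decide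
  rcases h01 i with rfl | rfl
  · by_cases h : nd 1 ∈ J
    · obtain rfl : J = Set.univ := Set.eq_univ_of_forall fun j => by
        rcases h01 j with rfl | rfl <;> assumption
      exact red0
    · have : {r | (certG2.R.Pos r ∧ certG2.R.InJ J r) ∧ r ≠ certG2.R.simple (nd 0)} = ∅ := by
        refine Set.eq_empty_of_forall_notMem fun r hr => ?_
        have : ∀ r, certG2.R.Pos r → certG2.R.vec r (nd 1) = 0 → r = certG2.R.simple (nd 0) := by
          decide +kernel
        exact hr.2 (this r hr.1.1 (hr.1.2 _ h))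
      rw [this]
      intro t _ y hy _
      rw [U_empty, Subgroup.mem_bot] at hy
      exact ⟨1, one_mem _, 1, one_mem _, by simp [hy]⟩
  · exact red_J (by decide +kernel) hi

theorem classes (K : Type*) [Field K] [Finite K] [CharP K 2] : certG2.Classes K [[11], [9]] :=
  certG2.classes_of (reps := [([], [0, 0], [1, 1]), ([11], [0, 1], [1, 1]), ([9], [1, 0], [1, 1])])
    (fz := ([], [], [])) (tbl := [([], []), ([11], []), ([9], []),
      ([6, 9], [.m [7] [6, 8, 11], .m [9] [6, 8], .m [4] [8], .w [0]]),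
      ([7, 11], [.w [0, 1], .p [6, 9], .m [7] [6, 8, 11], .m [9] [6, 8], .m [4] [8], .w [0]])])
    (by decide +kernel) rfl (by decide +kernel) red (by decide +kernel) (by decide +kernel)
    (by decide +kernel) (by decide +kernel) (by decide +kernel) (by decide)

theorem cent11 (h3 : S.R3) : S.grp ⊓ Subgroup.centralizer {S.x (rt 11) 1} = S.Up ⊔ S.U {rt 4} :=
  cent_root h3 (by decide +kernel) (nd 1)
    (fun r hr => RS.Cm.commute (p := 2) (by revert r; decide +kernel) _)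
    (fun j hj => RS.Cm.commute (p := 2) (by revert j; decide +kernel) _) (by decide +kernel)
    (by decide +kernel) (fun r => by simp only [Set.mem_singleton_iff]; revert r; decide +kernel)

theorem cent9 (h3 : S.R3) : S.grp ⊓ Subgroup.centralizer {S.x (rt 9) 1} =
    S.U {rt 9, rt 10, rt 11, rt 6, rt 5} := by
  classical
  have key : ∀ e, S.U {rt 9, rt 10, rt 11, rt 6, rt 5} ≤ Subgroup.centralizer {S.x (rt 9) e} :=
    fun e => by
      rw [U_le_iff]
      intro r hr u
      have : certG2.R.Cm 2 (rt 9) r := by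
        simp only [Set.mem_insert_iff, Set.mem_singleton_iff] at hr
        revert r; decide +kernel
      exact Subgroup.mem_centralizer_singleton_iff.2 (this.commute _ e u).eq
  have hM : S.U {r | certG2.R.InJ {nd 1} r} ≤ S.U {rt 9, rt 10, rt 11, rt 6, rt 5} :=
    U_inJ_le (by
      rintro _ rfl t; exact S.x_mem_U (by
        simp only [Set.mem_insert_iff, Set.mem_singleton_iff]; decide +kernel) t) (by
      rintro _ rfl t; exact S.x_mem_U (by
        simp only [Set.mem_insert_iff, Set.mem_singleton_iff]; decide +kernel) t)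
  let f : Fin chevG2.rank → ℤ := fun _ => 1
  have hf : ∀ j, 0 ≤ f j := fun _ => zero_le_one
  have ess : S.Ess (S.x (rt 9) 1) (rt 9) := by
    simpa [w1, wd_cons] using ess_w1 (S := S) (L := [rt 9]) (a := rt 9) (φ := fun _ => 1)
      (fun _ => one_pos) (by simp) (by simp) (by decide +kernel) (by simp)
  refine le_antisymm (cent_le (L := [rt 9]) (J := {nd 1}) (by simpa using ess)
    (closed_ev f three_pos) (fun _ h => RS.pos_of_ev_pos hf (three_pos.trans_le h))
    (Up_le_normalizer_ev hf three_pos) (S.x_mem_U (by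
      simp only [Set.mem_setOf_eq]; decide +kernel) 1) (fun w hw _ => ?_) hM (key 1) fun b hb => ?_)
    (le_inf (S.U_le_grp _) (key 1))
  · have e : ∀ a, 3 ≤ certG2.R.ev f a → certG2.R.nm a = certG2.R.nm (rt 9) → a = rt 9 := by
      decide +kernel
    refine RS.WJ_mono (fun j => ?_) (mem_WJ_of_fix (by decide +kernel)
      (e _ (hw (rt 9) (by simp)) (RS.nm_act _ _)))
    simp only [Set.mem_singleton_iff, Set.mem_setOf_eq]
    revert j; decide +kernel
  obtain ⟨u, hu, y, hy, rfl⟩ := S.nconj.mem_B.1 hb.1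
  obtain ⟨t, rfl⟩ := S.exists_nf certG2.R.closed_pos (fun _ h => certG2.R.fv_one_pos h)
    (L := [rt 6, rt 7, rt 8, rt 9, rt 10, rt 11]) (by decide) (fun r => by
        simp only [Set.mem_setOf_eq]; revert r; decide +kernel) hu
  obtain ⟨c, rfl, hc⟩ := S.nconj.exists_chi h3 hy
  have e := mem_cent.1 hb.2
  have e1 := hc.conj (rt 9) 1
  rw [RS.act_one, mul_one] at e1
  rw [mul_inv_rev, mul_assoc (S.pr _ _), mul_assoc (S.pr _ _), ← mul_assoc (_ * S.x _ _), e1,
    ← mul_assoc, mul_inv_eq_iff_eq_mul] at e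
  obtain ⟨r1, r2, r3, r4⟩ := sws (S := S)
  simp only [List.forall_mem_cons, List.not_mem_nil, false_imp_iff, implies_true, and_true] at r4
  rw [← mul_one (S.pr _ _ * _)] at e
  simp only [pr_cons, pr_nil, mul_assoc, one_mul, s76, s87, r1, r2, r3, r4, mg] at e
  obtain ⟨-, -, -, k1, k2, k3⟩ := e_inj e
  have k4 : t (rt 7) = 0 := by linear_combination -k2
  have k5 : t (rt 8) = 0 := by linear_combination -k3
  have k6 : ((certG2.R.chi (certG2.R.cm Kˣ c) (rt 9) : Kˣ) : K) = 1 := by linear_combination k1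
  rw [Units.val_eq_one, RS.chi_cm] at k6
  have hA : ∀ i, certG2.R.A (nd i) (rt 9) = ![1, 0] i := by decide +kernel
  change ∏ i : Fin 2, c (nd i) ^ certG2.R.A (nd i) _ = 1 at k6
  simp only [hA, Fin.prod_univ_two, Matrix.cons_val, zpow_zero, zpow_one, mul_one] at k6
  refine mul_mem (S.pr_mem fun r hr => ?_) (hM (Theta_mem_U h3 fun i hi => ?_))
  · simp only [List.mem_cons, List.not_mem_nil, or_false] at hr
    rcases hr with rfl | rfl | rfl | rfl | rfl | rfl <;> simp [k4, k5]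
  · have : ∀ i, i ≠ nd 1 → i = nd 0 := by decide
    rw [this i hi]; exact k6

end Chev.G2
end H6
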