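import Cfsg.Agent.H6.InvTE6
import Cfsg.Agent.H6.TwD4

/-! Involutions of `D₄(q)` and `³D₄(q)` in characteristic two. -/

set_option autoImplicit false
set_option linter.unusedSectionVars false

namespace H6
open Cfsg StSys

lemma StSys.conj_wd_one {Φ ι : Type} [Fintype ι] [DecidableEq ι] {R : RS Φ ι} {F : Type*} [Field F]
    [CharP F 2] {G : Type*} [Group G] (S : StSys R F G) {β r k : Φ} (L₁ L₂ : List (Φ × F))
    (h : (β ≠ r ∧ β ≠ R.neg r ∧ R.t2 r β = [(k, 1, 1)]) ∧ R.Cm 2 k β ∧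
      (∀ p ∈ L₁.map Prod.fst ++ L₂.map Prod.fst, R.Cm 2 p β) ∧ ∀ p ∈ L₂.map Prod.fst, R.Cm 2 p k)
    (t u s : F) : S.x β u * (S.wd (L₁ ++ (r, t) :: L₂) * S.x k s) * (S.x β u)⁻¹ =
      S.wd (L₁ ++ (r, t) :: L₂) * S.x k (t * u + s) := by
  have c : ∀ (L : List (Φ × F)) b v, (∀ p ∈ L.map Prod.fst, R.Cm 2 p b) → Commute (S.x b v) (S.wd L) :=
    fun L b v h => Commute.list_prod_right _ _ (by
      rw [List.forall_mem_map] at h ⊢
      exact fun p hp => (h p hp).commute S _ v)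
  have c1 := c L₁ β u fun p hp => h.2.2.1 p (List.mem_append_left _ hp)
  have c2 := c L₂ β u fun p hp => h.2.2.1 p (List.mem_append_right _ hp)
  rw [wd_append, wd_cons, S.add]
  calc _ = S.wd L₁ * (S.x β u * S.x r t * (S.x β u)⁻¹) * S.wd L₂ * S.x k s := by
        simp only [mul_assoc, c1.left_comm, c2.inv_left.left_comm, (h.2.1.commute S s u).inv_left.eq]
    _ = _ := by rw [S.conj2 h.1 h.2.1]; simp only [mul_assoc, (c L₂ k _ h.2.2.2).left_comm]

namespace Chev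
open Cfsg.Lie

theorem Cert.eq_of_conj' {D : ChevalleyDatum} (C : Cert D) {F : Type*} [Field F]
    {reps : List (List ℕ × List ℤ × List ℤ)} (h : (reps.all fun e => chkGd C.Z e.1 e.2.1 e.2.2) = true)
    (h' : (reps.map fun e => (List.range C.Z.n).map (evZ C.Z e.2.1)).Nodup) {L L' : List ℕ}
    (hL : L ∈ reps.map Prod.fst) (hL' : L' ∈ reps.map Prod.fst) (hc : IsConj (C.wn F L) (C.wn F L')) :
    L = L' := by
  obtain ⟨p, hp, rfl⟩ := List.mem_map.1 hL
  obtain ⟨q, hq, rfl⟩ := List.mem_map.1 hL'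
  have h1 := C.ev_eq (List.all_eq_true.1 h p hp)
  have h2 := C.ev_eq (List.all_eq_true.1 h q hq)
  obtain ⟨g, e⟩ := isConj_iff.1 hc
  obtain ⟨w, hw⟩ := ChevSys.da_of_conj h1.2 h2.2 (C.gsys_grp.ge trivial) e
  rw [RS.eq_of_dom h1.2.2.1 (hw ▸ h2.2.2.1)] at hw
  rw [List.inj_on_of_nodup_map h' hp hq (List.map_congr_left fun r hr => by
    have hr' := (List.mem_range.1 hr).trans_eq C.n_eq
    rw [← h1.1 ⟨r, hr'⟩, ← h2.1 ⟨r, hr'⟩, hw])]

/-- representatives -/
def repsD4 : List (List ℕ × List ℤ × List ℤ) :=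
  [([], [0, 0, 0, 0], [1, 1, 1, 1]), ([23], [0, 1, 0, 0], [1, 1, 1, 1]), ([20, 21], [2, 0, 0, 0], [1, 1, 1, 1]), ([17, 20], [0, 0, 0, 2], [1, 1, 1, 1]), ([21, 17], [0, 0, 2, 0], [1, 1, 1, 1]), ([17, 20, 21], [1, 0, 1, 1], [1, 1, 1, 1])]

/-- conjugations -/
def tblD4 : List (List ℕ × List Stp) :=
  [([], []),
   ([23], []),
   ([12, 23], [.w [0, 1, 1, 2, 0, 1]]),
   ([13, 23], [.w [3, 1, 1, 3, 0, 1]]),
   ([18, 23], [.w [2, 1, 1, 3, 2, 1]]),
   ([23, 12, 13], [.w [0, 1]]),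
   ([12, 23, 18], [.w [0, 1, 1, 2, 0, 1]]),
   ([13, 18, 23], [.w [0, 1, 1, 3, 0, 1]]),
   ([12, 13, 18, 23], [.m [2, 13, 18, 23, 2, 13, 18, 23] [13, 18, 23], .w [0, 1, 1, 3, 0, 1]])]

theorem classesD4 (F : Type*) [Field F] [Finite F] [CharP F 2] :
    certD4.Classes F [[23], [20, 21], [17, 20], [21, 17], [17, 20, 21]] :=
  have hsq := certD4.wn_sq (F := F) (reps := [[23], [20, 21], [17, 20], [21, 17], [17, 20, 21]])
    (by decide +kernel)
  ⟨hsq.1, hsq.2, fun _ => certD4.exists_rep (tbl := tblD4) (fz := ([], [], []))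
    (certD4.orth (by decide +kernel) _) (fun _ i hi => ChevSys.red_J (by clear hi; revert i; decide +kernel) hi)
    (by decide +kernel) (by decide +kernel) (by decide +kernel), fun _ hL _ hL' =>
    certD4.eq_of_conj' (reps := repsD4) (by decide +kernel) (by decide +kernel) hL hL', by decide⟩

namespace D4

/-- roots -/
def rt (i : Fin 24) : Fin chevD4.nroots := i

variable {K : Type*} [Field K] [Fintype K] [CharP K 2] {q : ℕ}

lemma conj3 {G : Type*} [Group G] (S : StSys certD4.R K G) (i : Fin 2) (a b c d e u v w : K) :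
    S.wd [(rt (![18, 19] i), u), (rt (![13, 16] i), v), (rt (![12, 15] i), w)] *
      S.wd [(rt 17, a), (rt 20, b), (rt 21, c), (rt 22, d), (rt 23, e)] *
      (S.wd [(rt (![18, 19] i), u), (rt (![13, 16] i), v), (rt (![12, 15] i), w)])⁻¹ =
      S.wd [(rt 17, a), (rt 20, b), (rt 21, c), (rt 22, d), (rt 23, e)] *
        S.x (rt (![22, 23] i)) (a * u + b * v + c * w) := by
  have h1 := S.conj_wd_one (β := rt (![12, 15] i)) (r := rt 21) (k := rt (![22, 23] i))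
    [(rt 17, a), (rt 20, b)] [(rt 22, d), (rt 23, e)]
    (by simp only [List.map]; revert i; decide +kernel) c w 0
  have h2 := S.conj_wd_one (β := rt (![13, 16] i)) (r := rt 20) (k := rt (![22, 23] i))
    [(rt 17, a)] [(rt 21, c), (rt 22, d), (rt 23, e)]
    (by simp only [List.map]; clear h1; revert i; decide +kernel) b v (c * w + 0)
  have h3 := S.conj_wd_one (β := rt (![18, 19] i)) (r := rt 17) (k := rt (![22, 23] i))
    [] [(rt 20, b), (rt 21, c), (rt 22, d), (rt 23, e)]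
    (by simp only [List.map]; clear h1 h2; revert i; decide +kernel) a u (b * v + (c * w + 0))
  simp only [List.cons_append, List.nil_append] at h1 h2 h3
  rw [← h2, ← h1, add_zero, ← add_assoc] at h3
  rw [← h3]; simp [wd, mul_assoc]

theorem class3 {X : Tw (certD4.sys K) symD4} {f : K →+* K} (h : Pack X f q) (hf : ∀ r t, X.φ r t = f t)
    (hfff : ∀ t, f (f (f t)) = t) {y : GL _ K}
    (h1 : y ∈ (certD4.sys K).U {r | r ∈ [17, 20, 21, 22, 23].map rt}) (h2 : y ∈ X.Fx)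
    (h3 : y ∉ (certD4.sys K).U {r | r ∈ [22, 23].map rt}) :
    ∃ g ∈ twistedD4 K q, g * y * g⁻¹ = (certD4.sys K).w1 ([17, 20, 21].map rt) := by
  have ho := certD4.orth (F := K) (by decide +kernel) (certD4.sys K)
  have hΓ := h.good
  have tr : ∀ {a b c : GL _ K}, (∃ g ∈ twistedD4 K q, g * a * g⁻¹ = b) →
      (∃ g ∈ twistedD4 K q, g * b * g⁻¹ = c) → ∃ g ∈ twistedD4 K q, g * a * g⁻¹ = c :=
    fun ⟨g, hg, e⟩ ⟨g', hg', e'⟩ => ⟨g' * g, mul_mem hg' hg, by rw [← e', ← e]; group⟩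
  obtain ⟨τ, rfl⟩ := (certD4.sys K).exists_nf (T := {r | r ∈ [17, 20, 21, 22, 23].map rt})
    (fun r hr s hs k hk => (RS.closed_of_ev (A := {r | r ∈ [17, 20, 21, 22, 23].map rt})
    (f := certD4.R.lam ([17, 20, 21].map rt)) (by decide +kernel) (by
      simp only [Set.mem_setOf_eq]; decide +kernel) r hr s hs k hk).elim) (f := fun _ => 1)
    (by simp only [Set.mem_setOf_eq]; decide +kernel) (L := [17, 20, 21, 22, 23].map rt) (by decide)
    (fun _ => Iff.rfl) h1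
  rw [pr_eq_wd, Tw.wd_mem_Fx] at h2
  simp only [List.map_cons, List.map_nil, hf, show symD4.ρ (rt 17) = rt 20 ∧ symD4.ρ (rt 20) = rt 21 ∧
    symD4.ρ (rt 21) = rt 17 ∧ symD4.ρ (rt 22) = rt 22 ∧ symD4.ρ (rt 23) = rt 23 by decide +kernel] at h2
  have h4 := (certD4.sys K).inj.wd_inj (w := [(rt 17, f (τ (rt 21))), (rt 20, f (τ (rt 17))),
    (rt 21, f (τ (rt 20))), (rt 22, f (τ (rt 22))), (rt 23, f (τ (rt 23)))])
    (w' := [(rt 17, τ (rt 17)), (rt 20, τ (rt 20)), (rt 21, τ (rt 21)), (rt 22, τ (rt 22)),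
      (rt 23, τ (rt 23))]) rfl
    (by simp only [List.map]; decide) (by simp only [List.map]; decide +kernel) (by
      rw [← h2]
      simp only [wd_cons, (ho (rt 20) (rt 17) (by decide +kernel) _ _).left_comm,
        (ho (rt 21) (rt 17) (by decide +kernel) _ _).left_comm])
  simp only [List.cons.injEq, Prod.mk.injEq, true_and, and_true] at h4
  obtain ⟨-, e2, e3, e4, e5⟩ := h4
  rw [pr_eq_wd] at h3 ⊢
  simp only [List.map_cons, List.map_nil, ← e3, ← e2] at h3 ⊢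
  generalize τ (rt 17) = t at h3 ⊢
  have ht : t ≠ 0 := fun e => h3 (by
    simp only [e, map_zero, wd_cons, x_zero, one_mul]
    exact mul_mem ((certD4.sys K).x_mem_U (by simp) _) (mul_mem ((certD4.sys K).x_mem_U (by simp) _)
      (one_mem _)))
  have hy : ∀ i : Fin 2, ∀ u, (certD4.sys K).wd [(rt (![18, 19] i), u), (rt (![13, 16] i), f u),
      (rt (![12, 15] i), f (f u))] ∈ twistedD4 K q := fun i u =>
    hΓ.Up_le ⟨(certD4.sys K).wd_mem (by
      simp only [List.forall_mem_cons, Set.mem_setOf_eq]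
      exact ⟨by revert i; decide +kernel, by revert i; decide +kernel, by revert i; decide +kernel,
        by simp⟩), Tw.wd_mem_Fx.2 (by
      simp only [List.map_cons, List.map_nil, hf, hfff, show symD4.ρ (rt (![18, 19] i)) = rt (![13, 16] i)
        ∧ symD4.ρ (rt (![13, 16] i)) = rt (![12, 15] i) ∧ symD4.ρ (rt (![12, 15] i)) = rt (![18, 19] i) by
          revert i; decide +kernel, wd_cons, wd_nil, mul_one]
      rw [← (ho (rt (![12, 15] i)) (rt (![18, 19] i)) (by revert i; decide +kernel) _ _).eq,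
        (ho (rt (![13, 16] i)) (rt (![18, 19] i)) (by revert i; decide +kernel) _ _).left_comm])⟩
  have tri : ∀ s, f s = s → t * (s / t) + f t * f (s / t) + f (f t) * f (f (s / t)) = s := fun s hs => by
    simp only [← map_mul, mul_div_cancel₀ _ ht, hs, CharTwo.add_self_eq_zero, zero_add]
  refine tr ⟨_, hy 1 (τ (rt 23) / t), conj3 _ 1 _ _ _ _ _ _ _ _⟩ ?_
  rw [tri _ e5, show (certD4.sys K).wd _ * _ = (certD4.sys K).wd [(rt 17, t), (rt 20, f t),
    (rt 21, f (f t)), (rt 22, τ (rt 22)), (rt 23, 0)] by simp [wd, mul_assoc, x_mul_self]]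
  refine tr ⟨_, hy 0 (τ (rt 22) / t), conj3 _ 0 _ _ _ _ _ _ _ _⟩ ?_
  rw [tri _ e4, show (certD4.sys K).wd _ * _ = (certD4.sys K).wd [(rt 17, t), (rt 20, f t),
    (rt 21, f (f t))] by simp [wd, mul_assoc, x_mul_self]]
  obtain ⟨b, hb⟩ : ∃ b : K, b ^ 2 = t⁻¹ := Finite.injective_iff_surjective.1 (frobenius_inj K 2) _
  have hb0 : b ≠ 0 := fun e => inv_ne_zero ht (by rw [← hb, e]; simp)
  have h0 : ∀ a : K, a ≠ 0 → f a ≠ 0 := fun a => (map_ne_zero f).2
  let c : Fin chevD4.rank → Kˣ := (![.mk0 _ (mul_ne_zero (h0 _ hb0) (h0 _ (h0 _ hb0))), 1,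
    .mk0 _ (mul_ne_zero (h0 _ (h0 _ hb0)) hb0), .mk0 _ (mul_ne_zero hb0 (h0 _ hb0))] : Fin 4 → Kˣ)
  refine ⟨_, h.Theta_mem (c := c) (mem_fix.2 (by simp [c, nd, Units.ext_iff, hfff])), ?_⟩
  rw [ChevSys.ActsC.conj_wd ((certD4.sys K).nconj.actsC_Theta _ _)]
  have hA : (∀ i, certD4.R.A (nd i) (rt 17) = ![-1, 0, 1, 1] i) ∧
    (∀ i, certD4.R.A (nd i) (rt 20) = ![1, 0, -1, 1] i) ∧
    ∀ i, certD4.R.A (nd i) (rt 21) = ![1, 0, 1, -1] i := by decide +kernel
  have hc : ∀ r, certD4.R.chi (certD4.R.cm Kˣ c) r = ∏ i : Fin 4, c (nd i) ^ certD4.R.A (nd i) r :=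
    fun r => RS.chi_cm _ _ _
  have ht' : t = (b ^ 2)⁻¹ := by rw [hb, inv_inv]
  have := h0 _ hb0
  have := h0 _ (h0 _ hb0)
  simp only [List.map_cons, List.map_nil, RS.act_one, hc, hA, Fin.prod_univ_four, w1, ht']
  have hv : (c (nd (0 : Fin 4)) : K) = f b * f (f b) ∧ (c (nd (1 : Fin 4)) : K) = 1 ∧
    (c (nd (2 : Fin 4)) : K) = f (f b) * b ∧ (c (nd (3 : Fin 4)) : K) = b * f b := ⟨rfl, rfl, rfl, rfl⟩
  clear_value c
  congr 3 <;> [skip; congr 2; congr 3] <;> simp [hv] <;> field_simp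

theorem ncard_inv (hK : Fintype.card K = q ^ 3) :
    (ConjClasses.mk '' {g : twistedD4 K q | orderOf g = 2}).ncard = 2 := by
  have hq : IsPrimePow q := (isPrimePow_pow_iff three_ne_zero).1 (hK ▸ Fintype.isPrimePow_card_of_field)
  obtain ⟨X, f, h⟩ := exists_pack hq hK
  have hf : ∀ r t, X.φ r t = f t := fun r t => by
    have : (grD4.ε r = 1 ∨ grD4.ε r = -1) ∧ grD4.lam r = 1 := by revert r; decide +kernel
    rcases this.1 with e | e <;> simp [h.hX, e, this.2, CharTwo.neg_eq]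
  have ho := certD4.orth (F := K) (by decide +kernel) (certD4.sys K)
  have hΓ := h.good
  have hfff : ∀ t, f (f (f t)) = t := fun t => by
    rw [h.hf, h.hf, h.hf, ← pow_mul, ← pow_mul, ← pow_three, ← hK, FiniteField.pow_card]
  have hm : ∀ L, ((L.map symD4.ρ).Perm L ∧ L.Pairwise fun a b => certD4.R.pair a b = 0) →
      (∀ a ∈ L, certD4.R.Pos a) → (certD4.sys K).w1 L ∈ twistedD4 K q := fun L h1 h2 =>
    hΓ.Up_le ⟨(certD4.sys K).w1_mem h2, (certD4.sys K).w1_mem fun _ _ => trivial, Tw.σ_w1_eq hf ho h1⟩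
  refine (classesD4 K).ncard_tw (fun _ hg => (hΓ.le hg).1) [([rt 23], []), ([17, 20, 21].map rt, [])]
    (fun m hm' => hm _ (by revert m; decide +kernel) (by revert m; decide +kernel))
    (by decide +kernel) (by decide +kernel) fun z hz hz2 => ?_
  obtain ⟨L, hL, g, hg, e⟩ := (classesD4 K).ex_sys (hΓ.le hz).1 hz2
  have tr : ∀ {a b c : GL _ K}, (∃ g ∈ twistedD4 K q, g * a * g⁻¹ = b) →
      (∃ g ∈ twistedD4 K q, g * b * g⁻¹ = c) → ∃ g ∈ twistedD4 K q, g * a * g⁻¹ = c :=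
    fun ⟨g, hg, e⟩ ⟨g', hg', e'⟩ => ⟨g' * g, mul_mem hg' hg, by rw [← e', ← e]; group⟩
  have cj := fun γ hγ => mul_mem (mul_mem hγ hz) (inv_mem (x := γ) hγ)
  have key : ∀ L : List _, L ≠ L.map symD4.ρ → L.map Fin.val ∈ [[23], [20, 21], [17, 20], [21, 17],
      [17, 20, 21]] → (L.map symD4.ρ).map Fin.val ∈ [[23], [20, 21], [17, 20], [21, 17], [17, 20, 21]] →
      g * (certD4.sys K).w1 L * g⁻¹ ≠ z := fun L h1 h2 h3 e => by
    have e2 := (hΓ.le hz).2
    rw [← e, X.σ_mul3 hg ((certD4.sys K).w1_mem fun _ _ => trivial) (inv_mem hg), X.σ_inv hg,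
      Tw.σ_w1 hf] at e2
    exact h1 ((classesD4 K).uniq_sys h2 h3 (mul_mem (inv_mem (X.σ_mem_grp hg)) hg) (by
      rw [eq_comm, ← mul_left_inj (X.σ g)⁻¹, ← mul_right_inj (X.σ g), ← mul_assoc, e2]; group))
  simp only [List.mem_cons, List.not_mem_nil, or_false, exists_eq_or_imp, exists_eq_left] at hL ⊢
  rcases hL with rfl | rfl | rfl | rfl | rfl
  · obtain ⟨γ, hγ, h1, -⟩ := hΓ.reduce (certD4.ev_eq (f := [0, 1, 0, 0]) (φ := [1, 1, 1, 1])
      (by decide +kernel)).2 (by decide) (Tw.σ_w1_eq hf ho (by decide +kernel)) {1}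
      (by simp only [Set.mem_singleton_iff]; decide +kernel) hz hg e
    obtain ⟨L, hL, h2⟩ := hΓ.last hf ho (pre := []) (r := rt 23) (by decide +kernel)
      ⟨(certD4.sys K).U_mono (by intro r; revert r; decide +kernel) h1, cj γ hγ⟩
    obtain ⟨g, hg, e⟩ := tr ⟨γ, hγ, (one_mul _).symm⟩ h2
    rcases List.mem_pair.1 hL with rfl | rfl
    · rw [conj_eq_one e] at hz2; simp at hz2
    · exact Or.inl ⟨g, hg, e⟩
  · exact (key [rt 20, rt 21] (by decide +kernel) (by decide) (by decide +kernel) e).elim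
  · exact (key [rt 17, rt 20] (by decide +kernel) (by decide) (by decide +kernel) e).elim
  · exact (key [rt 21, rt 17] (by decide +kernel) (by decide) (by decide +kernel) e).elim
  obtain ⟨γ, hγ, h1, h3⟩ := hΓ.reduce (certD4.ev_eq (f := [1, 0, 1, 1]) (φ := [1, 1, 1, 1])
    (by decide +kernel)).2 (by decide) (Tw.σ_w1_eq hf ho (by decide +kernel)) {0}
    (by simp only [Set.mem_singleton_iff]; decide +kernel) hz hg e
  exact Or.inr (tr ⟨γ, hγ, rfl⟩ (class3 h hf hfff ((certD4.sys K).U_mono (by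
    intro r; revert r; decide +kernel) h1) (hΓ.le (cj γ hγ)) fun h => h3 ((certD4.sys K).U_mono (by
      intro r; revert r; decide +kernel) h)))

end D4
end Chev
end H6
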