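import Cfsg.Agent.H6.TwKill
import Cfsg.Agent.H6.InvE6
import Cfsg.Agent.H6.TwE6

/-! Involutions of `²E₆(q)` in characteristic two. -/

set_option autoImplicit false
set_option linter.unusedSectionVars false

namespace H6
open Cfsg StSys

section generic
variable {Φ ι κ : Type} [Fintype ι] [DecidableEq ι] {R : RS Φ ι} {F : Type*} [Field F]
  {G : Type*} [Group G] [Fintype Φ] {S : ChevSys R F G} {T : Sym R κ} {X : Tw S T} {Γ : Subgroup G}

lemma StSys.w1_append (S : StSys R F G) (L L' : List Φ) : S.w1 (L ++ L') = S.w1 L * S.w1 L' := by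
  simp [w1, wd_append]

lemma ChevSys.nw_conj_w1 [CharP F 2] (l : List ι) (L : List Φ) :
    S.nw l * S.w1 L * (S.nw l)⁻¹ = S.w1 (L.map (R.act (R.gen.wp l))) := by
  induction L with
  | nil => simp [w1]
  | cons a L ih => rw [List.map_cons, w1_cons, w1_cons, ← ih, ← ChevSys.nw_conj_two]; group

lemma RS.act_wp (l : List ι) (r : Φ) : R.act (R.gen.wp l) r = l.foldr R.refl r := by
  induction l with
  | nil => rfl
  | cons i l ih => rw [InvGen.wp_cons, R.act_mul, ih]; rfl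

/-- reduction to the canonical parabolic subgroup -/
theorem Tw.Good.reduce (hΓ : X.Good Γ) {L : List Φ} (h : L.Nodup ∧ (∀ j, 0 ≤ R.lam L j) ∧ ∀ a ∈ L,
      R.ev (R.lam L) a = 2 ∧ ∃ φ : ι → ℤ, (∀ j, 0 < φ j) ∧ ∀ b ∈ L, R.fv φ a ≤ R.fv φ b)
    (hL : L ≠ []) (hF : X.σ (S.w1 L) = S.w1 L) (K : Set κ) (hK : ∀ j, R.lam L j = 0 ↔ T.cls j ∈ K)
    {z g : G} (hz : z ∈ Γ) (hg : g ∈ S.grp) (e : g * S.w1 L * g⁻¹ = z) : ∃ γ ∈ Γ,
      γ * z * γ⁻¹ ∈ S.U {r | 2 ≤ R.ev (R.lam L) r} ∧ γ * z * γ⁻¹ ∉ S.U {r | 3 ≤ R.ev (R.lam L) r} := by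
  have hw : S.w1 L ∈ S.grp := S.w1_mem fun _ _ => trivial
  have h1 := ChevSys.mem_P_of_cent h (mul_mem (inv_mem hg) (X.σ_mem_grp hg)) (by
    have := (hΓ.le hz).2
    rw [← e, X.σ_mul3 hg hw (inv_mem hg), X.σ_inv hg, hF] at this
    calc _ = g⁻¹ * (X.σ g * S.w1 L * (X.σ g)⁻¹) * g := by group
      _ = _ := by rw [this]; group)
  have hJ : {j | R.lam L j = 0} = T.J K := Set.ext hK
  obtain ⟨γ, hγ, h2⟩ := hΓ.exists_mem_P (K := K) (inv_mem hg) (by rwa [X.σ_inv hg, inv_inv, ← hJ])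
  rw [← hJ] at h2
  have e1 : γ * z * γ⁻¹ = (g⁻¹ * γ⁻¹)⁻¹ * S.w1 L * (g⁻¹ * γ⁻¹) := by rw [← e]; group
  refine ⟨γ, hγ, e1 ▸ conj_mem_of_normalizer (ChevSys.P_le_normalizer_ev h.2.1 two_pos h2)
    (S.w1_mem fun a ha => (h.2.2 a ha).1.ge), fun h3 => ?_⟩
  have h4 := (norm_iff (ChevSys.P_le_normalizer_ev h.2.1 three_pos h2) _).2 h3
  obtain ⟨a, ha⟩ := List.exists_mem_of_ne_nil L hL
  exact one_ne_zero (S.inj.coord_eq_zero (ChevSys.closed_ev (R.lam L) three_pos) (fun r hr =>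
    RS.pos_of_ev_pos h.2.1 (three_pos.trans_le hr)) h.1 (fun r hr => RS.pos_of_ev_pos h.2.1 (by
      rw [(h.2.2 r hr).1]; norm_num)) (t := fun _ => 1) (by
        simpa [e1, mul_assoc, w1, pr_eq_wd] using h4) a ha (by simp [(h.2.2 a ha).1]))

variable [CharP F 2] [Finite F] {f : F →+* F} (hf : ∀ r t, X.φ r t = f t) (hΓ : X.Good Γ)
  (ho : ∀ r s, R.pair r s = 0 → ∀ t u, Commute (S.x s u) (S.x r t))
include ho

omit [Finite F] in
lemma conj_w1_of_perp {pre : List Φ} {g : G} (hg : g ∈ S.U {r | ∀ p ∈ pre, R.pair p r = 0}) (y : G) :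
    g * (S.w1 pre * y) * g⁻¹ = S.w1 pre * (g * y * g⁻¹) := by
  have : Commute g (S.w1 pre) := Subgroup.mem_centralizer_singleton_iff.1 ((U_le_iff _).2 (fun r hr u =>
    Subgroup.mem_centralizer_singleton_iff.2 (Commute.list_prod_right _ _ (by
      simpa using fun p hp => ho p r (hr p hp) 1 u))) hg)
  simp only [← mul_assoc, this.eq]

include hf hΓ

theorem Tw.Good.last {pre : List Φ} {r : Φ} (hr : T.ρ r = r ∧ ∀ p ∈ pre, R.pair p r = 0) {y : G}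
    (hy : y ∈ S.U {a | a ∈ [r]} ⊓ Γ) : ∃ L ∈ [pre, pre ++ [r]], ∃ g ∈ Γ,
      g * (S.w1 pre * y) * g⁻¹ = S.w1 L := by
  obtain ⟨t, rfl⟩ := S.mem_U_singleton.1 (S.U_mono (fun _ h => List.mem_singleton.1 h) (il hy))
  by_cases ht : t = 0
  · exact ⟨pre, by simp, 1, one_mem _, by simp [ht]⟩
  obtain ⟨c, -, h1, h2⟩ := hΓ.exists_h hf hr.1 ht (hΓ.le (ir hy))
  exact ⟨pre ++ [r], by simp, _, h1, by
    rw [conj_w1_of_perp ho (S.h_mem_U (by exact hr.2) (by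
      intro p hp; rw [R.pair_neg_right, hr.2 p hp, neg_zero]) _), h2, w1_append]; simp [w1, wd]⟩

theorem Step.chain [DecidableEq Φ] {pre A A₃ A₄ B Ψ : List Φ} {r₀ s₀ γ : Φ} {lam : ι → ℤ}
    {tbl : List (Φ × List κ)} (h : Step T pre A A₃ A₄ B Ψ r₀ s₀ γ lam tbl)
    (hsl : ∀ r s, R.nm r = R.nm s) (hn : ∀ k, S.nw (T.wd k) ∈ Γ) (hff : ∀ t, f (f t) = t)
    (hf1 : ∃ t, f t ≠ t) {y : G} (hy : y ∈ S.U {a | a ∈ r₀ :: A} ⊓ Γ) (h3 : y ∉ S.U {a | a ∈ A₃}) :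
    ∃ g ∈ Γ, ∃ c ∈ S.U {a | a ∈ Ψ} ⊓ Γ, g * (S.w1 pre * y) * g⁻¹ = S.w1 (pre ++ [r₀]) * c := by
  obtain ⟨g, hg, c, hc, e⟩ := h.main hf hΓ hsl hn hff hf1 (il hy) (ir hy) h3
  exact ⟨g, ir hg, c, hc, by rw [conj_w1_of_perp ho (il hg), e, w1_append]; simp [w1, wd, mul_assoc]⟩

omit ho in
lemma Tw.Good.nw_mem (hk : ∀ k, T.Orth k)
    (h : ∀ k, (T.wd k).Nodup ∧ ∀ i, i ∈ T.wd k ↔ T.cls i = k) (k : κ) : S.nw (T.wd k) ∈ Γ :=
  hΓ.prod_n_mem (hk k) (h k).1 (h k).2 (t := fun _ => 1) (fun _ => one_ne_zero) (by simp [hf])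

omit ho hΓ in
lemma Tw.σ_w1 (L : List Φ) : X.σ (S.w1 L) = S.w1 (L.map T.ρ) := by
  simp [w1, Tw.σ_wd, hf, Function.comp_def]

omit hΓ in
lemma Tw.σ_w1_eq {L : List Φ} (h : (L.map T.ρ).Perm L ∧ L.Pairwise fun a b => R.pair a b = 0) :
    X.σ (S.w1 L) = S.w1 L := by
  rw [Tw.σ_w1 hf, S.w1_perm h.1.symm (h.2.imp fun h => (ho _ _ h 1 1).symm)]

end generic

namespace Chev
open Cfsg.Lie

theorem Cert.Classes.ncard_tw {D : ChevalleyDatum} {C : Cert D} {F : Type*} [Field F] [CharP F 2]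
    {reps : List (List ℕ)} (h : C.Classes F reps) {Γ : Subgroup (GL D.Idx F)}
    (hΓ : Γ ≤ (C.sys F).grp) (M : List (List (Fin D.nroots) × List (Fin D.rank)))
    (hM : ∀ m ∈ M, (C.sys F).w1 m.1 ∈ Γ)
    (h1 : ∀ m ∈ M, (m.1.map fun r => m.2.foldr C.R.refl r).map Fin.val ∈ reps)
    (h2 : (M.map fun m => m.1.map fun r => m.2.foldr C.R.refl r).Nodup)
    (h3 : ∀ z ∈ Γ, orderOf z = 2 → ∃ m ∈ M, ∃ g ∈ Γ, g * z * g⁻¹ = (C.sys F).w1 m.1) :
    (ConjClasses.mk '' {g : Γ | orderOf g = 2}).ncard = M.length := by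
  have e : ∀ m : List (Fin D.nroots) × List (Fin D.rank), (C.sys F).nw m.2 * (C.sys F).w1 m.1 *
      ((C.sys F).nw m.2)⁻¹ = (C.sys F).w1 (m.1.map fun r => m.2.foldr C.R.refl r) := fun m => by
    rw [ChevSys.nw_conj_w1, funext (RS.act_wp m.2)]
  have hn := fun l => (C.sys F).N_le_grp ((C.sys F).nw_mem_N l)
  rw [ncard_classes (M.pmap (fun m hm => (⟨_, hm⟩ : Γ)) hM), List.length_pmap]
  · simp only [List.mem_pmap]
    rintro _ ⟨m, hm, rfl⟩
    rw [← Subgroup.orderOf_coe, ← (MulAut.conj ((C.sys F).nw m.2)).orderOf_eq, MulAut.conj_apply, e,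
      h.order_sys (h1 m hm)]
  · refine List.pairwise_pmap _ |>.2 ((List.pairwise_map.1 h2).imp_of_mem fun {a b} ha hb hab _ _ hc => ?_)
    obtain ⟨g, hg⟩ := isConj_iff.1 hc
    replace hg : (g : GL _ F) * (C.sys F).w1 a.1 * (g : GL _ F)⁻¹ = (C.sys F).w1 b.1 :=
      congrArg Subtype.val hg
    exact hab (h.uniq_sys (h1 a ha) (h1 b hb) (mul_mem (mul_mem (hn b.2) (hΓ g.2)) (inv_mem (hn a.2)))
      (by rw [← e, ← e, ← hg]; group))
  · intro g hg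
    obtain ⟨m, hm, k, hk, e⟩ := h3 g g.2 (by rwa [Subgroup.orderOf_coe])
    exact ⟨_, List.mem_pmap.2 ⟨m, hm, rfl⟩, isConj_iff.2 ⟨⟨k, hk⟩, Subtype.ext e⟩⟩

namespace E6

/-- roots -/
def rt (i : Fin 72) : Fin chevE6.nroots := i

set_option synthInstance.maxSize 2000 in
set_option synthInstance.maxHeartbeats 200000 in
theorem step2 : Step symE6 ([].map rt) ([63, 65, 66, 68, 69, 70, 71].map rt) ([].map rt)
    ([63, 65, 69, 70].map rt) ([46, 47, 48, 50, 51, 53].map rt) ([71].map rt) (rt 60) (rt 66) (rt 23) (![1, 0, 0, 0, 0, 1] : Fin 6 → ℤ)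
    [(rt 60, []), (rt 63, [0]), (rt 65, [0, 1]), (rt 66, []), (rt 68, [2]), (rt 69, [0, 1, 2]), (rt 70, [0, 1, 2, 1]), (rt 71, [0, 1, 2, 1, 0])] := by
  constructor <;> decide +kernel

set_option synthInstance.maxSize 2000 in
set_option synthInstance.maxHeartbeats 200000 in
theorem step3 : Step symE6 ([].map rt) ([54, 55, 64, 65, 66, 67, 68, 69, 70, 71].map rt) ([70, 71].map rt)
    ([55, 66, 67, 68, 69, 70, 71].map rt) ([36, 38, 56, 57, 60, 63].map rt) ([65, 66, 68, 69].map rt) (rt 53) (rt 54) (rt 35) (![0, 0, 0, 1, 0, 0] : Fin 6 → ℤ)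
    [(rt 53, []), (rt 54, []), (rt 55, [2]), (rt 64, [3]), (rt 65, [3]), (rt 66, [2, 3]), (rt 67, [3, 2]), (rt 68, [2, 3, 2]), (rt 69, [3, 2])] := by
  constructor <;> decide +kernel

set_option synthInstance.maxSize 2000 in
set_option synthInstance.maxHeartbeats 200000 in
theorem step3b : Step symE6 ([53].map rt) ([66, 68, 69].map rt) ([].map rt)
    ([].map rt) ([37, 42].map rt) ([69].map rt) (rt 65) (rt 66) (rt 34) (![0, 0, 0, 1, 0, 0] : Fin 6 → ℤ)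
    [(rt 65, []), (rt 66, []), (rt 68, [2]), (rt 69, [2])] := by
  constructor <;> decide +kernel


variable {K : Type*} [Field K] [Fintype K] [CharP K 2] {q : ℕ}

theorem ncard_inv (hK : Fintype.card K = q ^ 2) :
    (ConjClasses.mk '' {g : twistedE6 K q | orderOf g = 2}).ncard = 3 := by
  have hq : IsPrimePow q := (isPrimePow_pow_iff two_ne_zero).1 (hK ▸ Fintype.isPrimePow_card_of_field)
  obtain ⟨X, f, h⟩ := exists_pack hq hK
  have hf : ∀ r t, X.φ r t = f t := fun r t => by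
    have : (grE6.ε r = 1 ∨ grE6.ε r = -1) ∧ grE6.lam r = 1 := by revert r; decide +kernel
    rcases this.1 with e | e <;> simp [h.hX, e, this.2, CharTwo.neg_eq]
  have ho := certE6.orth (F := K) (by decide +kernel) (certE6.sys K)
  have hΓ := h.good
  have hn := hΓ.nw_mem hf orth (by decide +kernel)
  have hsl : ∀ r s, certE6.R.nm r = certE6.R.nm s := fun r s => by
    have : ∀ r, certE6.R.nm r = certE6.R.nm (rt 0) := fun r => by
      obtain ⟨w, i, rfl⟩ := certE6.R.exists_act_simple r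
      rw [RS.nm_act]; revert i; decide +kernel
    rw [this, this s]
  have hff : ∀ t, f (f t) = t := fun t => by
    rw [h.hf, h.hf, ← pow_mul, ← sq, ← hK, FiniteField.pow_card]
  have hf1 : ∃ t, f t ≠ t := by
    have := hq.two_le
    obtain ⟨c, hc⟩ := exists_pow_ne_one (K := K) (n := q - 1) (by omega) (by
      rw [hK, Nat.sub_add_cancel (by omega)]; nlinarith)
    refine ⟨c, fun e => hc (Units.ext ?_)⟩
    rw [h.hf, ← Nat.sub_add_cancel (by omega : 1 ≤ q), pow_succ, mul_eq_right₀ c.ne_zero] at e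
    simpa using e
  have hm : ∀ L, ((L.map symE6.ρ).Perm L ∧ L.Pairwise fun a b => certE6.R.pair a b = 0) →
      (∀ a ∈ L, certE6.R.Pos a) → (certE6.sys K).w1 L ∈ twistedE6 K q := fun L h1 h2 =>
    hΓ.Up_le ⟨(certE6.sys K).w1_mem h2, (certE6.sys K).w1_mem fun _ _ => trivial, Tw.σ_w1_eq hf ho h1⟩
  refine (classesE6 K).ncard_tw (fun _ hg => (hΓ.le hg).1) [([rt 71], []),
    ([60, 71].map rt, [4, 3, 1, 1, 3, 4, 2, 3, 1].map nd),
    ([53, 65, 69].map rt, [0, 2, 3, 1, 0, 5, 0, 1, 3, 4, 5, 2, 0].map nd)]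
    (fun m hm' => hm _ (by revert m; decide +kernel) (by revert m; decide +kernel))
    (by decide +kernel) (by decide +kernel) fun z hz hz2 => ?_
  suffices ∃ L ∈ [[], [71], [60], [60, 71], [53], [53, 65], [53, 65, 69]], ∃ g ∈ twistedE6 K q,
      g * z * g⁻¹ = (certE6.sys K).w1 (L.map rt) by
    obtain ⟨L, hL, g, hg, e⟩ := this
    have mv : ∀ l : List (Fin 4), ∃ g ∈ twistedE6 K q,
        g * z * g⁻¹ = (certE6.sys K).w1 ((L.map rt).map (symE6.wk l)) := fun l =>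
      ⟨_, mul_mem (Step.nw_mem hn l) hg, by
        rw [← funext (symE6.act_wk l), ← ChevSys.nw_conj_w1, ← e]; group⟩
    simp only [List.mem_cons, List.not_mem_nil, or_false, exists_eq_or_imp, exists_eq_left] at hL ⊢
    rcases hL with rfl | rfl | rfl | rfl | rfl | rfl | rfl
    · rw [conj_eq_one e] at hz2; simp at hz2
    · exact Or.inl ⟨g, hg, e⟩
    · exact Or.inl ((by decide +kernel : ([60].map rt).map (symE6.wk [0, 1, 2, 1, 0]) = [rt 71]) ▸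
        mv [0, 1, 2, 1, 0])
    · exact Or.inr (Or.inl ⟨g, hg, e⟩)
    · exact Or.inl ((by decide +kernel : ([53].map rt).map (symE6.wk [0, 1, 2, 3]) = [rt 71]) ▸
        mv [0, 1, 2, 3])
    · exact Or.inr (Or.inl ((by decide +kernel : ([53, 65].map rt).map (symE6.wk [3, 0, 1, 2]) =
        [60, 71].map rt) ▸ mv [3, 0, 1, 2]))
    · exact Or.inr (Or.inr ⟨g, hg, e⟩)
  obtain ⟨L, hL, g, hg, e⟩ := (classesE6 K).ex_sys (hΓ.le hz).1 hz2
  have tr : ∀ {a b c : GL _ K}, (∃ g ∈ twistedE6 K q, g * a * g⁻¹ = b) →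
      (∃ g ∈ twistedE6 K q, g * b * g⁻¹ = c) → ∃ g ∈ twistedE6 K q, g * a * g⁻¹ = c :=
    fun ⟨g, hg, e⟩ ⟨g', hg', e'⟩ => ⟨g' * g, mul_mem hg' hg, by rw [← e', ← e]; group⟩
  have cj := fun γ hγ => mul_mem (mul_mem hγ hz) (inv_mem (x := γ) hγ)
  simp only [List.mem_cons, List.not_mem_nil, or_false] at hL
  rcases hL with rfl | rfl | rfl
  · obtain ⟨γ, hγ, h1, -⟩ := hΓ.reduce (certE6.ev_eq (f := [0, 1, 0, 0, 0, 0]) (φ := [1, 1, 1, 1, 1, 1])
      (by decide +kernel)).2 (by decide) (Tw.σ_w1_eq hf ho (by decide +kernel)) {1, 2, 3}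
      (by simp only [Set.mem_insert_iff, Set.mem_singleton_iff]; decide +kernel) hz hg e
    obtain ⟨L, hL, h2⟩ := hΓ.last hf ho (pre := []) (r := rt 71) (by decide +kernel)
      ⟨(certE6.sys K).U_mono (by intro r; revert r; decide +kernel) h1, cj γ hγ⟩
    rcases List.mem_pair.1 hL with rfl | rfl
    exacts [⟨[], by simp, tr ⟨γ, hγ, (one_mul _).symm⟩ h2⟩, ⟨[71], by simp, tr ⟨γ, hγ, (one_mul _).symm⟩ h2⟩]
  · obtain ⟨γ, hγ, h1, h3⟩ := hΓ.reduce (certE6.ev_eq (f := [1, 0, 0, 0, 0, 1]) (φ := [1, 1, 1, 1, 1, 1])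
      (by decide +kernel)).2 (by decide) (Tw.σ_w1_eq hf ho (by decide +kernel)) {0, 1, 2}
      (by simp only [Set.mem_insert_iff, Set.mem_singleton_iff]; decide +kernel) hz hg e
    obtain ⟨g, hg, c, hc, e⟩ := step2.chain hf hΓ ho hsl hn hff hf1
      ⟨(certE6.sys K).U_mono (by intro r; revert r; decide +kernel) h1, cj γ hγ⟩
      fun h => h3 ((certE6.sys K).U_mono (by simp) h)
    obtain ⟨L, hL, h2⟩ := hΓ.last hf ho (pre := [rt 60]) (r := rt 71) (by decide +kernel) hc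
    have := tr (tr ⟨γ, hγ, (one_mul _).symm⟩ ⟨g, hg, e⟩) h2
    rcases List.mem_pair.1 hL with rfl | rfl
    exacts [⟨[60], by simp, this⟩, ⟨[60, 71], by simp, this⟩]
  · obtain ⟨γ, hγ, h1, h3⟩ := hΓ.reduce (certE6.ev_eq (f := [0, 0, 0, 1, 0, 0]) (φ := [1, 1, 1, 1, 1, 1])
      (by decide +kernel)).2 (by decide) (Tw.σ_w1_eq hf ho (by decide +kernel)) {0, 2, 3}
      (by simp only [Set.mem_insert_iff, Set.mem_singleton_iff]; decide +kernel) hz hg e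
    obtain ⟨g, hg, c, hc, e⟩ := step3.chain hf hΓ ho hsl hn hff hf1
      ⟨(certE6.sys K).U_mono (by intro r; revert r; decide +kernel) h1, cj γ hγ⟩
      fun h => h3 ((certE6.sys K).U_mono (by intro r; revert r; decide +kernel) h)
    have t1 := tr ⟨γ, hγ, (one_mul _).symm⟩ ⟨g, hg, e⟩
    by_cases hc1 : c ∈ (certE6.sys K).U {a | a ∈ [].map rt}
    · obtain rfl : c = 1 := by simpa [U_empty] using hc1
      exact ⟨[53], by simp, by simpa using t1⟩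
    obtain ⟨g, hg, c, hc, e⟩ := step3b.chain hf hΓ ho hsl hn hff hf1 hc hc1
    obtain ⟨L, hL, h2⟩ := hΓ.last hf ho (pre := [rt 53, rt 65]) (r := rt 69) (by decide +kernel) hc
    have := tr (tr t1 ⟨g, hg, e⟩) h2
    rcases List.mem_pair.1 hL with rfl | rfl
    exacts [⟨[53, 65], by simp, this⟩, ⟨[53, 65, 69], by simp, this⟩]

end E6
end Chev
end H6
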