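import Cfsg.Agent.H6.Invol2

/-! Twisted groups: Lang's theorem on unipotent subgroups, descent of conjugacy to fixed points,
orders of parabolic subgroups and exponents of unipotent subgroups. -/

set_option autoImplicit false
set_option linter.unusedSectionVars false

namespace H6
open Cfsg StSys

variable {Φ ι κ : Type} [Fintype ι] [DecidableEq ι] {R : RS Φ ι} {F : Type*} [Field F]
  {G : Type*} [Group G]

namespace StSys
variable (S : StSys R F G)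

lemma pr_filter (L : List Φ) (p : Φ → Bool) (t : Φ → F) :
    S.pr (L.filter p) t = S.pr L fun r => if p r then t r else 0 := by
  induction L with
  | nil => rfl
  | cons a L ih => by_cases h : p a <;> simp [h, pr_cons, ih]

variable {S} in
/-- coordinates outside a closed set vanish -/
theorem Inj.coord_eq_zero [Finite Φ] (hI : S.Inj) {A : Set Φ} (hA : R.Closed A)
    (hp : ∀ r ∈ A, R.Pos r) {L : List Φ} (hL : L.Nodup) (hL' : ∀ r ∈ L, R.Pos r) {t : Φ → F}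
    (h : S.pr L t ∈ S.U A) : ∀ r ∈ L, r ∉ A → t r = 0 := by
  classical
  obtain ⟨M, hM, hM'⟩ := exists_list {r | R.Pos r ∧ r ∉ L}
  have hn : (L ++ M).Nodup := List.nodup_append.2 ⟨hL, hM, fun a ha b hb e =>
    ((hM' b).1 hb).2 (e ▸ ha)⟩
  obtain ⟨s, e⟩ := S.exists_nf hA (fun r h => R.fv_one_pos (hp r h))
    (L := (L ++ M).filter (· ∈ A)) (hn.filter _) (fun r => by
      simp only [List.mem_filter, List.mem_append, hM', Set.mem_setOf_eq, decide_eq_true_eq]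
      exact ⟨fun h => h.2, fun h => ⟨by by_cases r ∈ L <;> simp [*, hp r h], h⟩⟩) h
  intro r hr hr'
  rw [pr_filter, show S.pr L t = S.pr (L ++ M) fun r => if r ∈ L then t r else 0 by
    rw [pr_append, S.pr_zero (L := M) fun r hr => if_neg ((hM' r).1 hr).2, mul_one]
    exact S.pr_congr fun r hr => (if_pos hr).symm] at e
  simpa [hr, hr'] using hI.nf_unique hn (fun r hr => R.fv_one_pos ((List.mem_append.1 hr).elim
    (hL' r) fun h => ((hM' r).1 h).1)) e r (List.mem_append_left _ hr)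

/-- `p`-th powers at least double the height -/
theorem pow_mem_U {p : ℕ} [CharP F p] {f : ι → ℤ} {m : ℤ} (hm : 0 < m) {g : G}
    (hg : g ∈ S.U {r | m ≤ R.fv f r}) : g ^ p ∈ S.U {r | 2 * m ≤ R.fv f r} := by
  have hc : ∀ r s k, R.Comb r s k → m ≤ R.fv f r → m ≤ R.fv f s → R.fv f r + R.fv f s ≤ R.fv f k :=
    fun r s k h hr hs => by simpa only [RS.ev_int] using h.ev_ge (f := f) (by
      rw [RS.ev_int]; omega) (by rw [RS.ev_int]; omega)
  have hN : S.U {r | m ≤ R.fv f r} ≤ Subgroup.normalizer (S.U {r | 2 * m ≤ R.fv f r} : Set G) :=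
    S.U_le_normalizer (fun r hr h => by
      simp only [Set.mem_setOf_eq, R.fv_neg] at hr h; omega) fun r hr s hs k hk => by
      simp only [Set.mem_setOf_eq] at hr hs ⊢
      have := hc r s k hk hr (by omega); omega
  have := Subgroup.normal_subgroupOf_of_le_normalizer hN
  let π := QuotientGroup.mk' ((S.U {r | 2 * m ≤ R.fv f r}).subgroupOf (S.U {r | m ≤ R.fv f r}))
  have h1 : ∀ a ha b hb, Commute (π ⟨a, ha⟩) (π ⟨b, hb⟩) := fun a ha b hb => by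
    refine Subgroup.closure_induction₂ (p := fun a b ha hb => Commute (π ⟨a, ha⟩) (π ⟨b, hb⟩))
      ?_ (fun _ _ => Commute.one_left _) (fun _ _ => Commute.one_right _)
      (fun _ _ _ _ _ _ h h' => (map_mul π ⟨_, _⟩ ⟨_, _⟩).symm ▸ h.mul_left h')
      (fun _ _ _ _ _ _ h h' => (map_mul π ⟨_, _⟩ ⟨_, _⟩).symm ▸ h.mul_right h')
      (fun _ _ _ _ h => (map_inv π ⟨_, _⟩).symm ▸ h.inv_left)
      (fun _ _ _ _ h => (map_inv π ⟨_, _⟩).symm ▸ h.inv_right) ha hb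
    rintro _ _ ⟨r, hr, t, rfl⟩ ⟨s, hs, u, rfl⟩
    obtain ⟨k, hk, e⟩ := S.exists_comm (r := r) (s := s) (T := {r | 2 * m ≤ R.fv f r}) (fun e => by
      simp only [Set.mem_setOf_eq, e, R.fv_neg] at hr hs; omega) (fun k hk => by
        have := hc r s k hk hr hs
        simp only [Set.mem_setOf_eq] at hr hs ⊢; omega) t u
    exact QuotientGroup.eq.2 (by simpa [Subgroup.mem_subgroupOf, e, mul_assoc] using hk)
  have h2 : π ⟨g, hg⟩ ^ p = 1 := by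
    refine Subgroup.closure_induction (p := fun g hg => π ⟨g, hg⟩ ^ p = 1) ?_ (one_pow _)
      (fun a b ha hb h h' => (map_mul π ⟨a, ha⟩ ⟨b, hb⟩).symm ▸ (by
        rw [(h1 a ha b hb).mul_pow, h, h', one_mul]))
      (fun a ha h => (map_inv π ⟨a, ha⟩).symm ▸ (by rw [inv_pow, h, inv_one])) hg
    rintro _ ⟨r, hr, t, rfl⟩
    have : ∀ n : ℕ, S.x r t ^ n = S.x r (n * t) := fun n => by
      induction n with
      | zero => simp
      | succ n ih => rw [pow_succ, ih, ← S.add]; congr 1; push_cast; ring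
    exact (map_pow π _ _).symm.trans ((congrArg π (Subtype.ext (by simp [this]))).trans (map_one π))
  rw [← map_pow] at h2
  exact Subgroup.mem_subgroupOf.1 ((QuotientGroup.eq_one_iff _).1 h2)

theorem pow_eq_one_of_ht {p : ℕ} [CharP F p] {n : ℕ} (hn : ∀ r, R.fv (fun _ => 1) r < 2 ^ n) {g : G}
    (hg : g ∈ S.Up) : g ^ p ^ n = 1 := by
  have : ∀ k : ℕ, g ^ p ^ k ∈ S.U {r | 2 ^ k ≤ R.fv (fun _ => 1) r} := fun k => by
    induction k with
    | zero => rw [pow_zero p, pow_one, pow_zero]; exact S.U_mono (fun _ h => R.fv_one_pos h) hg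
    | succ k ih => rw [pow_succ p, pow_mul, pow_succ']; exact S.pow_mem_U (by positivity) ih
  simpa [S.U_empty, show {r | 2 ^ n ≤ R.fv (fun _ => 1) r} = ∅ from
    Set.eq_empty_of_forall_notMem fun r h => (hn r).not_ge h] using this n

end StSys

namespace Tw
variable {S : ChevSys R F G} {T : Sym R κ} (X : Tw S T) [Fintype Φ]

lemma σ_mem_grp {g : G} (hg : g ∈ S.grp) : X.σ g ∈ S.grp := X.σ_mem_U (fun _ _ => Set.mem_univ _) hg

lemma σ_supp {A B : Set Φ} (hA : R.Closed A) (hp : ∀ r ∈ A, R.Pos r) (hB : R.Closed B)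
    (hq : ∀ r ∈ B, R.Pos r) {r : Φ} (hr : R.Pos r) (hr' : r ∉ B) {t : F} {y : G} (hy : y ∈ S.U B)
    (h : X.σ (S.x r t * y) ∈ S.U A) : (t ≠ 0 → T.ρ r ∈ A) ∧ X.σ y ∈ S.U (A \ {T.ρ r}) := by
  classical
  obtain ⟨L, hL, hL'⟩ := exists_list B
  obtain ⟨s, rfl⟩ := S.exists_nf hB (fun r h => R.fv_one_pos (hq r h)) hL hL' hy
  have hrL : r ∉ L := fun h => hr' ((hL' r).1 h)
  have e : ∀ (L : List Φ) s, X.σ (S.pr L s) = S.pr (L.map T.ρ) fun k => X.φ (T.ρ.symm k) (s (T.ρ.symm k)) :=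
    fun L s => by simp [pr_eq_wd, σ_wd, Function.comp_def]
  rw [show S.x r t * S.pr L s = S.pr (r :: L) (Function.update s r t) by
    rw [pr_cons, Function.update_self, S.pr_congr (t := Function.update s r t) fun k hk =>
      Function.update_of_ne (ne_of_mem_of_not_mem hk hrL) _ _], e] at h
  have := S.inj.coord_eq_zero hA hp ((List.nodup_cons.2 ⟨hrL, hL⟩).map T.ρ.injective) (by
    simpa [T.pos_ρ, hL'] using ⟨hr, hq⟩) h
  rw [List.forall_mem_map, List.forall_mem_cons] at this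
  simp only [Equiv.symm_apply_apply, Function.update_self] at this
  refine ⟨fun ht => by_contra fun h => X.φ_ne _ _ ht (this.1 h), e L s ▸ S.pr_mem ?_⟩
  simp only [List.mem_map, forall_exists_index, and_imp, forall_apply_eq_imp_iff₂,
    Equiv.symm_apply_apply]
  intro k hk
  have hk' : k ≠ r := fun e => hrL (e ▸ hk)
  refine or_iff_not_imp_left.2 fun h => ?_
  simpa [hk'] using this.2 k hk fun h' => h ⟨h', T.ρ.injective.ne hk'⟩

variable {X} (hσ : ∀ g ∈ S.grp, X.σ (X.σ g) = g)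
include hσ

lemma cocycle_tw {u k : G} (hu : u ∈ S.grp) (hk : k ∈ S.grp) (h : u * X.σ u = 1) :
    k * u * (X.σ k)⁻¹ * X.σ (k * u * (X.σ k)⁻¹) = 1 := by
  rw [X.σ_mul3 hk hu (inv_mem (X.σ_mem_grp hk)), X.σ_inv (X.σ_mem_grp hk), hσ k hk]
  calc _ = k * (u * X.σ u) * k⁻¹ := by group
    _ = 1 := by simp [h]

variable (h90 : ∀ r, T.ρ r = r → ∀ t, t + X.φ r t = 0 → ∃ s, X.φ r s - s = t)
include h90

/-- Lang's theorem on unipotent subgroups -/
theorem lang {A : Set Φ} (hA : R.Closed A) (hp : ∀ r ∈ A, R.Pos r) :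
    ∀ u ∈ S.U A, u * X.σ u = 1 → ∃ k ∈ S.U A, u = k⁻¹ * X.σ k := by
  refine S.peel_induction (fun _ => 1) (p := fun A => R.Closed A → ∀ u ∈ S.U A, u * X.σ u = 1 →
    ∃ k ∈ S.U A, u = k⁻¹ * X.σ k) (fun _ u hu _ => ⟨1, one_mem _, by
      simpa [X.σ_one, S.U_empty] using hu⟩) (fun A hA hφ r hr hmin hN hd ih _ u hu h => ?_) hA
      (fun r h => R.fv_one_pos (hp r h)) hA
  have hp : ∀ r ∈ A, R.Pos r := fun r h => RS.pos_of_ev_pos (f := fun _ => (1 : ℤ))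
    (fun _ => zero_le_one) (hφ r h)
  have hc : R.Closed (A \ {r}) := fun a ha b hb k hk => ⟨hA a ha.1 b hb.1 k hk, fun e => by
    have := hk.ev_ge (f := fun _ => (1 : ℤ)) (hφ a ha.1).le (hφ b hb.1).le
    simp only [RS.ev_int, show k = r from e] at this
    linarith [hmin a ha.1, hφ b hb.1]⟩
  obtain ⟨t, y, hy, rfl⟩ := hd u hu
  have hx := fun t => S.x_mem_U hr t
  obtain ⟨h1, h2⟩ := X.σ_supp hA hp hc (fun r h => hp r h.1) (hp r hr) (fun h => h.2 rfl) hy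
    (eq_inv_of_mul_eq_one_right h ▸ inv_mem hu)
  obtain ⟨s, hs⟩ : ∃ s, S.x r s * (S.x r t * y) * (X.σ (S.x r s))⁻¹ ∈ S.U (A \ {r}) := by
    by_cases ht : t = 0
    · exact ⟨0, by simpa [ht, X.σ_one] using hy⟩
    by_cases e : T.ρ r = r
    · rw [X.σ_mul _ (S.x_mem_grp _ _) _ (S.U_le_grp _ hy), X.σ_x, e] at h
      rw [e] at h2
      have h3 : S.x r (t + X.φ r t) = ((S.x r (X.φ r t))⁻¹ * y * S.x r (X.φ r t) * X.σ y)⁻¹ := by
        rw [S.add, eq_inv_iff_mul_eq_one, ← h]; group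
      obtain ⟨s, hs⟩ := h90 r e t (S.inj.eq_zero_of_peel hφ hr hmin (h3 ▸ inv_mem (mul_mem
        (conj_mem_of_normalizer (hN (hx _)) hy) h2)))
      refine ⟨s, ?_⟩
      rw [X.σ_x, e, ← mul_assoc, ← S.add, ← hs, add_sub_cancel]
      exact (norm_iff (hN (hx _)) y).2 hy
    · refine ⟨-t, ?_⟩
      rw [X.σ_x, S.x_neg, inv_mul_cancel_left]
      exact mul_mem hy (inv_mem (S.x_mem_U (by exact ⟨h1 ht, e⟩) _))
  obtain ⟨k, hk, e⟩ := ih hc _ hs (cocycle_tw hσ (S.U_le_grp _ hu) (S.x_mem_grp _ _) h)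
  refine ⟨k * S.x r s, mul_mem (S.U_mono Set.diff_subset hk) (hx s), ?_⟩
  rw [X.σ_mul _ (S.U_le_grp _ hk) _ (S.x_mem_grp _ _)]
  calc _ = (S.x r s)⁻¹ * (S.x r s * (S.x r t * y) * (X.σ (S.x r s))⁻¹) * X.σ (S.x r s) := by group
    _ = _ := by rw [e]; group

omit h90 in
/-- cocycles are cohomologous to cocycles in `U` -/
theorem exists_tw_Up [Finite G] [Finite F] [CharP F 2] (h3 : S.R3) {M : Subgroup G}
    (h1 : S.Up ≤ M) (h2 : M ≤ S.grp) (hM : ∀ g ∈ M, X.σ g ∈ M) {c : G} (hc : c ∈ M)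
    (h : c * X.σ c = 1) : ∃ k ∈ M, k * c * (X.σ k)⁻¹ ∈ S.Up := by
  let φ : M →* M := MonoidHom.mk' (fun g => ⟨X.σ g, hM g g.2⟩) fun a b =>
    Subtype.ext (X.σ_mul _ (h2 a.2) _ (h2 b.2))
  obtain ⟨k, hk⟩ := exists_twisted_mem φ (fun g => Subtype.ext (hσ g (h2 g.2)))
    (U := S.Up.subgroupOf M) (fun u => X.σ_mem_U fun r => (T.pos_ρ r).2) (fun h =>
      ((Tw.triv_good S).sylow 2 h3).not_dvd_index (h.trans (Dvd.intro _
        (Subgroup.relIndex_mul_relIndex _ _ _ h1 h2)))) (g := ⟨c, hc⟩) (Subtype.ext h)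
  exact ⟨k⁻¹, inv_mem k.2, by rw [X.σ_inv (h2 k.2), inv_inv]; exact hk⟩

/-- descent of conjugacy to the fixed points -/
theorem conj_fix [Finite G] [Finite F] [CharP F 2] (h3 : S.R3) {z z' g : G} (hz : z ∈ X.Fx)
    (hz' : z' ∈ X.Fx) (hg : g ∈ S.grp) (e : g * z * g⁻¹ = z') (K : Set κ) {A : Set Φ}
    (hA : R.Closed A) (hp : ∀ r ∈ A, R.Pos r)
    (h1 : S.grp ⊓ Subgroup.centralizer {z} ≤ S.U {r | R.InJ (T.J K) r} ⊔ S.Up)
    (h2 : S.U {r | R.InJ (T.J K) r} ≤ Subgroup.centralizer {z})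
    (h4 : S.Up ⊓ Subgroup.centralizer {z} ≤ S.U A) (h5 : S.U A ≤ Subgroup.centralizer {z}) :
    ∃ g ∈ X.Fx, g * z * g⁻¹ = z' := by
  have hσg := X.σ_mem_grp hg
  have hcen : ∀ k ∈ S.grp, k ∈ Subgroup.centralizer {z} → X.σ k ∈ Subgroup.centralizer {z} :=
    fun k hk h => mem_cent.2 (by
      rw [← X.σ_inv hk, ← hz.2, ← X.σ_mul3 hk hz.1 (inv_mem hk), mem_cent.1 h, hz.2])
  have hc : g⁻¹ * X.σ g ∈ Subgroup.centralizer {z} := mem_cent.2 (by
    have := hz'.2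
    rw [← e, X.σ_mul3 hg hz.1 (inv_mem hg), X.σ_inv hg, hz.2] at this
    calc _ = g⁻¹ * (X.σ g * z * (X.σ g)⁻¹) * g := by group
      _ = z := by rw [this]; group)
  have hcg := mul_mem (inv_mem hg) hσg
  have hcc : g⁻¹ * X.σ g * X.σ (g⁻¹ * X.σ g) = 1 := by
    rw [X.σ_mul _ (inv_mem hg) _ hσg, X.σ_inv hg, hσ g hg]; group
  have hU : ∀ u ∈ S.Up, X.σ u ∈ S.Up := fun u => X.σ_mem_U fun r => (T.pos_ρ r).2
  obtain ⟨k, hk, hk'⟩ := exists_tw_Up hσ h3 le_sup_right (sup_le (S.U_le_grp _) (S.U_le_grp _))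
    (fun g hg => by
      rw [Up, ← U_union] at hg ⊢
      exact X.σ_mem_U (fun r hr => hr.imp (T.inJ_ρ K r).2 (T.pos_ρ r).2) hg) (h1 ⟨hcg, hc⟩) hcc
  obtain ⟨q, hq, m, hm, rfl⟩ : ∃ q ∈ S.UJ (T.J K), ∃ m ∈ S.U {r | R.InJ (T.J K) r}, k = q * m := by
    have : k ∈ ((S.UJ (T.J K) ⊔ S.U {r | R.InJ (T.J K) r} : Subgroup G) : Set G) := by
      rw [Up, ← U_union] at hk
      rw [UJ, ← U_union]
      exact S.U_mono (fun r hr => by by_cases R.InJ (T.J K) r <;> simp_all) hk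
    rw [Subgroup.coe_mul_of_right_le_normalizer_left _ _ (le_sup_right.trans
      ((le_sup_right.trans (S.nconj.UJ_sup_LJ _).le).trans (S.nconj.P_le_normalizer _)))] at this
    obtain ⟨q, hq, m, hm, e⟩ := this
    exact ⟨q, hq, m, hm, e.symm⟩
  have hq' : q ∈ S.Up := S.U_mono (fun _ h => h.1) hq
  have hmg := S.U_le_grp _ hm
  obtain ⟨l, hl, e'⟩ := lang hσ h90 hA hp (m * (g⁻¹ * X.σ g) * (X.σ m)⁻¹) (h4 (Subgroup.mem_inf.2 ⟨by
    have := mul_mem (mul_mem (inv_mem hq') hk') (hU q hq')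
    rw [X.σ_mul _ (S.U_le_grp _ hq) _ hmg] at this
    simpa [mul_assoc] using this, mul_mem (mul_mem (h2 hm) hc) (inv_mem (hcen m hmg (h2 hm)))⟩))
    (cocycle_tw hσ hcg hmg hcc)
  have hlg := S.U_le_grp _ hl
  refine ⟨g * (l * m)⁻¹, ⟨mul_mem hg (inv_mem (mul_mem hlg hmg)), ?_⟩, ?_⟩
  · rw [X.σ_mul _ hg _ (inv_mem (mul_mem hlg hmg)), X.σ_inv (mul_mem hlg hmg), X.σ_mul _ hlg _ hmg]
    calc _ = g * m⁻¹ * (m * (g⁻¹ * X.σ g) * (X.σ m)⁻¹) * (X.σ l)⁻¹ := by group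
      _ = _ := by rw [e']; group
  · rw [← e]
    conv_rhs => rw [← mem_cent.1 (inv_mem (mul_mem (h5 hl) (h2 hm)))]
    group

omit hσ h90

/-- the order of a parabolic subgroup -/
theorem Good.card_P [Finite G] {Γ : Subgroup G} (hΓ : X.Good Γ) (k : κ) :
    Nat.card ↥(S.P (T.J {k}) ⊓ Γ) =
      Nat.card ↥(S.B ⊓ Γ) * (1 + Nat.card ↥(S.U (T.P k) ⊓ X.Fx)) := by
  classical
  obtain ⟨n, hn, ha⟩ := hΓ.exists_n k
  have hP : ∀ v ∈ S.U (T.P k), v ∈ S.U {r | R.Inv (T.w k) r} := fun v hv =>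
    S.U_mono (fun r => (T.inv_w k r).2) hv
  have hnP : n ∈ S.P (T.J {k}) := S.mem_P_iff.2 ⟨1, one_mem _, n, hn.1, _, T.w_mem_WJ' k, ha, 1,
    one_mem _, by simp⟩
  have e : Nat.card (↥(S.B ⊓ Γ) ⊕ ↥(S.B ⊓ Γ) × ↥(S.U (T.P k) ⊓ X.Fx)) =
      Nat.card ↥(S.P (T.J {k}) ⊓ Γ) := by
    refine Nat.card_congr (Equiv.ofBijective (Sum.elim (fun b => ⟨b, S.B_le_P _ b.2.1, b.2.2⟩)
      fun p => ⟨p.1 * n * p.2, mul_mem (mul_mem (S.B_le_P _ p.1.2.1) hnP) (S.B_le_P _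
        (S.U_inv_le_B _ (hP _ p.2.2.1))), mul_mem (mul_mem p.1.2.2 hn.2) (hΓ.pos k p.2.2)⟩) ⟨?_, ?_⟩)
    · have key : ∀ b ∈ S.B, ∀ b' ∈ S.B, ∀ v ∈ S.U (T.P k), b ≠ b' * n * v := fun b hb b' hb' v hv e =>
        T.w_ne_one k (S.eq_one_of_acts_mem_B ha (by
          simpa [e, mul_assoc] using mul_mem (mul_mem (inv_mem hb') hb)
            (inv_mem (S.U_inv_le_B _ (hP v hv)))))
      rintro (⟨b, hb⟩ | ⟨⟨b, hb⟩, v, hv⟩) (⟨b', hb'⟩ | ⟨⟨b', hb'⟩, v', hv'⟩) h <;>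
        have h := congrArg Subtype.val h
      · exact congrArg _ (Subtype.ext h)
      · exact (key b hb.1 b' hb'.1 v' hv'.1 h).elim
      · exact (key b' hb'.1 b hb.1 v hv.1 h.symm).elim
      · obtain ⟨rfl, rfl⟩ := S.bruhat_unique ha hb.1 hb'.1 (hP v hv.1) (hP v' hv'.1) h
        rfl
    · rintro ⟨g, hg, hg'⟩
      obtain ⟨u, hu, m, hm, w, hw, hw', v, hv, rfl⟩ := hΓ.exists_unu hg'
      obtain ⟨b, hb, m', hm', w', hw1, hw2, b', hb', e⟩ := S.mem_P_iff.1 hg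
      obtain rfl := S.acts_eq_of_eq (S.Up_le_B hu.1) (S.U_inv_le_B _ hv.1) hb hb' hm.1 hm' hw' hw2 e
      rcases Sym.eq_one_or hw hw1 with rfl | rfl
      · exact ⟨.inl ⟨u * m * v, mul_mem (mul_mem (S.Up_le_B hu.1) (S.H_le_B (by
          simpa using S.inv_mul_mem_H (one_mem _) hm.1 Acts.one hw'))) (S.U_inv_le_B _ hv.1), hg'⟩, rfl⟩
      · have h1 := ha.conj_mem_H (S.inv_mul_mem_H hn.1 hm.1 ha hw')
        exact ⟨.inr ⟨⟨u * (m * n⁻¹), Subgroup.mem_inf.2 ⟨mul_mem (S.Up_le_B hu.1)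
          (S.H_le_B (by simpa using h1)), mul_mem (ir hu) (mul_mem (ir hm) (inv_mem (ir hn)))⟩⟩,
          ⟨v, S.U_mono (fun r => (T.inv_w k r).1) hv.1, hΓ.le hv.2⟩⟩, Subtype.ext (by simp [mul_assoc])⟩
  rw [← e, Nat.card_sum, Nat.card_prod]; ring

/-- if `H ⊓ Fx ≤ Γ` then `Γ` is the full group of fixed points -/
theorem Good.eq_Fx {Γ : Subgroup G} (hΓ : X.Good Γ) (h : S.H ⊓ X.Fx ≤ Γ) : Γ = X.Fx := by
  refine le_antisymm hΓ.le fun g hg => ?_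
  have hF : X.Good X.Fx := ⟨le_rfl, fun _ => inf_le_right, fun _ => inf_le_right, hΓ.ne⟩
  obtain ⟨u, hu, m, hm, w, hw, hw', v, hv, rfl⟩ := hF.exists_unu hg
  obtain ⟨n, hn, ha⟩ := hΓ.exists_acts hw
  have := h (Subgroup.mem_inf.2 ⟨S.inv_mul_mem_H hn.1 hm.1 ha hw',
    mul_mem (inv_mem (hΓ.le (ir hn))) (ir hm)⟩)
  exact mul_mem (mul_mem (hΓ.Up_le hu) (by simpa using mul_mem (ir hn) this))
    (hΓ.Up_le ⟨S.U_mono (fun _ h => h.1) hv.1, hv.2⟩)

end Tw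

end H6
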