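import Cfsg.Agent.H6.InvF4
import Cfsg.Agent.H6.TwInv

/-! Involutions of the large Ree groups and of the Tits group. -/

set_option autoImplicit false
set_option linter.unusedSectionVars false

namespace H6
open Cfsg StSys
open scoped commutatorElement

lemma ncard_classes {G : Type*} [Group G] (L : List G) (h1 : ∀ a ∈ L, orderOf a = 2)
    (h2 : L.Pairwise fun a b => ¬ IsConj a b) (h3 : ∀ g, orderOf g = 2 → ∃ a ∈ L, IsConj g a) :
    (ConjClasses.mk '' {g : G | orderOf g = 2}).ncard = L.length := by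
  classical
  rw [show ConjClasses.mk '' {g : G | orderOf g = 2} = ↑(L.map ConjClasses.mk).toFinset from
    Set.ext fun c => ?_, Set.ncard_coe_finset, List.toFinset_card_of_nodup (List.pairwise_map.2
      (h2.imp fun h e => h (ConjClasses.mk_eq_mk_iff_isConj.1 e))), List.length_map]
  simp only [Set.mem_image, Set.mem_setOf_eq, List.coe_toFinset, List.mem_map]
  refine ⟨fun ⟨g, hg, e⟩ => ?_, fun ⟨a, ha, e⟩ => ⟨_, h1 a ha, e⟩⟩
  obtain ⟨a, ha, hc⟩ := h3 g hg
  exact ⟨a, ha, e ▸ (ConjClasses.mk_eq_mk_iff_isConj.2 hc).symm⟩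

lemma Tw.σσ_of {Φ ι κ : Type} [Fintype ι] [DecidableEq ι] [Fintype Φ] {R : RS Φ ι} {F : Type*}
    [Field F] {G : Type*} [Group G] {S : ChevSys R F G} {T : Sym R κ} {X : Tw S T}
    (h : ∀ r t, T.ρ (T.ρ r) = r ∧ X.φ (T.ρ r) (X.φ r t) = t) : ∀ g ∈ S.grp, X.σ (X.σ g) = g :=
  fun _ hg => S.U_induction (p := fun g => X.σ (X.σ g) = g) (by simp [X.σ_one]) (fun g hg r _ t ih => by
    rw [X.σ_mul _ hg _ (S.x_mem_grp _ _), X.σ_mul _ (X.σ_mem_grp hg) _
      (X.σ_mem_grp (S.x_mem_grp _ _)), ih, X.σ_x, X.σ_x, (h r t).2, (h r t).1]) hg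

namespace Chev
open Cfsg.Lie

namespace Cert
variable {D : ChevalleyDatum} (C : Cert D) {F : Type*} [Field F]

lemma coe_w1 (L : List (Fin D.nroots)) :
    (((C.gsys F).w1 L : D.group F) : GL D.Idx F) = (C.sys F).w1 L := by
  induction L with
  | nil => rfl
  | cons a L ih => rw [w1_cons, w1_cons, ← ih]; rfl

lemma w1_eq_of [CharP F 2] (L L' : List (Fin D.nroots))
    (he : eqWordsN C.Z 2 (oneW (L.map Fin.val)) (oneW (L'.map Fin.val)) = true) :
    (C.sys F).w1 L = (C.sys F).w1 L' := by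
  rw [← coe_w1, ← coe_w1, ← wn_map, ← wn_map, C.wn_eq_of (by simp) (by simp) he]

lemma w1_mul_eq [CharP F 2] (A B A' B' : List (Fin D.nroots))
    (he : eqWordsN C.Z 2 (oneW ((A ++ B).map Fin.val)) (oneW ((A' ++ B').map Fin.val)) = true) :
    (C.sys F).w1 A * (C.sys F).w1 B = (C.sys F).w1 A' * (C.sys F).w1 B' := by
  simpa only [w1, List.map_append, wd_append] using C.w1_eq_of (F := F) _ _ he

variable {C} {reps : List (List ℕ)} (h : C.Classes F reps)
include h

lemma Classes.ex_sys {z : GL D.Idx F} (hz : z ∈ (C.sys F).grp) (ho : orderOf z = 2) :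
    ∃ L ∈ reps, ∃ g ∈ (C.sys F).grp, g * (C.sys F).w1 (finL _ L) * g⁻¹ = z := by
  obtain ⟨L, hL, hc⟩ := h.ex' (z := ⟨z, C.group_eq.ge hz⟩) (by rw [← Subgroup.orderOf_coe]; exact ho)
  obtain ⟨g, e⟩ := isConj_iff.1 hc.symm
  exact ⟨L, hL, g, C.group_eq.le g.2, by rw [← coe_w1]; exact congrArg Subtype.val e⟩

lemma Classes.uniq_sys {L L' : List (Fin D.nroots)} (hL : L.map Fin.val ∈ reps)
    (hL' : L'.map Fin.val ∈ reps) {g : GL D.Idx F} (hg : g ∈ (C.sys F).grp)
    (e : g * (C.sys F).w1 L * g⁻¹ = (C.sys F).w1 L') : L = L' :=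
  List.map_injective_iff.2 Fin.val_injective (h.uniq _ (by simp [hL]) _ (by simp [hL'])
    (isConj_iff.2 ⟨⟨g, C.group_eq.ge hg⟩, Subtype.ext (by simpa [wn_map, coe_w1] using e)⟩))

lemma Classes.order_sys {L : List (Fin D.nroots)} (hL : L.map Fin.val ∈ reps) :
    orderOf ((C.sys F).w1 L) = 2 := by
  rw [← coe_w1, Subgroup.orderOf_coe, ← wn_map, h.order hL]

end Cert

namespace F4
open ChevSys

variable {K : Type*} [Field K] [Fintype K] {m : ℕ} {X : Tw (certF4.sys K) symF4} {f : K →+* K}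
  (h : Pack X f m)
include h

local notation "𝐒" => certF4.sys K
local notation "Γ" => twistedF4 K (2 ^ m)

lemma Pack.one (r) : X.φ r 1 = 1 := by simp [h.hX]

lemma Pack.σσ : ∀ g ∈ (𝐒).grp, X.σ (X.σ g) = g := Tw.σσ_of fun r t => by
  have : symF4.ρ (symF4.ρ r) = r ∧ grF4.lam r * grF4.lam (symF4.ρ r) = 2 := by
    revert r; decide +kernel
  rw [h.hX, h.hX, map_pow, ← pow_mul, this.2, h.hff]
  exact ⟨this.1, rfl⟩

lemma Pack.eq_Fx : Γ = X.Fx := h.good.eq_Fx ((Tw.H_inf_Fx (X := X) certF4.r3 (Theta_injective certF4.adj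
  (certF4.cm_injective kerF4 _)) h.hψ).le.trans (h.H_eq.ge.trans inf_le_right))

lemma Pack.w1_mem (L : List _) (he : eqWordsN certF4.Z 2 (oneW ((L.map symF4.ρ).map Fin.val))
    (oneW (L.map Fin.val)) = true) : (𝐒).w1 L ∈ Γ := by
  have := h.char
  rw [h.eq_Fx]
  exact ⟨(𝐒).w1_mem fun _ _ => trivial, by rw [σ_w1 h.one, certF4.w1_eq_of _ _ he]⟩

lemma Pack.mem3 : (𝐒).w1 [rt 47, rt 44] ∈ Γ := h.w1_mem _ (by decide +kernel)
lemma Pack.mem4 : (𝐒).w1 [rt 39, rt 45] ∈ Γ := h.w1_mem _ (by decide +kernel)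

/-- the functional of the fourth class -/
def f4 : Fin chevF4.rank → ℤ := (![0, 1, 1, 0] : Fin 4 → ℤ)

omit h in
lemma mem_T4 (r) : r ∈ T4 ↔ (certF4.R.Pos r ∧ certF4.R.InJ {nd 0, nd 3} r) ∨ 2 ≤ certF4.R.ev f4 r := by
  simp only [T4, Set.mem_setOf_eq, RS.InJ, Set.mem_insert_iff, Set.mem_singleton_iff]
  revert r; decide +kernel

omit h in
lemma f4_eq {r} (hr : certF4.R.InJ {nd 0, nd 3} r) : certF4.R.ev f4 r = 0 :=
  RS.ev_eq_zero_of_inJ (RS.inJ_mono (by rintro _ (rfl | rfl) <;> rfl) hr)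

omit h in
lemma closed_T4 : certF4.R.Closed T4 := by
  intro r hr s hs k hk
  rw [mem_T4] at hr hs ⊢
  rcases hr with hr | hr <;> rcases hs with hs | hs
  · exact Or.inl ((certF4.R.closed_pos.inter (certF4.R.closed_inJ _)) r hr s hs k hk)
  · exact Or.inr (by linarith [hk.ev_ge (f4_eq hr.2).ge (by omega), f4_eq hr.2])
  · exact Or.inr (by linarith [hk.ev_ge (by omega) (f4_eq hs.2).ge, f4_eq hs.2])
  · exact Or.inr (by linarith [hk.ev_ge (f := f4) (by omega) (by omega)])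

omit h in
lemma inf_le_T4 {G : Type*} [Group G] (S : ChevSys certF4.R K G) :
    S.Up ⊓ (S.U {rt 14, rt 23} ⊔ S.U T4) ≤ S.U T4 := fun u hu => by
  have : u ∈ ((S.U {r | 2 ≤ certF4.R.ev f4 r} ⊔ S.U {r | certF4.R.InJ {nd 0, nd 3} r} : Subgroup G) :
      Set G) := by
    have := ir hu
    rw [← U_union] at this ⊢
    refine S.U_mono (fun r hr => hr.elim ?_ fun hr => ((mem_T4 r).1 hr).symm.imp_right And.right) this
    rintro (rfl | rfl) <;> right <;> simp only [Set.mem_setOf_eq, RS.InJ, Set.mem_insert_iff,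
      Set.mem_singleton_iff] <;> decide +kernel
  rw [Subgroup.coe_mul_of_right_le_normalizer_left _ _ (S.U_le_normalizer (fun r hr h => by
    simp [RS.ev_neg, f4_eq hr] at h) fun r hr s hs k hk => by
      simp only [Set.mem_setOf_eq] at hs ⊢
      linarith [hk.ev_ge (f4_eq hr).ge (by omega), f4_eq hr])] at this
  obtain ⟨q, hq, l, hl, rfl⟩ := this
  have hq' := S.U_mono (fun r hr => (mem_T4 r).2 (Or.inr hr)) hq
  refine mul_mem hq' (S.U_mono (fun r hr => (mem_T4 r).2 (Or.inl hr)) (S.unu_levi (n := 1) (v := 1)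
    ?_ (one_mem _) Acts.one (one_mem _) (by simpa [LJ] using Subgroup.mem_sup_right hl)).2.1)
  simpa [Up] using mul_mem (inv_mem (S.U_mono (fun _ h => h.1) hq')) (il hu)

/-- the two classes of involutions -/
theorem Pack.ex {z : GL _ K} (hz : z ∈ Γ) (ho : orderOf z = 2) : ∃ g ∈ Γ,
    g * (𝐒).w1 [rt 47, rt 44] * g⁻¹ = z ∨ g * (𝐒).w1 [rt 39, rt 45] * g⁻¹ = z := by
  have := h.char
  have h90 : ∀ r, symF4.ρ r = r → ∀ t, t + X.φ r t = 0 → ∃ s, X.φ r s - s = t := fun r e =>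
    absurd e (by revert r; decide +kernel)
  have hz' := h.eq_Fx.le hz
  obtain ⟨L, hL, g, hg, e⟩ := (classes K).ex_sys hz'.1 ho
  have key : ∀ a b, a ≠ b → symF4.ρ a = b → [a.1] ∈ [[47], [44], [47, 44], [39, 45]] →
      [b.1] ∈ [[47], [44], [47, 44], [39, 45]] → g * (𝐒).w1 [a] * g⁻¹ ≠ z := fun a b hab e1 ha hb e => by
    have e2 := hz'.2
    rw [← e, X.σ_mul3 hg ((𝐒).w1_mem fun _ _ => trivial) (inv_mem hg), X.σ_inv hg, σ_w1 h.one] at e2
    exact hab (List.cons.inj ((classes K).uniq_sys (L := [a]) (L' := [b]) ha hb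
      (mul_mem (inv_mem (X.σ_mem_grp hg)) hg) (by
        rw [← e1, ← List.map_singleton, eq_comm, ← mul_left_inj (X.σ g)⁻¹, ← mul_right_inj (X.σ g),
          ← mul_assoc, e2]; group))).1
  have hJ0 : symF4.J {0} = {nd 0, nd 3} := by
    ext i; simp only [Sym.J, Set.mem_preimage, Set.mem_singleton_iff, Set.mem_insert_iff]
    revert i; decide +kernel
  have hJ1 : symF4.J {1} = {nd 1, nd 2} := by
    ext i; simp only [Sym.J, Set.mem_preimage, Set.mem_singleton_iff, Set.mem_insert_iff]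
    revert i; decide +kernel
  simp only [List.mem_cons, List.not_mem_nil, or_false] at hL
  rw [h.eq_Fx]
  rcases hL with rfl | rfl | rfl | rfl
  · exact (key (rt 47) (rt 44) (by decide) (by decide +kernel) (by decide) (by decide) e).elim
  · exact (key (rt 44) (rt 47) (by decide) (by decide +kernel) (by decide) (by decide) e).elim
  · have h3 := cent3 (S := 𝐒) certF4.r3
    refine (Tw.conj_fix h.σσ h90 certF4.r3 (h.eq_Fx.le h.mem3) hz' hg e {1} certF4.R.closed_pos
      (fun _ h => h) (h3.le.trans (sup_le le_sup_right (le_sup_left.trans' ((𝐒).U_mono ?_))))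
      ((U_inJ_le ?_ ?_).trans (h3.ge.trans inf_le_right)) inf_le_left
      (le_sup_left.trans (h3.ge.trans inf_le_right))).imp fun _ h => ⟨h.1, Or.inl h.2⟩ <;> rw [hJ1]
    · rintro _ (rfl | rfl) <;> simp only [Set.mem_setOf_eq, RS.InJ, Set.mem_insert_iff,
        Set.mem_singleton_iff] <;> decide +kernel
    · exact fun j _ t => Subgroup.mem_sup_left ((𝐒).x_mem_U (certF4.R.pos_simple j) t)
    · rintro _ (rfl | rfl) t <;> exact Subgroup.mem_sup_right ((𝐒).x_mem_U (by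
        simp only [Set.mem_insert_iff, Set.mem_singleton_iff]; decide +kernel) t)
  · have h4 := cent4 h.one certF4.r3
    have hM : (𝐒).U {r | certF4.R.InJ {nd 0, nd 3} r} ≤ (𝐒).U {rt 14, rt 23} ⊔ (𝐒).U T4 :=
      U_inJ_le (by
        rintro _ (rfl | rfl) t <;> exact Subgroup.mem_sup_right ((𝐒).x_mem_U (by
          simp only [T4, Set.mem_setOf_eq]; decide +kernel) t)) (by
        rintro _ (rfl | rfl) t <;> exact Subgroup.mem_sup_left ((𝐒).x_mem_U (by
          simp only [Set.mem_insert_iff, Set.mem_singleton_iff]; decide +kernel) t))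
    refine (Tw.conj_fix h.σσ h90 certF4.r3 (h.eq_Fx.le h.mem4) hz' hg e {0} closed_T4
      (fun _ h => h.1) (h4.le.trans (sup_le (le_sup_left.trans' ((𝐒).U_mono ?_))
        (le_sup_right.trans' ((𝐒).U_mono fun _ h => h.1))))
      (hJ0 ▸ hM.trans (h4.ge.trans inf_le_right))
      (fun u hu => inf_le_T4 _ ⟨hu.1, h4.le ⟨(𝐒).U_le_grp _ hu.1, hu.2⟩⟩)
      (le_sup_right.trans (h4.ge.trans inf_le_right))).imp fun _ h => ⟨h.1, Or.inr h.2⟩
    rw [hJ0]
    rintro _ (rfl | rfl) <;> simp only [Set.mem_setOf_eq, RS.InJ, Set.mem_insert_iff,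
      Set.mem_singleton_iff] <;> decide +kernel

/-- the first representative -/
noncomputable def Pack.z3 : Γ := ⟨_, h.mem3⟩
/-- the second representative -/
noncomputable def Pack.z4 : Γ := ⟨_, h.mem4⟩

lemma Pack.order3 : orderOf h.z3 = 2 := by
  have := h.char
  rw [← Subgroup.orderOf_coe]; exact (classes K).order_sys (L := [rt 47, rt 44]) (by decide)

lemma Pack.order4 : orderOf h.z4 = 2 := by
  have := h.char
  rw [← Subgroup.orderOf_coe]; exact (classes K).order_sys (L := [rt 39, rt 45]) (by decide)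

lemma Pack.not_conj : ¬ IsConj h.z3 h.z4 := fun hc => by
  have := h.char
  obtain ⟨g, e⟩ := isConj_iff.1 hc
  exact absurd ((classes K).uniq_sys (L := [rt 47, rt 44]) (L' := [rt 39, rt 45]) (by decide)
    (by decide) (h.good.le g.2).1 (congrArg Subtype.val e)) (by decide)

lemma Pack.ex' {z : Γ} (ho : orderOf z = 2) : ∃ a ∈ [h.z3, h.z4], IsConj a z := by
  obtain ⟨g, hg, e | e⟩ := h.ex z.2 (by rwa [Subgroup.orderOf_coe])
  exacts [⟨h.z3, by simp, isConj_iff.2 ⟨⟨g, hg⟩, Subtype.ext e⟩⟩,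
    ⟨h.z4, by simp, isConj_iff.2 ⟨⟨g, hg⟩, Subtype.ext e⟩⟩]

theorem Pack.ncard : (ConjClasses.mk '' {g : Γ | orderOf g = 2}).ncard = 2 :=
  ncard_classes [h.z3, h.z4] (by simp [h.order3, h.order4]) (List.pairwise_pair.2 h.not_conj) fun _ hg =>
    (h.ex' hg).imp fun _ h => ⟨h.1, h.2.symm⟩

lemma Pack.comm_mem (A B L : List _) (hA : (𝐒).w1 A ∈ Γ) (hB : (𝐒).w1 B ∈ Γ) (hL : (𝐒).w1 L ∈ Γ)
    (he : eqWordsN certF4.Z 2 (oneW ((A ++ B).map Fin.val)) (oneW ((L ++ B ++ A).map Fin.val)) = true) :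
    (⟨_, hL⟩ : Γ) ∈ commutator Γ := by
  have := h.char
  have e := certF4.w1_eq_of (F := K) _ _ he
  simp only [w1, List.map_append, wd_append] at e
  rw [show (⟨_, hL⟩ : Γ) = ⁅(⟨_, hA⟩ : Γ), ⟨_, hB⟩⁆ from Subtype.ext (by
    simp [commutatorElement_def, w1, e, mul_assoc])]
  exact Subgroup.commutator_mem_commutator trivial trivial

/-- involutions lie in the commutator subgroup -/
theorem Pack.mem_comm {z : Γ} (ho : orderOf z = 2) : z ∈ commutator Γ := by
  obtain ⟨a, ha, hc⟩ := h.ex' ho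
  obtain ⟨g, rfl⟩ := isConj_iff.1 hc
  refine Subgroup.Normal.conj_mem inferInstance _ ?_ g
  rcases List.mem_pair.1 ha with rfl | rfl
  · exact h.comm_mem [rt 24, rt 33] [rt 40, rt 46] _ (h.w1_mem _ (by decide +kernel))
      (h.w1_mem _ (by decide +kernel)) _ (by decide +kernel)
  · exact h.comm_mem [rt 29, rt 41, rt 44] [rt 31, rt 35, rt 40] _ (h.w1_mem _ (by decide +kernel))
      (h.w1_mem _ (by decide +kernel)) _ (by decide +kernel)

lemma Pack.mem_comm' {z : Γ} (ho : z * z = 1) : z ∈ commutator Γ := by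
  by_cases h1 : z = 1
  · exact h1 ▸ one_mem _
  · exact h.mem_comm (orderOf_eq_prime (by rwa [pow_two]) h1)

/-- centralizers of involutions lie in parabolic subgroups -/
theorem Pack.cent_le {z : Γ} (hz : z ∈ [h.z3, h.z4]) : ∃ k, ∀ g : Γ, Commute z g →
    (g : GL _ K) ∈ (𝐒).P (symF4.J {k}) := by
  have := h.char
  have key : ∀ k (A : Set _), (∀ r ∈ A, certF4.R.InJ (symF4.J {k}) r) →
      (𝐒).U A ≤ (𝐒).P (symF4.J {k}) := fun k A hA => ((𝐒).U_mono hA).trans (le_sup_right.trans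
        (le_sup_right.trans ((𝐒).nconj.UJ_sup_LJ _).le))
  have hU := fun J => (𝐒).Up_le_B.trans ((𝐒).B_le_P J)
  rcases List.mem_pair.1 hz with rfl | rfl
  · refine ⟨1, fun g hg => sup_le (hU _) (key _ _ ?_) ((cent3 certF4.r3).le ⟨(h.good.le g.2).1,
      Subgroup.mem_centralizer_singleton_iff.2 (congrArg Subtype.val hg.symm)⟩)⟩
    rintro _ (rfl | rfl) <;> simp only [RS.InJ, Sym.J, Set.mem_preimage, Set.mem_singleton_iff] <;>
      decide +kernel
  · refine ⟨0, fun g hg => sup_le (key _ _ ?_) (((𝐒).U_mono fun _ h => h.1).trans (hU _))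
      ((cent4 h.one certF4.r3).le ⟨(h.good.le g.2).1,
        Subgroup.mem_centralizer_singleton_iff.2 (congrArg Subtype.val hg.symm)⟩)⟩
    rintro _ (rfl | rfl) <;> simp only [RS.InJ, Sym.J, Set.mem_preimage, Set.mem_singleton_iff] <;>
      decide +kernel

lemma Pack.card_P (hK : Fintype.card K = 2 ^ (2 * m + 1)) (k) :
    Nat.card ↥((𝐒).P (symF4.J {k}) ⊓ Γ) = (2 ^ (2 * m + 1)) ^ 12 * (2 ^ (2 * m + 1) - 1) ^ 2 *
      (1 + (2 ^ (2 * m + 1)) ^ (![1, 2] k : ℕ)) := by
  have := h.card k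
  rw [len, show (![2, 4] k : ℕ) = 2 * ![1, 2] k by fin_cases k <;> rfl, pow_mul,
    Real.sq_sqrt (by positivity)] at this
  rw [h.good.card_P, h.good.card_B, h.card_Up hK, h.card_H hK]
  congr 2
  exact_mod_cast this

/-- in `²F₄(2)` the centralizers of involutions are not contained in the Tits group -/
theorem Pack.sup_eq (h01 : ∀ t : K, t = 0 ∨ t = 1) {z : Γ} (hz : z ∈ [h.z3, h.z4]) :
    commutator _ ⊔ Subgroup.centralizer {z} = ⊤ := by
  have := h.char
  set M := commutator Γ ⊔ Subgroup.centralizer {z}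
  have hM : M.Normal := Subgroup.Normal.of_commutator_le _ le_sup_left
  have hu := h.w1_mem [rt 27, rt 25, rt 28] (by decide +kernel)
  have h1 : (⟨_, hu⟩ : Γ) ∈ M := by
    rcases List.mem_pair.1 hz with rfl | rfl
    · exact Subgroup.mem_sup_right (Subgroup.mem_centralizer_singleton_iff.2 (Subtype.ext
        (certF4.w1_mul_eq _ _ _ _ (by decide +kernel))))
    · let N := [27, 20, 27, 25, 22, 25, 27, 20, 27, 25, 22, 25, 33, 14, 33, 24, 23, 24].map rt
      have hn := h.w1_mem N (by decide +kernel)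
      have hv := h.w1_mem [rt 40, rt 35, rt 31] (by decide +kernel)
      have := hM.conj_mem' (⟨_, hv⟩ : Γ) (Subgroup.mem_sup_right
        (Subgroup.mem_centralizer_singleton_iff.2 (Subtype.ext
          (certF4.w1_mul_eq _ _ _ _ (by decide +kernel))))) ⟨_, hn⟩
      rwa [mul_assoc, show (⟨_, hv⟩ : Γ) * ⟨_, hn⟩ = ⟨_, hn⟩ * ⟨_, hu⟩ from Subtype.ext
        (certF4.w1_mul_eq _ _ _ _ (by decide +kernel)), inv_mul_cancel_left] at this
  have h2 := h.good.Up_le_of (M := M.map (Γ).subtype) (by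
    have := Subgroup.le_normalizer_map (H := M) (Γ).subtype
    rwa [Subgroup.normalizer_eq_top, ← MonoidHom.range_eq_map, Subgroup.range_subtype] at this)
    fun k g hg => by
      have h2 : ∀ L (hL : (𝐒).w1 L ∈ Γ),
          eqWordsN certF4.Z 2 (oneW ((L ++ L).map Fin.val)) (oneW []) = true →
          (𝐒).w1 L ∈ M.map (Γ).subtype := fun L hL he =>
        ⟨⟨_, hL⟩, Subgroup.mem_sup_left (h.mem_comm' (Subtype.ext
          ((certF4.w1_mul_eq _ _ [] [] he).trans (mul_one 1)))), rfl⟩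
      have h3 := h2 [rt 28, rt 30] (h.w1_mem _ (by decide +kernel)) (by decide +kernel)
      have h4 : _ ∈ M.map (Γ).subtype := ⟨_, h1, rfl⟩
      fin_cases k
      · obtain ⟨t, rfl⟩ := (h.mem0 g).1 hg
        rcases h01 t with rfl | rfl
        · simpa [wd] using one_mem _
        · simpa [w1] using h2 [rt 33, rt 24] (h.w1_mem _ (by decide +kernel)) (by decide +kernel)
      · obtain ⟨⟨t, s⟩, rfl⟩ := (h.mem1 g).1 hg
        rcases h01 t with rfl | rfl <;> rcases h01 s with rfl | rfl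
        · simpa [wd] using one_mem _
        · simpa [w1, wd] using h3
        · simpa [w1, wd] using h4
        · simpa [w1, wd, mul_assoc, x_mul_x_mul] using mul_mem h4 h3
  exact eq_top_iff.2 fun g _ => by
    obtain ⟨g', h3, e⟩ := sup_le h2.1 h2.2 (h.gen g.2)
    exact Subtype.ext e ▸ h3

theorem Pack.ncard_comm (h01 : ∀ t : K, t = 0 ∨ t = 1) :
    (ConjClasses.mk '' {g : commutator Γ | orderOf g = 2}).ncard = 2 := by
  refine ncard_classes [⟨h.z3, h.mem_comm h.order3⟩, ⟨h.z4, h.mem_comm h.order4⟩] (by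
      simp only [List.forall_mem_cons, ← Subgroup.orderOf_coe (H := commutator _), h.order3, h.order4]
      simp)
    (List.pairwise_pair.2 fun hc => h.not_conj ((commutator _).subtype.map_isConj hc)) fun g hg => ?_
  obtain ⟨a, ha, hc⟩ := h.ex' (z := g) (by rwa [Subgroup.orderOf_coe])
  obtain ⟨k, e⟩ := isConj_iff.1 hc
  obtain ⟨c, hc, d, hd, rfl⟩ := Subgroup.mem_sup_of_normal_left.1
    ((h.sup_eq h01 ha).ge (Subgroup.mem_top k))
  have : IsConj g ⟨a, h.mem_comm (by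
      rcases List.mem_pair.1 ha with rfl | rfl; exacts [h.order3, h.order4])⟩ :=
    (isConj_iff.2 ⟨⟨c, hc⟩, Subtype.ext (by
      change c * a * c⁻¹ = g
      rw [← e]; conv_lhs => rw [← mem_cent.1 hd]
      simp [mul_assoc])⟩).symm
  rcases List.mem_pair.1 ha with rfl | rfl
  exacts [⟨_, by simp, this⟩, ⟨_, by simp, this⟩]

end F4
end Chev
end H6
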