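import Cfsg.Agent.H6.InvChk
import Cfsg.Agent.H6.Twist

/-! More tools for involutions in characteristic two. -/

set_option autoImplicit false
set_option linter.unusedSectionVars false

namespace H6
open Cfsg StSys

section generic
variable {Φ ι κ : Type} [Fintype ι] [DecidableEq ι] {R : RS Φ ι} {F : Type*} [Field F]
  {G : Type*} [Group G]

variable (R) in
/-- the commutator terms surviving in characteristic two -/
def RS.t2 (r s : Φ) : List (Φ × ℕ × ℕ) :=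
  ((R.terms r s).filter fun c => c.2.1 % 2 == 1).map fun c => (c.1, c.2.2)

lemma StSys.comm2 [CharP F 2] (S : StSys R F G) {r s : Φ} {L : List (Φ × ℕ × ℕ)}
    (h : s ≠ r ∧ s ≠ R.neg r ∧ R.t2 r s = L) (t u : F) : S.x s u * S.x r t =
      S.x r t * S.x s u * S.wd (L.map fun c => (c.1, t ^ c.2.1 * u ^ c.2.2)) := by
  rw [S.comm r s h.1 h.2.1, ← h.2.2, RS.t2]
  congr 1
  induction R.terms r s with
  | nil => simp
  | cons c l ih =>
    rw [List.map_cons, List.prod_cons, ih]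
    rcases Int.emod_two_eq_zero_or_one c.2.1 with e | e
    · have : ((c.2.1 : ℤ) : F) = 0 := (CharP.intCast_eq_zero_iff F 2 _).2 (Int.dvd_of_emod_eq_zero e)
      simp [e, this]
    · have : ((c.2.1 : ℤ) : F) = 1 := by
        rw [← Int.emod_add_mul_ediv c.2.1 2, e]; simp [CharTwo.two_eq_zero]
      simp [e, this, wd_cons, CharTwo.neg_eq]

lemma StSys.conj2 [CharP F 2] (S : StSys R F G) {r s k : Φ}
    (h : s ≠ r ∧ s ≠ R.neg r ∧ R.t2 r s = [(k, 1, 1)]) (hk : R.Cm 2 k s) (t u : F) :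
    S.x s u * S.x r t * (S.x s u)⁻¹ = S.x r t * S.x k (t * u) := by
  rw [S.comm2 h]
  simp [wd, mul_assoc, ← mul_assoc (S.x s u), (hk.commute S (t * u) u).eq]

variable [Fintype Φ] {S : ChevSys R F G}

namespace ChevSys

lemma red_dual [DecidableEq Φ] [CharP F 2] {α : G ≃* G} (T : Sym R κ) {φ : Φ → F → F}
    (hφ : ∀ r, Function.Surjective (φ r)) (h : ∀ r t, α (S.x r t) = S.x (T.ρ r) (φ r t))
    (h2 : ∀ r i, (R.vec (T.ρ r) (T.π i) = 0 ↔ R.vec r i = 0) ∧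
      (R.A (T.π i) (T.ρ r) = 0 → R.A i r = 0)) (hs : ∀ i, R.Str i ∨ R.Str (T.π i)) (J : Set ι)
    (i : ι) (hi : i ∈ J) : S.Red i {r | (R.Pos r ∧ R.InJ J r) ∧ r ≠ R.simple i} := by
  rcases hs i with hs | hs
  · exact red_J hs hi
  refine red_of_aut hφ h (T.ρ_simple i) (by
    rintro _ ⟨⟨r, hr, rfl⟩, h⟩; exact ⟨r, ⟨hr, (h2 r i).2 h⟩, rfl⟩) ?_
  convert red_J (S := S) hs (J := T.π '' J) ⟨i, hi, rfl⟩ using 1
  ext r
  obtain ⟨r, rfl⟩ := T.ρ.surjective r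
  rw [← T.ρ_simple]
  simp only [T.ρ.injective.mem_set_image, Set.mem_setOf_eq, T.pos_ρ, ne_eq,
    T.ρ.injective.eq_iff, RS.InJ]
  rw [T.π.surjective.forall (p := fun j => j ∉ T.π '' J → _)]
  simp only [T.π.injective.mem_set_image, h2]

theorem cent_le' {z : G} {J : Set ι} (hW : ∀ u ∈ S.Up, ∀ n ∈ S.N, ∀ w, S.Acts n w → ∀ v ∈ S.Up,
      u * n * v * z * (u * n * v)⁻¹ = z → w ∈ R.WJ J)
    {M : Subgroup G} (hM : S.U {r | R.InJ J r} ≤ M) (hC : M ≤ Subgroup.centralizer {z})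
    (hB : S.B ⊓ Subgroup.centralizer {z} ≤ M) : S.grp ⊓ Subgroup.centralizer {z} ≤ M := by
  intro g hg
  obtain ⟨u, hu, n, hn, w, hw, v, hv, rfl⟩ := S.exists_unu hg.1
  have h4 := hW u hu n hn w hw v (S.U_mono (fun _ h => h.1) hv) (mem_cent.1 hg.2)
  obtain ⟨l, hl, rfl⟩ := R.exists_word_WJ h4
  have h5 := hM (nw_mem_U hl)
  have h6 := hM (S.U_mono (fun r hr => R.mem_WJ_iff.1 h4 r hr) hv)
  have h7 := S.inv_mul_mem_H (inv_mem hn) (inv_mem (S.nw_mem_N l)) hw.inv (S.nconj.acts_nw l).inv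
  have h8 := hB (Subgroup.mem_inf.2 ⟨mul_mem (S.Up_le_B hu) (S.H_le_B h7), by
    simpa [mul_assoc] using mul_mem (ir hg) (inv_mem (hC (mul_mem h5 h6)))⟩)
  simpa [mul_assoc] using mul_mem h8 (mul_mem h5 h6)

theorem Ess.act_mem_tw {T : Sym R κ} (X : Tw S T) {z z' u n v : G} {a : Φ}
    (h : S.Ess (X.σ z) (T.ρ a)) (hz : z ∈ S.Up) (hu : u ∈ S.Up) (hv : v ∈ S.Up) (hn' : n ∈ S.N)
    {w : R.W} (hn : S.Acts n w) (e : u * n * v * z * (u * n * v)⁻¹ = z') {A : Set Φ}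
    (hA : R.Closed A) (hp : ∀ r ∈ A, R.Pos r) (hN : S.Up ≤ Subgroup.normalizer (S.U A : Set G))
    (hz' : X.σ z' ∈ S.U A) : T.ρ (R.act w a) ∈ A := by
  obtain ⟨w', hw'⟩ := S.nconj.exists_acts_of_mem_N (X.σ_mem_N hn')
  have hU : ∀ u ∈ S.Up, X.σ u ∈ S.Up := fun u => X.σ_mem_U fun r => (T.pos_ρ r).2
  have h1 := S.U_le_grp _ hu
  have h2 := S.N_le_grp hn'
  have h3 := S.U_le_grp _ hv
  have h4 := mul_mem (mul_mem h1 h2) h3
  rw [← X.acts_σ hn' hn hw']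
  exact h.act_mem (hU z hz) (hU u hu) (hU v hv) hw' (by
    rw [← e, X.σ_mul3 h4 (S.U_le_grp _ hz) (inv_mem h4), X.σ_inv h4, X.σ_mul3 h1 h2 h3]) hA hp hN hz'

lemma normalizer_of_comm {A : Set Φ} (h : ∀ a ∈ A, ∀ r, R.Pos r → ∀ t u, Commute (S.x r u) (S.x a t)) :
    S.Up ≤ Subgroup.normalizer (S.U A : Set G) :=
  (U_le_iff _).2 fun r hr u => S.mem_normalizer_U (fun a ha t => by
    rw [(h a ha r hr t u).eq, mul_inv_cancel_right]; exact S.x_mem_U ha t) fun a ha t => by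
      rw [mul_assoc, ← (h a ha r hr t u).eq, inv_mul_cancel_left]; exact S.x_mem_U ha t

end ChevSys

lemma RS.closed_pair {a b : Φ} (h : ∀ k, ¬ R.Comb a b k) : R.Closed {a, b} := by
  rintro r (rfl | rfl) s (rfl | rfl) k hk
  exacts [Or.inl (RS.closed_singleton _ _ rfl _ rfl k hk), (h k hk).elim, (h k hk.symm).elim,
    Or.inr (RS.closed_singleton _ _ rfl _ rfl k hk)]

end generic

end H6
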