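import Cfsg.Agent.H5.SL

/-! Generation of `SL_n` by three conjugate regular unipotent elements. -/

set_option autoImplicit false
set_option linter.unusedSectionVars false

namespace H6.RU
open Matrix

variable {F : Type*} [Field F] {n : ℕ} {M : Subgroup (SpecialLinearGroup (Fin n) F)} {φ ψ v w : Fin n → F}

/-- the transvection with data `φ`, `v` is in `M` -/
def In (M : Subgroup (SpecialLinearGroup (Fin n) F)) (φ v : Fin n → F) : Prop :=
  ∃ m ∈ M, ∀ x, m.1 *ᵥ x = x + (φ ⬝ᵥ x) • v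

lemma mv_mul (a b : SpecialLinearGroup (Fin n) F) (x : Fin n → F) : (a * b).1 *ᵥ x = a.1 *ᵥ (b.1 *ᵥ x) := by simp
lemma mv_inv (a : SpecialLinearGroup (Fin n) F) (x : Fin n → F) : a.1 *ᵥ ((a⁻¹).1 *ᵥ x) = x := by
  rw [← mv_mul, mul_inv_cancel]; simp
lemma inv_mv (a : SpecialLinearGroup (Fin n) F) (x : Fin n → F) : (a⁻¹).1 *ᵥ (a.1 *ᵥ x) = x := by
  rw [← mv_mul, inv_mul_cancel]; simp

lemma In.conj (h : In M φ v) {k : SpecialLinearGroup (Fin n) F} (hk : k ∈ M) (e : ∀ x, ψ ⬝ᵥ (k.1 *ᵥ x) = φ ⬝ᵥ x) :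
    In M ψ (k.1 *ᵥ v) :=
  let ⟨m, a, b⟩ := h
  ⟨k * m * k⁻¹, mul_mem (mul_mem hk a) (inv_mem hk), fun x => by
    rw [mv_mul, mv_mul, b, mulVec_add, mv_inv, mulVec_smul, ← e, mv_inv]⟩

lemma In.add (h : In M φ v) (h' : In M φ w) (e : φ ⬝ᵥ w = 0) : In M φ (v + w) :=
  let ⟨m, a, b⟩ := h; let ⟨m', a', b'⟩ := h'
  ⟨m * m', mul_mem a a', fun x => by rw [mv_mul, b', b, dotProduct_add, dotProduct_smul, e]; module⟩

lemma In.neg (h : In M φ v) (e : φ ⬝ᵥ v = 0) : In M φ (-v) :=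
  let ⟨m, a, b⟩ := h
  ⟨m⁻¹, inv_mem a, fun x => by
    rw [show x = m.1 *ᵥ (x + (φ ⬝ᵥ x) • -v) by rw [b]; simp [e], inv_mv, b]; simp [e]⟩

/-- all transvections with hyperplane `φ` are in `M` -/
def Om (M : Subgroup (SpecialLinearGroup (Fin n) F)) (φ : Fin n → F) : Prop := ∀ v, φ ⬝ᵥ v = 0 → In M φ v

lemma Om.conj (h : Om M φ) {k : SpecialLinearGroup (Fin n) F} (hk : k ∈ M) (e : ∀ x, ψ ⬝ᵥ (k.1 *ᵥ x) = φ ⬝ᵥ x) : Om M ψ :=
  fun v hv => mv_inv k v ▸ (h _ (by rw [← e, mv_inv, hv])).conj hk e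

/-- basis vectors -/
def e (j : ℕ) : Fin n → F := fun i => if i.1 = j then 1 else 0
/-- the shift -/
def N : Matrix (Fin n) (Fin n) F := fun i j => if i.1 = j.1 + 1 then 1 else 0

lemma e_dot (j : Fin n) (x : Fin n → F) : e j.1 ⬝ᵥ x = x j := by simp [e, dotProduct, Fin.val_inj]
lemma e_dot' {j : ℕ} (h : j < n) (x : Fin n → F) : e j ⬝ᵥ x = x ⟨j, h⟩ := e_dot ⟨j, h⟩ x
lemma N_mv (x : Fin n → F) (i : Fin n) : (N *ᵥ x) i = if h : i.1 = 0 then 0 else x ⟨i.1 - 1, by omega⟩ := by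
  simp only [N, mulVec, dotProduct, ite_mul, one_mul, zero_mul]
  split_ifs with h
  · exact Finset.sum_eq_zero fun j _ => if_neg (by omega)
  · rw [Finset.sum_eq_single ⟨i.1 - 1, by omega⟩ (fun j _ hj => if_neg fun e => hj (Fin.ext (by simp; omega))) (by simp),
      if_pos (by simp; omega)]
lemma N_e (j : ℕ) : (N : Matrix (Fin n) (Fin n) F) *ᵥ e j = e (j + 1) := funext fun i => by
  rw [N_mv]; simp only [e]; split_ifs <;> first | rfl | omega
lemma N_pow (m j : ℕ) : (N : Matrix (Fin n) (Fin n) F) ^ m *ᵥ e j = e (j + m) := by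
  induction m with
  | zero => simp
  | succ m ih => rw [pow_succ', ← mulVec_mulVec, ih, N_e, add_assoc]
lemma e_eq (j : Fin n) : (e j.1 : Fin n → F) = Pi.single j 1 := funext fun i => by simp [e, Pi.single_apply, Fin.val_inj]
lemma mat_ext {a b : Matrix (Fin n) (Fin n) F} (h : ∀ x, a *ᵥ x = b *ᵥ x) : a = b := toLin'.injective (LinearMap.ext h)

/-- the Jordan block -/
def L : SpecialLinearGroup (Fin n) F := ⟨1 + N, by
  rw [det_of_lowerTriangular _ fun i j (h : i < j) => by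
    rw [Matrix.add_apply, one_apply_ne h.ne, N, if_neg (by have : i.1 < j.1 := h; omega), add_zero]]
  simp [N]⟩
lemma L_mv (x : Fin n → F) : (L : SpecialLinearGroup (Fin n) F).1 *ᵥ x = x + N *ᵥ x := by simp [L, add_mulVec]

theorem main {k : ℕ} [Fintype F] : ∃ g h : SpecialLinearGroup (Fin (k + 3)) F, Subgroup.closure {L, g * L * g⁻¹, h * L * h⁻¹} = ⊤ := by
  obtain ⟨l, hl⟩ := IsCyclic.exists_monoid_generator (α := Fˣ)
  obtain ⟨s, hs⟩ : ∃ s : F, s = Equiv.Perm.sign (Fin.revPerm : Equiv.Perm (Fin (k + 3))) := ⟨_, rfl⟩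
  have s2 : s * s = 1 := by rw [hs]; rcases Int.units_eq_one_or (Equiv.Perm.sign (Fin.revPerm : Equiv.Perm (Fin (k + 3)))) with h | h <;> simp [h]
  let d : Fin (k + 3) → F := Pi.mulSingle (Fin.last _) (l : F) * Pi.mulSingle 0 (s * (l : F)⁻¹)
  let g : SpecialLinearGroup (Fin (k + 3)) F := ⟨Equiv.Perm.permMatrix F Fin.revPerm * diagonal d, by
    rw [det_mul, det_permutation, det_diagonal, ← hs]
    simp only [d, Pi.mul_apply, Finset.prod_mul_distrib, Finset.prod_pi_mulSingle', Finset.mem_univ, if_true]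
    field_simp; linear_combination s2⟩
  have gm : ∀ x i, (g.1 *ᵥ x) i = d i.rev * x i.rev := fun x i => by
    simp [g, ← mulVec_mulVec, permMatrix_mulVec, mulVec_diagonal]
  have f0 : ∀ j, j < k + 2 → (e (k + 2) : Fin (k + 3) → F) ⬝ᵥ e j = 0 := fun j hj => by
    rw [e_dot' (by omega)]; exact if_neg (by simp; omega)
  let x : SpecialLinearGroup (Fin (k + 3)) F := SpecialLinearGroup.transvection (i := 1) (j := Fin.last _)
    (fun h => by simpa using congrArg Fin.val h) (l : F)⁻¹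
  have tm : ∀ (i j : Fin (k + 3)) (h : i ≠ j) (c : F) y, (SpecialLinearGroup.transvection h c).1 *ᵥ y = y + (e j.1 ⬝ᵥ y) • c • e i.1 :=
    fun i j h c y => by
      rw [SpecialLinearGroup.transvection_coe, add_mulVec, one_mulVec, e_dot, e_eq, single_mulVec]
      ext a; simp [Pi.single_apply, Function.update_apply, mul_comm]
  refine ⟨g, x * g, ?_⟩
  have m1 : L ∈ Subgroup.closure {L, g * L * g⁻¹, x * g * L * (x * g)⁻¹} := Subgroup.subset_closure (by simp)
  have m2 : g * L * g⁻¹ ∈ Subgroup.closure {L, g * L * g⁻¹, x * g * L * (x * g)⁻¹} := Subgroup.subset_closure (by simp)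
  have m3 : x * g * L * (x * g)⁻¹ ∈ Subgroup.closure {L, g * L * g⁻¹, x * g * L * (x * g)⁻¹} := Subgroup.subset_closure (by simp)
  generalize Subgroup.closure {L, g * L * g⁻¹, x * g * L * (x * g)⁻¹} = M at m1 m2 m3
  have uf : ∀ y, e (k + 2) ⬝ᵥ ((g * L * g⁻¹).1 *ᵥ y) = e (k + 2) ⬝ᵥ y := fun y => by
    nth_rw 2 [← mv_inv g y]
    rw [mv_mul, mv_mul, e_dot' (by omega), e_dot' (by omega), gm, gm, L_mv, Pi.add_apply, N_mv, dif_pos (by simp), add_zero]
  have u1 : (g * L * g⁻¹).1 *ᵥ e 1 = e 1 + (l : F) • e 0 := by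
    have a : g.1 *ᵥ e (k + 1) = e 1 := funext fun i => by
      rw [gm]; simp only [e, d, Pi.mul_apply, Pi.mulSingle_apply, Fin.ext_iff, Fin.val_rev, Fin.val_last, Fin.val_zero]
      split_ifs <;> first | omega | simp
    have b : g.1 *ᵥ e (k + 2) = (l : F) • e 0 := funext fun i => by
      rw [gm]; simp only [e, d, Pi.mul_apply, Pi.mulSingle_apply, Fin.ext_iff, Fin.val_rev, Fin.val_last, Fin.val_zero, Pi.smul_apply]
      split_ifs <;> first | omega | simp
    rw [← a, mv_mul, mv_mul, inv_mv, L_mv, N_e, mulVec_add, b]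
  rw [show x * g * L * (x * g)⁻¹ = x * (g * L * g⁻¹) * x⁻¹ by group] at m3
  generalize g * L * g⁻¹ = u at m2 m3 uf u1
  let A : AddSubgroup (Fin (k + 3) → F) := ⟨⟨⟨{v | e (k + 2) ⬝ᵥ v = 0 ∧ In M (e (k + 2)) v}, fun a b =>
    ⟨by rw [dotProduct_add, a.1, b.1, add_zero], a.2.add b.2 b.1⟩⟩, ⟨by simp, 1, one_mem _, by simp⟩⟩,
    fun a => ⟨by rw [dotProduct_neg, a.1, neg_zero], a.2.neg a.1⟩⟩
  have a0 : e 0 ∈ A := ⟨f0 0 (by omega), u * (x * u * x⁻¹)⁻¹, mul_mem m2 (inv_mem m3), fun y => by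
    have xi : ∀ y, (x⁻¹).1 *ᵥ y = y + (e (k + 2) ⬝ᵥ y) • (-(l : F)⁻¹) • e 1 := fun y => by
      rw [SpecialLinearGroup.transvection_inv, tm]; rfl
    have ui : ∀ y, e (k + 2) ⬝ᵥ ((u⁻¹).1 *ᵥ y) = e (k + 2) ⬝ᵥ y := fun y => by rw [← uf, mv_inv]
    rw [show u * (x * u * x⁻¹)⁻¹ = u * x * u⁻¹ * x⁻¹ by group, mv_mul, mv_mul, mv_mul, tm, mulVec_add, mv_inv, mulVec_smul,
      mulVec_smul, Fin.val_last, ui, xi, Fin.val_one, u1, dotProduct_add, dotProduct_smul, dotProduct_smul, f0 1 (by omega)]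
    match_scalars <;> field_simp <;> ring⟩
  have st : ∀ (c : F) j, j + 1 < k + 2 → c • e j ∈ A → c • e (j + 1) ∈ A := fun c j hj a => by
    obtain ⟨m, hm, b⟩ := a.2.conj (ψ := e (k + 2) ᵥ* (L⁻¹ : SpecialLinearGroup (Fin (k + 3)) F).1) m1 fun y => by
      rw [← dotProduct_mulVec, inv_mv]
    rw [L_mv, mulVec_smul, N_e] at b
    have z : m.1 *ᵥ e 0 ∈ A := by
      have q : ∀ y, e (k + 2) ⬝ᵥ (m.1 *ᵥ y) = e (k + 2) ⬝ᵥ y := fun y => by simp [b, f0 j (by omega), f0 (j + 1) hj]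
      exact ⟨by rw [q, a0.1], a0.2.conj hm q⟩
    have y0 : (L : SpecialLinearGroup (Fin (k + 3)) F).1 *ᵥ (fun i => (-1) ^ i.1) = e 0 := funext fun i => by
      rw [L_mv, Pi.add_apply, N_mv, e]
      split_ifs with h
      · simp [h]
      · obtain ⟨i, hi⟩ := i
        obtain _ | i := i
        · exact absurd rfl h
        · simp [pow_succ]
    rw [b, ← dotProduct_mulVec, A.add_mem_cancel_left a0] at z
    nth_rw 1 [← y0] at z
    rw [inv_mv, e_dot' (by omega)] at z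
    rcases neg_one_pow_eq_or F (k + 2) with p | p <;> simp only [p, one_smul, neg_smul, neg_mem_iff] at z <;>
      exact (A.add_mem_cancel_left a).1 z
  have r : ∀ c : F, c • e 0 ∈ A := fun c => by
    by_cases c0 : c = 0
    · simp [c0]
    obtain ⟨m, hm⟩ := hl (Units.mk0 c c0)
    obtain rfl : (l : F) ^ m = c := by simpa using congrArg Units.val hm
    clear c0 hm
    induction m with
    | zero => simpa using a0
    | succ m ih =>
      have a := st _ 0 (by omega) ih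
      have b : u.1 *ᵥ ((l : F) ^ m • e 1) ∈ A := ⟨by rw [uf, a.1], a.2.conj m2 uf⟩
      rwa [mulVec_smul, u1, smul_add, A.add_mem_cancel_left a, smul_smul, ← pow_succ] at b
  have r' : ∀ (c : F) j, j < k + 2 → c • e j ∈ A := fun c j hj => by
    induction j with
    | zero => exact r c
    | succ j ih => exact st c j hj (ih (by omega))
  have o0 : Om M (e (k + 2)) := fun v hv => by
    have : ∑ i : Fin (k + 3), v i • e i.1 ∈ A := sum_mem fun i _ => by
      by_cases hi : i.1 < k + 2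
      · exact r' _ _ hi
      · rw [e_dot' (by omega)] at hv
        rw [show i = ⟨k + 2, by omega⟩ from Fin.ext (by simp; omega), hv, zero_smul]; exact zero_mem _
    rw [show ∑ i : Fin (k + 3), v i • e i.1 = v by simp only [e_eq]; exact (pi_eq_sum_univ' v).symm] at this
    exact this.2
  have o1 : ∀ i j, j + i = k + 2 → Om M (e j) := fun i => by
    induction i with
    | zero => rintro j rfl; exact o0
    | succ i ih =>
      intro j hj
      have a := ih (j + 1) (by omega)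
      have b : Om M (e j + e (j + 1)) := a.conj (inv_mem m1) fun y => by
        nth_rw 2 [← mv_inv L y]
        rw [L_mv, add_dotProduct, dotProduct_add, add_comm, e_dot' (j := j + 1) (by omega) (N *ᵥ _), N_mv, dif_neg (by simp),
          e_dot' (j := j) (by omega)]; rfl
      obtain ⟨m, hm, c⟩ := a (e j) (by rw [e_dot' (by omega)]; exact if_neg (by simp))
      refine b.conj hm fun y => ?_
      rw [c, dotProduct_add, dotProduct_smul, add_dotProduct, e_dot' (j := j) (by omega) (e j)]; simp [e]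
  refine H5.eq_top_of_transvection_mem M fun i j hij c => ?_
  obtain ⟨m, hm, b⟩ := o1 (k + 2 - j) j (by omega) (c • e i.1) (by rw [e_dot]; simp [e, Fin.val_inj, hij.symm])
  rwa [show SpecialLinearGroup.transvection hij c = m from Subtype.ext (mat_ext fun y => by rw [tm, b])]

theorem reg {k : ℕ} : IsNilpotent ((L : SpecialLinearGroup (Fin (k + 1)) F).1 - 1) ∧
    ((L : SpecialLinearGroup (Fin (k + 1)) F).1 - 1) ^ k ≠ 0 := by
  rw [show (L : SpecialLinearGroup (Fin (k + 1)) F).1 - 1 = N from add_sub_cancel_left _ _]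
  refine ⟨⟨k + 1, ?_⟩, fun h => ?_⟩
  · ext i j
    have := congrFun (N_pow (F := F) (n := k + 1) (k + 1) j) i
    rw [e_eq, mulVec_single_one, e, if_neg (by omega)] at this
    exact this
  · have := congrFun (N_pow (F := F) (n := k + 1) k 0) (Fin.last k)
    simp [h, e] at this

end H6.RU
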