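import Cfsg.Agent.H6.Ree7
import Cfsg.Agent.S2337

/-!
Small Ree groups IX: the minimal degree of a complex representation.
-/

noncomputable section

namespace H6.Ree

open H5 Pointwise MulAction Suz Module

variable {K : Type*} [Field K] [Fintype K] {P : Par K} {G : Type*} [Group G]

lemma ker_ne_top {k : ℕ} {ρ : Representation ℂ G (Fin k → ℂ)} (hρ : ρ.IsIrreducible) (hk : 2 ≤ k) : ρ.ker ≠ ⊤ := by
  intro h4
  have h5 : (Pi.single ⟨0, by omega⟩ 1 : Fin k → ℂ) ≠ 0 := by simp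
  rcases eq_bot_or_eq_top (⟨ℂ ∙ Pi.single ⟨0, by omega⟩ 1, fun g v hv => by
    rwa [show ρ g = 1 from (h4 ▸ Subgroup.mem_top g : g ∈ ρ.ker)]⟩ : Subrepresentation ρ) with e | e
  · exact h5 (Submodule.span_singleton_eq_bot.1 (congrArg Subrepresentation.toSubmodule e))
  · have := finrank_span_singleton (K := ℂ) h5
    rw [show (ℂ ∙ _) = ⊤ from congrArg Subrepresentation.toSubmodule e] at this
    simp at this
    omega

theorem ReS.min_degree (X : ReS P G) (hm : 1 ≤ P.m) {k : ℕ} (ρ : Representation ℂ G (Fin k → ℂ))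
    (hρ : ρ.IsIrreducible) (hk : 2 ≤ k) : P.q ^ 2 - P.q + 1 ≤ k := by
  classical
  let ψ := AddChar.FiniteField.primitiveChar_to_Complex K
  have hψ : ψ.IsPrimitive := AddChar.FiniteField.primitiveChar_to_Complex_isPrimitive K
  let W : K → Submodule ℂ (Fin k → ℂ) := fun μ =>
    { carrier := {v | ∀ b, ρ (X.x 0 0 b) v = ψ (μ * b) • v}
      add_mem' := fun hv hw b => by rw [map_add, hv, hw, smul_add]
      zero_mem' := fun b => by simp
      smul_mem' := fun c v hv b => by rw [map_smul, hv, smul_comm] }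
  have hq : (Fintype.card K : ℂ) ≠ 0 := by simp
  let E : K → Module.End ℂ (Fin k → ℂ) := fun μ => (Fintype.card K : ℂ)⁻¹ • ∑ b, ψ (-(μ * b)) • ρ (X.x 0 0 b)
  have hE : ∀ μ, LinearMap.IsProj (W μ) (E μ) := fun μ => ⟨fun v c => by
    simp only [E, LinearMap.smul_apply, LinearMap.sum_apply, map_smul, map_sum, Finset.smul_sum]
    refine Fintype.sum_equiv (Equiv.addLeft c) _ _ fun b => ?_
    rw [smul_comm (ψ _), smul_smul (ψ _), ← AddChar.map_add_eq_mul, ← Module.End.mul_apply, ← map_mul, X.x_mul]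
    congr 4 <;> simp [mul_add], fun v hv => by
    simp only [E, LinearMap.smul_apply, LinearMap.sum_apply, hv _, smul_smul, ← AddChar.map_add_eq_mul,
      neg_add_cancel]
    simp [← Nat.cast_smul_eq_nsmul ℂ, smul_smul]⟩
  have hs : ∑ μ, finrank ℂ (W μ) = k := by
    have : ∑ μ, E μ = 1 := by
      simp only [E, ← Finset.smul_sum, ← mul_neg]
      rw [Finset.sum_comm]
      simp [← Finset.sum_smul, AddChar.sum_mulShift _ hψ, smul_smul, -mul_neg]
    have h := congrArg (LinearMap.trace ℂ _) this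
    simp only [map_sum, (hE _).trace, LinearMap.trace_one, finrank_fin_fun] at h
    exact_mod_cast h
  obtain ⟨μ₀, h0, h1⟩ : ∃ μ ≠ 0, W μ ≠ ⊥ := by
    by_contra! h
    rw [Finset.sum_eq_single 0 (fun μ _ hμ => by simp [h μ hμ]) (by simp)] at hs
    have h3 : W 0 = ⊤ := Submodule.eq_top_of_finrank_eq (by simpa)
    refine ker_ne_top hρ hk (((X.simple hm).eq_bot_or_eq_top_of_normal _ inferInstance).resolve_left fun e => ?_)
    have : X.x 0 0 1 ∈ ρ.ker := LinearMap.ext fun v => by simpa using (h3 ▸ Submodule.mem_top : v ∈ W 0) 1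
    simp [e, X.x_eq_one] at this
  have cen : ∀ b, ∀ u ∈ X.U, X.x 0 0 b * u = u * X.x 0 0 b := by
    rintro b _ ⟨t, u, v, rfl⟩; simp [X.x_mul, add_comm]
  have key : ∀ μ ≠ 0, P.q ≤ finrank ℂ (W μ) := fun μ hμ => by
    have : Nontrivial (W μ) := by
      obtain ⟨v, hv, hv0⟩ := (Submodule.ne_bot_iff _).1 h1
      let l := Units.mk0 (μ / μ₀) (div_ne_zero hμ h0)
      refine Submodule.nontrivial_iff_ne_bot.2 ((Submodule.ne_bot_iff _).2 ⟨ρ (X.D l)⁻¹ v, fun b => ?_,
        fun e => hv0 (by simpa using congrArg (ρ (X.D l)) e)⟩)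
      have := hv (μ / μ₀ * b)
      rw [← show _ = X.x 0 0 (μ / μ₀ * b) by simpa [l] using X.D_x l 0 0 b, ← mul_assoc μ₀, mul_div_cancel₀ _ h0] at this
      rw [← map_smul, ← this]
      simp [l]
    let σ := Representation.subrepresentation (ρ.comp X.U.subtype) (W μ) fun u v hv b => by
      change ρ _ (ρ u v) = _ • ρ u v
      rw [← map_smul, ← hv, ← Module.End.mul_apply, ← map_mul, cen b u u.2, map_mul, Module.End.mul_apply]
    have tr : ∀ g h : X.U, ∀ c, h * g * h⁻¹ = g * ⟨_, X.x_mem 0 0 c⟩ → ψ (μ * c) ≠ 1 →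
        LinearMap.trace ℂ _ (σ g) = 0 := fun g h c e hc => by
      have h4 := LinearMap.trace_mul_cycle ℂ (σ h) (σ g) (σ h⁻¹)
      rw [← map_mul, ← map_mul, ← map_mul, ← map_mul, inv_mul_cancel, one_mul, e, map_mul,
        show σ ⟨_, X.x_mem 0 0 c⟩ = ψ (μ * c) • 1 from LinearMap.ext fun v => Subtype.ext (v.2 _), mul_smul_comm,
        mul_one, map_smul, smul_eq_mul] at h4
      exact eq_zero_of_mul_eq_self_left hc h4
    have h3 := Cfsg.Agent.S2337.indep σ (fun i : K × K => ⟨_, X.x_mem i.1 i.2 0⟩) fun i j hij => by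
      obtain ⟨a, b, c, e⟩ := ((⟨_, X.x_mem i.1 i.2 0⟩ : X.U)⁻¹ * ⟨_, X.x_mem j.1 j.2 0⟩).2
      rw [show (_ : X.U) = ⟨_, X.x_mem a b c⟩ from Subtype.ext e]
      by_cases ha : a = 0
      · subst ha
        have hb : b ≠ 0 := fun hb => hij (by
          have := X.x_inj.1 ((X.x_mul ..).symm.trans (inv_mul_eq_iff_eq_mul.1 e).symm)
          exact Prod.ext (by simpa using this.1.symm) (by simpa [hb] using this.2.1.symm))
        obtain ⟨d, hd⟩ := AddChar.ne_one_iff.1 (hψ (mul_ne_zero hμ hb))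
        exact tr _ ⟨_, X.x_mem d 0 0⟩ (b * d) (Subtype.ext (by
          simp [mul_inv_eq_iff_eq_mul, X.x_mul]; congr 1; ring)) (by simpa [mul_assoc] using hd)
      · obtain ⟨d, hd⟩ := AddChar.ne_one_iff.1 (hψ (mul_ne_zero hμ ha))
        exact tr _ ⟨_, X.x_mem 0 (-d) 0⟩ (a * d) (Subtype.ext (by
          simp [mul_inv_eq_iff_eq_mul, X.x_mul]; congr 1 <;> ring)) (by simpa [mul_assoc] using hd)
    rw [Fintype.card_prod, P.hK] at h3
    exact Nat.mul_self_le_mul_self_iff.1 h3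
  have h6 : (P.q - 1) * P.q ≤ ∑ μ ∈ Finset.univ.erase 0, finrank ℂ (W μ) := by
    have := Finset.card_nsmul_le_sum _ _ _ fun μ (hμ : μ ∈ Finset.univ.erase 0) => key μ (Finset.ne_of_mem_erase hμ)
    rwa [Finset.card_erase_of_mem (Finset.mem_univ 0), Finset.card_univ, P.hK, smul_eq_mul] at this
  rw [← Finset.add_sum_erase _ _ (Finset.mem_univ 0)] at hs
  obtain ⟨t, ht⟩ := P.exists_q
  by_contra! hlt
  rw [show P.q ^ 2 - P.q = (P.q - 1) * P.q by rw [Nat.sub_one_mul, sq]] at hlt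
  have hW : W 0 = ⊥ := Submodule.finrank_eq_zero.1 (by omega)
  have ha : LinearMap.trace ℂ _ (ρ X.a) = 0 := by
    have h7 : E 0 = 0 := LinearMap.ext fun v => (Submodule.mem_bot ℂ).1 (hW ▸ (hE 0).1 v)
    have h8 := congrArg (fun f => LinearMap.trace ℂ _ (f * ρ X.a)) h7
    simp only [E, zero_mul, neg_zero, AddChar.map_zero_eq_one, one_smul, smul_mul_assoc, Finset.sum_mul, map_smul,
      map_sum, map_zero, ← map_mul] at h8
    rw [Finset.sum_congr rfl (g := fun _ => LinearMap.trace ℂ _ (ρ X.a)) fun b _ => ?_] at h8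
    · simpa using h8
    · rw [show X.x 0 0 b * X.a = X.x 0 0 (-b) * X.a * (X.x 0 0 (-b))⁻¹ from ?_, map_mul ρ, map_mul ρ,
        LinearMap.trace_mul_cycle, ← map_mul, inv_mul_cancel, map_one, one_mul]
      rw [mul_assoc, x_inv, a, D_mul_x, ← mul_assoc, X.x_mul]
      congr 2 <;> simp
      linear_combination b * P.three
  have hi : ∀ g : G, g * g = 1 → g ≠ 1 → LinearMap.trace ℂ _ (ρ g) = 0 := fun g h2 h1 => by
    obtain ⟨x, rfl⟩ := X.inv_conj hm h2 h1
    rw [map_mul ρ, map_mul ρ, LinearMap.trace_mul_cycle, ← map_mul, inv_mul_cancel, map_one, one_mul, ha]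
  have hW1 : X.W ≠ 1 := fun e => ReS.W_not_mem (X := X) (e ▸ one_mem _)
  have hW2 : X.a * X.W ≠ 1 := fun e => ReS.W_not_mem (X := X) ((mul_eq_one_iff_inv_eq.1 e) ▸ inv_mem X.a_mem_B)
  let p : Module.End ℂ (Fin k → ℂ) := (4 : ℂ)⁻¹ • (1 + ρ X.a + ρ X.W + ρ (X.a * X.W))
  have hp : IsIdempotentElem p := by
    simp only [IsIdempotentElem, p, smul_mul_smul_comm, mul_add, add_mul, ← map_mul, mul_one, one_mul, X.W_a,
      mul_assoc, ReS.a_sq, ReS.W_sq, ReS.a_a, map_one, ← mul_assoc X.W X.a, ReS.mul_W_W]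
    module
  have h9 := (LinearMap.IsIdempotentElem.isProj_range _ hp).trace
  simp only [p, map_smul, map_add, ha, hi _ X.W_sq hW1, hi _ (by simp [mul_assoc, ← mul_assoc X.W, X.W_a]) hW2,
    LinearMap.trace_one, finrank_fin_fun, add_zero, smul_eq_mul] at h9
  have : k = 4 * finrank ℂ (LinearMap.range p) := by exact_mod_cast (inv_mul_eq_iff_eq_mul₀ (by norm_num)).1 h9
  rw [ht, show (24 * t + 3 - 1) * (24 * t + 3) = 4 * (144 * t ^ 2 + 30 * t + 1) + 2 by
    rw [show 24 * t + 3 - 1 = 24 * t + 2 by omega]; ring] at h6 hlt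
  omega

end H6.Ree
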