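import Cfsg.Agent.H5.SL2Tor

/-!
A finite group with a non-trivial normal 3-subgroup whose element orders are the divisors of `6, 9, q - 1, (q + 1)/2`
(`q = 3^α`, `α` odd): affine maps of `(L ⊗ L^σ)^n` with linear parts in `±PSL₂(q)`.
-/

set_option autoImplicit false

namespace H6.Sp3

open Matrix H5

section Aff
variable {G W : Type*} [Group G] [AddCommGroup W] (ψ : G →* AddMonoid.End W)

theorem psi_mul (a b : G) (x : W) : ψ (a * b) x = ψ a (ψ b x) := by rw [map_mul]; rfl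

theorem psi_one (x : W) : ψ 1 x = x := by rw [map_one]; rfl

/-- The affine map with linear part `ψ a` and translation part `v`. -/
def aff (a : G) (v : W) : Equiv.Perm W where
  toFun x := ψ a x + v
  invFun y := ψ a⁻¹ (y - v)
  left_inv x := by
    show ψ a⁻¹ (ψ a x + v - v) = x
    rw [add_sub_cancel_right, ← psi_mul, inv_mul_cancel, psi_one]
  right_inv y := by
    show ψ a (ψ a⁻¹ (y - v)) + v = y
    rw [← psi_mul, mul_inv_cancel, psi_one, sub_add_cancel]

theorem aff_apply (a : G) (v x : W) : aff ψ a v x = ψ a x + v := rfl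

theorem aff_mul (a b : G) (v w : W) : aff ψ a v * aff ψ b w = aff ψ (a * b) (ψ a w + v) := by
  ext x
  rw [Equiv.Perm.mul_apply, aff_apply, aff_apply, aff_apply, psi_mul, map_add, add_assoc]

theorem aff_one : aff ψ 1 0 = 1 := by
  ext x
  rw [aff_apply, psi_one, add_zero]; rfl

theorem aff_inv (a : G) (v : W) : (aff ψ a v)⁻¹ = aff ψ a⁻¹ (-ψ a⁻¹ v) := by
  rw [inv_eq_iff_mul_eq_one, aff_mul, mul_inv_cancel, map_neg, ← psi_mul, mul_inv_cancel, psi_one, neg_add_cancel,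
    aff_one]

/-- The affine group. -/
def Aff : Subgroup (Equiv.Perm W) where
  carrier := {f | ∃ a v, f = aff ψ a v}
  one_mem' := ⟨1, 0, (aff_one ψ).symm⟩
  mul_mem' := by
    rintro _ _ ⟨a, v, rfl⟩ ⟨b, w, rfl⟩
    exact ⟨_, _, aff_mul ψ a b v w⟩
  inv_mem' := by
    rintro _ ⟨a, v, rfl⟩
    exact ⟨_, _, aff_inv ψ a v⟩

theorem aff_pow (a : G) (v : W) (k : ℕ) : ∃ w, aff ψ a v ^ k = aff ψ (a ^ k) w := by
  induction k with
  | zero => exact ⟨0, by rw [pow_zero, pow_zero, aff_one]⟩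
  | succ k ih =>
    obtain ⟨w, e⟩ := ih
    exact ⟨_, by rw [pow_succ, e, aff_mul, pow_succ]⟩

theorem aff_pow_zero (a : G) (k : ℕ) : aff ψ a 0 ^ k = aff ψ (a ^ k) 0 := by
  induction k with
  | zero => rw [pow_zero, pow_zero, aff_one]
  | succ k ih => rw [pow_succ, ih, aff_mul, pow_succ, map_zero, add_zero]

variable {ψ}

theorem aff_cube (h3 : ∀ w : W, w + w + w = 0) {a : G} (h : ∀ x, ψ a x = x) (v : W) : aff ψ a v ^ 3 = 1 := by
  ext x
  rw [pow_three, Equiv.Perm.mul_apply, Equiv.Perm.mul_apply, aff_apply, aff_apply, aff_apply, h, h, h, add_assoc,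
    add_assoc, ← add_assoc v, h3, add_zero]
  rfl

theorem pow_three_mul (h3 : ∀ w : W, w + w + w = 0) {a : G} {k : ℕ} (h : ∀ x, ψ (a ^ k) x = x) (v : W) :
    aff ψ a v ^ (k * 3) = 1 := by
  obtain ⟨w, e⟩ := aff_pow ψ a v k
  rw [pow_mul, e, aff_cube h3 h]

theorem pow_of_inj [Finite W] {a : G} (hi : ∀ x, ψ a x = x → x = 0) {k : ℕ} (h : ∀ x, ψ (a ^ k) x = x) (v : W) :
    aff ψ a v ^ k = 1 := by
  have hinj : Function.Injective fun x => x - ψ a x := by
    intro x y e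
    have := hi (x - y) (by rw [map_sub]; simp only at e; rw [sub_eq_sub_iff_sub_eq_sub] at e; exact e.symm)
    exact sub_eq_zero.1 this
  obtain ⟨x0, hx⟩ := Finite.surjective_of_injective hinj v
  have hf : aff ψ a v x0 = x0 := by rw [aff_apply, ← hx]; simp
  obtain ⟨w, e⟩ := aff_pow ψ a v k
  have h2 : (aff ψ a v ^ k) x0 = x0 := Equiv.Perm.pow_apply_eq_self_of_apply_eq_self hf k
  rw [e, aff_apply, h, add_eq_left] at h2
  rw [e, h2]
  ext x
  rw [aff_apply, h, add_zero]; rfl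

theorem aff_zero_eq_one {a : G} : aff ψ a 0 = 1 ↔ ∀ x, ψ a x = x := by
  refine ⟨fun h x => ?_, fun h => ?_⟩
  · have := congrArg (· x) h
    simpa [aff_apply] using this
  · ext x
    rw [aff_apply, h, add_zero]; rfl

variable (ψ)

/-- The translations. -/
def Tr : Subgroup (Aff ψ) where
  carrier := {f | ∃ v, f.1 = aff ψ 1 v}
  one_mem' := ⟨0, (aff_one ψ).symm⟩
  mul_mem' := by
    rintro f g ⟨v, e⟩ ⟨w, e'⟩
    exact ⟨_, by rw [Subgroup.coe_mul, e, e', aff_mul, one_mul]⟩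
  inv_mem' := by
    rintro f ⟨v, e⟩
    exact ⟨_, by rw [Subgroup.coe_inv, e, aff_inv, inv_one]⟩

theorem Tr_normal : (Tr ψ).Normal := by
  refine ⟨?_⟩
  rintro f ⟨v, e⟩ ⟨_, a, w, rfl⟩
  exact ⟨_, by rw [Subgroup.coe_mul, Subgroup.coe_mul, Subgroup.coe_inv, e, aff_inv, aff_mul, aff_mul, mul_one,
    mul_inv_cancel]⟩

theorem Tr_p (h3 : ∀ w : W, w + w + w = 0) : IsPGroup 3 (Tr ψ) := by
  rintro ⟨f, v, e⟩
  refine ⟨1, Subtype.ext (Subtype.ext ?_)⟩
  show f.1 ^ 3 ^ 1 = 1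
  rw [e, pow_one, aff_cube h3 (psi_one ψ)]

theorem tr_inj : Function.Injective fun v : W => (⟨aff ψ 1 v, 1, v, rfl⟩ : Aff ψ) := by
  intro v w e
  have := congrArg (fun f : Aff ψ => f.1 0) e
  simpa [aff_apply] using this

theorem Tr_ne_bot [Nontrivial W] : Tr ψ ≠ ⊥ := by
  intro h
  obtain ⟨v, hv⟩ := exists_ne (0 : W)
  have : (⟨aff ψ 1 v, 1, v, rfl⟩ : Aff ψ) ∈ Tr ψ := ⟨v, rfl⟩
  rw [h, Subgroup.mem_bot] at this
  exact hv (tr_inj ψ (this.trans (Subtype.ext (aff_one ψ).symm)))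

end Aff

section Lin
variable {F : Type*} [Field F] [CharP F 3]

/-- `2 × 2` matrices. -/
abbrev M2 (F : Type*) := Matrix (Fin 2) (Fin 2) F

/-- The cubed transpose. -/
def tw (g : M2 F) : M2 F := (g.map (frobenius F 3))ᵀ

theorem tw_mul (g h : M2 F) : tw (g * h) = tw h * tw g := by
  rw [tw, tw, tw, ← transpose_mul, Matrix.map_mul]

theorem tw_one : tw (1 : M2 F) = 1 := by
  rw [tw, Matrix.map_one _ (map_zero _) (map_one _), transpose_one]

theorem tw_neg (g : M2 F) : tw (-g) = -tw g := by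
  ext i j; simp [tw]

/-- The action of `±SL₂` on `n` copies of `L ⊗ L^σ`. -/
def rho (F : Type*) [Field F] [CharP F 3] (n : ℕ) : ℤˣ × SL2 F →* AddMonoid.End (Fin n → M2 F) where
  toFun a :=
    { toFun := fun x i => (a.1 : ℤ) • (a.2.1 * x i * tw a.2.1)
      map_zero' := by ext1 i; simp
      map_add' := fun x y => by ext1 i; simp [mul_add, add_mul] }
  map_one' := by
    refine AddMonoidHom.ext fun x => funext fun i => ?_
    show ((1 : ℤˣ) : ℤ) • ((1 : M2 F) * x i * tw 1) = x i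
    simp [tw_one]
  map_mul' a b := by
    refine AddMonoidHom.ext fun x => funext fun i => ?_
    show ((a.1 * b.1 : ℤˣ) : ℤ) • ((a.2.1 * b.2.1) * x i * tw (a.2.1 * b.2.1)) =
      (a.1 : ℤ) • (a.2.1 * ((b.1 : ℤ) • (b.2.1 * x i * tw b.2.1)) * tw a.2.1)
    simp only [tw_mul, Units.val_mul, mul_smul, Matrix.mul_assoc, mul_smul_comm, smul_mul_assoc]

theorem rho_apply {n : ℕ} (ε : ℤˣ) (g : SL2 F) (x : Fin n → M2 F) (i : Fin n) :
    rho F n (ε, g) x i = (ε : ℤ) • (g.1 * x i * tw g.1) := rfl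

theorem add3 {n : ℕ} (w : Fin n → M2 F) : w + w + w = 0 := by
  ext i a b
  have : (3 : F) = 0 := by exact_mod_cast CharP.cast_eq_zero F 3
  simp only [Pi.add_apply, Matrix.add_apply, Pi.zero_apply, Matrix.zero_apply]
  linear_combination (w i a b) * this

theorem rho_triv {n : ℕ} {g : SL2 F} (h : mkS g = 1) (x : Fin n → M2 F) : rho F n (1, g) x = x := by
  funext i
  rw [rho_apply]
  rcases mkS_eq_one_iff.1 h with rfl | rfl
  · simp [tw_one]
  · simp [tw_neg, tw_one]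

theorem rho_pow {n : ℕ} (ε : ℤˣ) {g : SL2 F} {k : ℕ} (h : orderOf (mkS g) ∣ k) (h2 : ε ^ k = 1)
    (x : Fin n → M2 F) : rho F n ((ε, g) ^ k) x = x := by
  rw [Prod.pow_mk, h2]
  exact rho_triv (by rw [map_pow]; exact orderOf_dvd_iff_pow_eq_one.1 h) x

theorem ch2 {R : Type*} [CommRing R] (A : Matrix (Fin 2) (Fin 2) R) : A * A = A.trace • A - A.det • 1 := by
  ext i j
  fin_cases i <;> fin_cases j <;> simp [Matrix.mul_apply, Fin.sum_univ_two, trace_fin_two, det_fin_two] <;> ring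

theorem tw_trace (g : M2 F) : (tw g).trace = g.trace ^ 3 := by
  simp only [tw, trace_fin_two, transpose_apply, map_apply, ← map_add]
  rw [frobenius_def]

theorem tw_det (g : M2 F) : (tw g).det = g.det ^ 3 := by
  rw [tw, det_transpose, ← RingHom.mapMatrix_apply, ← RingHom.map_det, frobenius_def]

/-- A fixed vector forces `ε t³ = t`. -/
theorem trace_of_fix {e : F} (he : e * e = 1) {g : SL2 F} {M : M2 F} (hM : M ≠ 0) (h : e • (g.1 * M * tw g.1) = M) :
    e * g.1.trace ^ 3 = g.1.trace := by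
  have c1 := ch2 g.1
  have c2 := ch2 (tw g.1)
  rw [g.2, one_smul] at c1
  rw [tw_trace, tw_det, g.2, one_pow, one_smul] at c2
  set t := g.1.trace
  set B := tw g.1
  have h1 : g.1 * M * B = e • M := by
    conv_rhs => rw [← h, smul_smul, he, one_smul]
  -- `g M = e M (t³ - B)`
  have h2 : g.1 * M = e • (t ^ 3 • M - M * B) := by
    have : B * (t ^ 3 • 1 - B) = 1 := by rw [mul_sub, c2]; simp
    calc g.1 * M = g.1 * M * (B * (t ^ 3 • 1 - B)) := by rw [this, Matrix.mul_one]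
      _ = _ := by rw [← Matrix.mul_assoc, h1]; simp [mul_sub, smul_sub, smul_comm e]
  have h3 : g.1 * (g.1 * M) = t • (g.1 * M) - M := by
    rw [← Matrix.mul_assoc, c1, sub_mul, smul_mul_assoc, Matrix.one_mul]
  have h4 : g.1 * (g.1 * M) = e • (t ^ 3 • (g.1 * M)) - M := by
    conv_lhs => rw [h2]
    rw [mul_smul_comm, mul_sub, mul_smul_comm, ← Matrix.mul_assoc, h1, smul_sub, smul_smul e e, he, one_smul]
  rw [h3, sub_left_inj, smul_smul, ← sub_eq_zero, ← sub_smul, smul_eq_zero] at h4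
  rcases h4 with h4 | h4
  · exact (sub_eq_zero.1 h4).symm
  · exact absurd (by rw [← h, h4]; simp) hM

theorem cube_of_trace {g : SL2 F} (h : g.1.trace ^ 2 = 1) : mkS (g ^ 3) = 1 := by
  have h3 : (3 : F) = 0 := by exact_mod_cast CharP.cast_eq_zero F 3
  have c1 := ch2 g.1
  rw [g.2, one_smul] at c1
  have e : (g ^ 3).1 = (-g.1.trace) • (1 : M2 F) := by
    rw [pow_three]
    show g.1 * (g.1 * g.1) = _
    rw [c1, mul_sub, mul_smul_comm, c1, smul_sub, smul_smul, ← sq, h]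
    simp
  rw [mkS_eq_one_iff]
  have : (g.1.trace - 1) * (g.1.trace + 1) = 0 := by linear_combination h
  rcases mul_eq_zero.1 this with h' | h'
  · right
    refine Subtype.ext ?_
    rw [e, show g.1.trace = 1 by linear_combination h']
    simp
  · left
    refine Subtype.ext ?_
    rw [e, show g.1.trace = -1 by linear_combination h']
    simp

theorem sq_of_trace {g : SL2 F} (h : g.1.trace = 0) : mkS (g ^ 2) = 1 := by
  have c1 := ch2 g.1
  rw [g.2, one_smul, h] at c1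
  rw [mkS_eq_one_iff]
  right
  refine Subtype.ext ?_
  rw [sq]
  show g.1 * g.1 = -1
  rw [c1]
  simp

theorem rho_eq_id {n : ℕ} {ε : ℤˣ} {g : SL2 F} (h : ∀ x, rho F (n + 1) (ε, g) x = x) : ε = 1 ∧ mkS g = 1 := by
  have h3 : (3 : F) = 0 := by exact_mod_cast CharP.cast_eq_zero F 3
  obtain ⟨a, b, c, d, hd, rfl⟩ := exists_sl2 g
  have key : ∀ (M : M2 F) (i j : Fin 2), ((ε : ℤ) : F) * (!![a, b; c, d] * M * tw !![a, b; c, d]) i j = M i j := by
    intro M i j
    have := congrFun (congrFun (congrFun (h fun _ => M) 0) i) j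
    rw [rho_apply, ← Int.cast_smul_eq_zsmul F] at this
    exact this
  have e1 := key !![1, 0; 0, 0] 1 1
  have e2 := key !![0, 0; 0, 1] 0 0
  have e3 := key !![0, 0; 0, 1] 1 1
  have e4 := key !![0, 1; 0, 0] 0 1
  simp [tw, Matrix.mul_apply, Fin.sum_univ_two, frobenius_def] at e1 e2 e3 e4
  have hε : ((ε : ℤ) : F) ≠ 0 := by rcases Int.units_eq_one_or ε with rfl | rfl <;> simp
  simp only [Int.cast_eq_zero, hε, false_or] at e1 e2
  subst e1 e2
  have h5 : ((ε : ℤ) : F) * d ^ 2 = 1 := by linear_combination e4 - ((ε : ℤ) : F) * d ^ 2 * hd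
  have h6 : d ^ 2 = 1 := by linear_combination e3 - d ^ 2 * h5
  have h7 : a = d := by linear_combination d * hd - a * h6
  subst h7
  refine ⟨?_, ?_⟩
  · rcases Int.units_eq_one_or ε with rfl | rfl
    · rfl
    · exfalso
      simp only [Units.val_neg, Units.val_one, Int.cast_neg, Int.cast_one] at h5
      exact one_ne_zero (by linear_combination h5 + h6 + h3 : (1 : F) = 0)
  · rw [mkS_eq_one_iff, one_eq_sl2, neg_sl2, sl2_eq_iff, sl2_eq_iff]
    have : (a - 1) * (a + 1) = 0 := by linear_combination h6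
    rcases mul_eq_zero.1 this with h' | h'
    · exact Or.inl ⟨by linear_combination h', rfl, rfl, by linear_combination h'⟩
    · exact Or.inr ⟨by linear_combination h', neg_zero.symm, neg_zero.symm, by linear_combination h'⟩

theorem order_lin {n : ℕ} (ε : ℤˣ) (g : SL2 F) :
    orderOf (aff (rho F (n + 1)) (ε, g) 0) = Nat.lcm (orderOf ε) (orderOf (mkS g)) := by
  rw [← Prod.orderOf_mk, orderOf_eq_orderOf_iff]
  intro k
  rw [aff_pow_zero, aff_zero_eq_one, Prod.pow_mk, Prod.pow_mk, Prod.mk_eq_one, ← map_pow]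
  exact ⟨rho_eq_id, fun h x => by rw [h.1]; exact rho_triv h.2 x⟩

/-- A transvection. -/
def uu (F : Type*) [Field F] : SL2 F := sl2 1 1 0 1 (by simp)

theorem uu_cube : mkS (uu F ^ 3) = 1 := by
  have h3 : (3 : F) = 0 := by exact_mod_cast CharP.cast_eq_zero F 3
  refine cube_of_trace ?_
  show (!![(1 : F), 1; 0, 1]).trace ^ 2 = 1
  rw [trace_fin_two_of]
  linear_combination h3

theorem order_uu : orderOf (mkS (uu F)) = 3 := by
  haveI : Fact (Nat.Prime 3) := ⟨Nat.prime_three⟩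
  refine orderOf_eq_prime (by rw [← map_pow]; exact uu_cube) ?_
  rw [Ne, mkS_eq_one_iff, one_eq_sl2, neg_sl2, uu, sl2_eq_iff, sl2_eq_iff]
  simp

theorem order_nine {n : ℕ} : orderOf (aff (rho F (n + 1)) (1, uu F) fun _ => !![0, 0; 0, 1]) = 9 := by
  haveI : Fact (Nat.Prime 3) := ⟨Nat.prime_three⟩
  have h3 : (3 : F) = 0 := by exact_mod_cast CharP.cast_eq_zero F 3
  refine orderOf_eq_prime_pow (p := 3) (n := 1) (fun h => ?_)
    (pow_three_mul add3 (k := 3) (rho_pow 1 (by rw [order_uu]) (one_pow _)) _)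
  have := congrFun (congrFun (congrFun (congrArg (· 0) h) 0) 0) 0
  simp only [pow_one, pow_three, Equiv.Perm.mul_apply, aff_apply, map_zero, zero_add, Pi.add_apply, rho_apply,
    Equiv.Perm.one_apply] at this
  have hu : (uu F).1 = !![1, 1; 0, 1] := rfl
  have ht : tw (!![1, 1; 0, 1] : M2 F) = !![1, 0; 1, 1] := by
    ext i j; fin_cases i <;> fin_cases j <;> simp [tw]
  rw [hu, ht] at this
  simp [Matrix.mul_apply, Fin.sum_univ_two] at this
  exact one_ne_zero (by linear_combination -this + 2 * h3 : (1 : F) = 0)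

variable [Fintype F]

theorem order_dvd (hq : Fintype.card F % 4 = 3) {n : ℕ} (f : Aff (rho F n)) :
    orderOf f ∣ 6 ∨ orderOf f ∣ 9 ∨ orderOf f ∣ Fintype.card F - 1 ∨ orderOf f ∣ (Fintype.card F + 1) / 2 := by
  haveI : Fact (Nat.Prime 3) := ⟨Nat.prime_three⟩
  obtain ⟨_, ⟨ε, g⟩, v, rfl⟩ := f
  simp only [← Subgroup.orderOf_coe, orderOf_dvd_iff_pow_eq_one]
  have hε : ∀ k, 2 ∣ k → ε ^ k = 1 := by
    rintro _ ⟨k, rfl⟩
    rw [pow_mul, Int.units_sq, one_pow]
  by_cases hi : ∀ x, rho F n (ε, g) x = x → x = 0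
  · have hg : Nat.gcd 2 (Fintype.card F - 1) = 2 := Nat.gcd_eq_left (by omega)
    rcases orderOf_PS 3 (mkS_mem_PS g) with h | h | h
    · exact Or.inl (pow_of_inj hi (rho_pow ε (by rw [h]; norm_num) (hε _ (by norm_num))) v)
    · rw [hg] at h
      exact Or.inr (Or.inr (Or.inl (pow_of_inj hi (rho_pow ε (h.trans (Nat.div_dvd_of_dvd (by omega)))
        (hε _ (by omega))) v)))
    · rw [hg] at h
      exact Or.inr (Or.inr (Or.inr (pow_of_inj hi (rho_pow ε h (hε _ (by omega))) v)))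
  · push Not at hi
    obtain ⟨x, hx, h0⟩ := hi
    obtain ⟨i, hi⟩ := Function.ne_iff.1 h0
    have h1 := congrFun hx i
    rw [rho_apply, ← Int.cast_smul_eq_zsmul F] at h1
    have he : ((ε : ℤ) : F) * ((ε : ℤ) : F) = 1 := by
      rw [← Int.cast_mul, ← Units.val_mul, Int.units_mul_self]; simp
    have h2 := trace_of_fix he hi h1
    by_cases ht : g.1.trace = 0
    · left
      exact pow_three_mul add3 (k := 2) (rho_pow ε (by
        rw [orderOf_dvd_iff_pow_eq_one, ← map_pow]; exact sq_of_trace ht) (hε _ dvd_rfl)) v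
    · have h3 : ((ε : ℤ) : F) * g.1.trace ^ 2 = 1 := by
        apply mul_right_cancel₀ ht
        linear_combination h2
      rcases Int.units_eq_one_or ε with rfl | rfl
      · right; left
        exact pow_three_mul add3 (k := 3) (rho_pow 1 (by
          rw [orderOf_dvd_iff_pow_eq_one, ← map_pow]; exact cube_of_trace (by simpa using h3)) (one_pow _)) v
      · exfalso
        refine FiniteField.isSquare_neg_one_iff.1 ⟨g.1.trace, ?_⟩ hq
        simp only [Units.val_neg, Units.val_one, Int.cast_neg, Int.cast_one] at h3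
        linear_combination h3

theorem exists_order_of_dvd {G : Type*} [Group G] [Finite G] {g : G} {d : ℕ} (h : d ∣ orderOf g) :
    d ∈ Set.range (orderOf : G → ℕ) :=
  ⟨g ^ (orderOf g / d), orderOf_pow_orderOf_div (orderOf_pos g).ne' h⟩

theorem spectrum (hq : Fintype.card F % 4 = 3) {n d : ℕ} :
    d ∈ Set.range (orderOf : Aff (rho F (n + 1)) → ℕ) ↔
      d ∣ 6 ∨ d ∣ 9 ∨ d ∣ Fintype.card F - 1 ∨ d ∣ (Fintype.card F + 1) / 2 := by
  refine ⟨by rintro ⟨f, rfl⟩; exact order_dvd hq f, fun h => ?_⟩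
  have hg : Nat.gcd 2 (Fintype.card F - 1) = 2 := Nat.gcd_eq_left (by omega)
  have hm : orderOf (-1 : ℤˣ) = 2 := orderOf_eq_prime (p := 2) (hp := ⟨Nat.prime_two⟩) (by simp) (by decide)
  have key : ∀ (a : ℤˣ × SL2 F) (v : Fin (n + 1) → M2 F), d ∣ orderOf (aff (rho F (n + 1)) a v) →
      d ∈ Set.range (orderOf : Aff (rho F (n + 1)) → ℕ) := fun a v h =>
    exists_order_of_dvd (g := ⟨_, a, v, rfl⟩) (by rwa [← Subgroup.orderOf_coe])
  rcases h with h | h | h | h
  · exact key (-1, uu F) 0 (by rw [order_lin, hm, order_uu]; exact h)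
  · exact key (1, uu F) _ (by rw [order_nine]; exact h)
  · obtain ⟨T, D, hT⟩ := exists_tor (F := F) (Or.inl rfl)
    obtain ⟨r, hr, ho⟩ := hT.exists_gen_PS
    obtain ⟨g, rfl⟩ : r ∈ PS F := (hr.le (Subgroup.mem_zpowers r)).2
    refine key (-1, g) 0 ?_
    rw [hg] at ho
    rw [order_lin, hm, ho, Nat.Coprime.lcm_eq_mul (Nat.coprime_two_left.2 (Nat.odd_iff.2 (by omega))),
      Nat.mul_div_cancel' (by omega)]
    exact h
  · obtain ⟨T, D, hT⟩ := exists_tor (F := F) (Or.inr rfl)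
    obtain ⟨r, hr, ho⟩ := hT.exists_gen_PS
    obtain ⟨g, rfl⟩ : r ∈ PS F := (hr.le (Subgroup.mem_zpowers r)).2
    refine key (1, g) 0 ?_
    rw [hg] at ho
    rw [order_lin, orderOf_one, ho, Nat.lcm_one_left]
    exact h

end Lin

theorem exists_H (α : ℕ) (hodd : Odd α) (N : ℕ) : ∃ (H : Type) (_ : Group H) (_ : Fintype H),
    N < Fintype.card H ∧ (∃ P : Subgroup H, P.Normal ∧ P ≠ ⊥ ∧ IsPGroup 3 ↥P) ∧ ∀ d,
      d ∈ Set.range (orderOf : H → ℕ) ↔ d ∣ 6 ∨ d ∣ 9 ∨ d ∣ 3 ^ α - 1 ∨ d ∣ (3 ^ α + 1) / 2 := by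
  haveI : Fact (Nat.Prime 3) := ⟨Nat.prime_three⟩
  let F := GaloisField 3 α
  letI : Fintype F := Fintype.ofFinite F
  have hF : Fintype.card F = 3 ^ α := by
    rw [← Nat.card_eq_fintype_card]; exact GaloisField.card 3 α hodd.pos.ne'
  have hq : Fintype.card F % 4 = 3 := by
    obtain ⟨k, rfl⟩ := hodd
    rw [hF, pow_succ, pow_mul, Nat.mul_mod, Nat.pow_mod]; simp
  letI : Fintype (Aff (rho F (N + 1))) := Fintype.ofFinite _
  refine ⟨Aff (rho F (N + 1)), inferInstance, inferInstance, ?_, ⟨Tr _, Tr_normal _, Tr_ne_bot _, Tr_p _ add3⟩,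
    fun d => by rw [spectrum hq, hF]⟩
  have h1 := Nat.card_le_card_of_injective _ (tr_inj (rho F (N + 1)))
  rw [Nat.card_fun, Nat.card_eq_fintype_card (α := Fin (N + 1)), Fintype.card_fin] at h1
  rw [← Nat.card_eq_fintype_card]
  exact ((Nat.lt_succ_self N).trans (Nat.lt_pow_self Finite.one_lt_card)).trans_le h1

theorem cube_spectrum {R H : Type*} [Group R] [Group H] {S : ℕ → Prop} {A B : ℕ}
    (hR : ∀ d, d ∈ Set.range (orderOf : R → ℕ) ↔ S d ∨ d ∣ A ∨ d ∣ B) (hH : ∀ d, d ∈ Set.range (orderOf : H → ℕ) ↔ S d) :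
    Set.range (orderOf : R × R × H → ℕ) = Set.range (orderOf : R × R × R → ℕ) := by
  ext d
  constructor
  · rintro ⟨⟨a, b, c⟩, rfl⟩
    obtain ⟨c', hc⟩ := (hR _).2 (Or.inl ((hH _).1 ⟨c, rfl⟩))
    exact ⟨(a, b, c'), by simp only [Prod.orderOf_mk, hc]⟩
  · rintro ⟨⟨a, b, c⟩, rfl⟩
    have k1 : ∀ x y z : R, S (orderOf z) →
        Nat.lcm (orderOf x) (Nat.lcm (orderOf y) (orderOf z)) ∈ Set.range (orderOf : R × R × H → ℕ) := by
      intro x y z h
      obtain ⟨c', hc⟩ := (hH _).2 h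
      exact ⟨(x, y, c'), by simp only [Prod.orderOf_mk, hc]⟩
    have k2 : ∀ (x y z : R) (C : ℕ), C = A ∨ C = B → orderOf y ∣ C → orderOf z ∣ C →
        Nat.lcm (orderOf x) (Nat.lcm (orderOf y) (orderOf z)) ∈ Set.range (orderOf : R × R × H → ℕ) := by
      intro x y z C hC h1 h2
      obtain ⟨w, hw⟩ := (hR (Nat.lcm (orderOf y) (orderOf z))).2
        (Or.inr (by rcases hC with rfl | rfl; exacts [Or.inl (Nat.lcm_dvd h1 h2), Or.inr (Nat.lcm_dvd h1 h2)]))
      exact ⟨(x, w, 1), by simp only [Prod.orderOf_mk, hw, orderOf_one, Nat.lcm_one_right]⟩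
    simp only [Prod.orderOf_mk]
    have p1 : ∀ x y z : ℕ, Nat.lcm x (Nat.lcm y z) = Nat.lcm y (Nat.lcm z x) := fun x y z => by
      rw [Nat.lcm_comm, Nat.lcm_assoc]
    have p2 : ∀ x y z : ℕ, Nat.lcm x (Nat.lcm y z) = Nat.lcm z (Nat.lcm x y) := fun x y z => by
      rw [← Nat.lcm_assoc, Nat.lcm_comm]
    rcases (hR _).1 ⟨a, rfl⟩ with ha | ha | ha
    · rw [p1]; exact k1 _ _ _ ha
    all_goals
      rcases (hR _).1 ⟨b, rfl⟩ with hb | hb | hb
      · rw [p2]; exact k1 _ _ _ hb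
      all_goals
        rcases (hR _).1 ⟨c, rfl⟩ with hc | hc | hc
        · exact k1 _ _ _ hc
        all_goals
          first
          | exact k2 _ _ _ _ (Or.inl rfl) hb hc
          | exact k2 _ _ _ _ (Or.inr rfl) hb hc
          | (rw [p1]; exact k2 _ _ _ _ (Or.inl rfl) hc ha)
          | (rw [p1]; exact k2 _ _ _ _ (Or.inr rfl) hc ha)
          | (rw [p2]; exact k2 _ _ _ _ (Or.inl rfl) ha hb)
          | (rw [p2]; exact k2 _ _ _ _ (Or.inr rfl) ha hb)

end H6.Sp3
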