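import Cfsg.Agent.H6.Suz7
import Cfsg.Agent.H6.Ree3

/-!
# Suzuki groups VIII: solubilizers
-/

noncomputable section

namespace H6.Suz

open Pointwise MulAction H5

variable {F : Type*} [Field F] [Fintype F] {G : Type*} [Group G] {P : Par F}

/-- conjugators into `L` -/
def Cj (L : Subgroup G) (x : G) : Set G := {g | g * x * g⁻¹ ∈ L}

/-- elements outside `B` simultaneously conjugate with `x` into `L` -/
def SL (B L : Subgroup G) (x : G) : Set G := {y | y ∉ B ∧ ∃ g, g * x * g⁻¹ ∈ L ∧ g * y * g⁻¹ ∈ L}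

lemma ncard_prod {α β : Type*} [Finite α] [Finite β] (r : α → β → Prop) {s : Set α} {t : Set β} {m n : ℕ}
    (h1 : ∀ a ∈ s, {b | b ∈ t ∧ r a b}.ncard = m) (h2 : ∀ b ∈ t, {a | a ∈ s ∧ r a b}.ncard = n) :
    s.ncard * m = t.ncard * n := by
  classical
  rw [Set.ncard_eq_toFinset_card s, Set.ncard_eq_toFinset_card t]
  refine Finset.card_mul_eq_card_mul r (fun a ha => ?_) fun b hb => ?_
  · rw [← h1 a (by simpa using ha), ← Set.ncard_coe_finset]; simp [Finset.bipartiteAbove]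
  · rw [← h2 b (by simpa using hb), ← Set.ncard_coe_finset]; simp [Finset.bipartiteBelow]

lemma card_SL [Finite G] {B L : Subgroup G} {x : G} {c : ℕ}
    (hu : ∀ y ∉ B, ∀ g g', g * x * g⁻¹ ∈ L → g * y * g⁻¹ ∈ L → g' * x * g'⁻¹ ∈ L → g' * y * g'⁻¹ ∈ L → g' * g⁻¹ ∈ L)
    (hc : ∀ g, g * x * g⁻¹ ∈ L → Nat.card ↥(L ⊓ cj g B) = c) :
    (SL B L x).ncard * Nat.card L = (Cj L x).ncard * (Nat.card L - c) := by
  refine ncard_prod (fun y g => g * y * g⁻¹ ∈ L) ?_ fun g h => ?_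
  · rintro y ⟨h, g, h1, h2⟩
    refine Eq.symm (show (L : Set G).ncard = _ from Set.ncard_congr (fun l _ => l * g) (fun l hl => ⟨?_, ?_⟩) (by simp)
      fun g' hg => ⟨_, hu y h g g' h1 h2 hg.1 hg.2, by simp⟩)
    · simpa [mul_assoc, Cj] using mul_mem (mul_mem hl h1) (inv_mem hl)
    · simpa [mul_assoc] using mul_mem (mul_mem hl h2) (inv_mem hl)
  · rw [← hc g h, ← show ((L : Set G) \ (L ⊓ cj g B : Subgroup G)).ncard = Nat.card L - Nat.card ↥(L ⊓ cj g B) from
      Set.ncard_diff (t := (L : Set G)) (s := ((L ⊓ cj g B : Subgroup G) : Set G)) fun _ h => h.1]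
    refine Set.ncard_congr (fun y _ => g * y * g⁻¹) (fun y hy => ⟨hy.2, fun e => hy.1.1 (conj_mem_cj.1 e.2)⟩) (by simp)
      fun y hy => ?_
    have : g * (g⁻¹ * y * g) * g⁻¹ = y := by group
    exact ⟨g⁻¹ * y * g, ⟨⟨fun e => hy.2 ⟨hy.1, mem_cj.2 e⟩, g, h, this.symm ▸ hy.1⟩, this.symm ▸ hy.1⟩, this⟩

lemma card_Cj [Finite G] (L : Subgroup G) {x : G} (h : ∀ y, orderOf y = orderOf x → IsConj x y ∨ IsConj x⁻¹ y) :
    {y : G | orderOf y = orderOf x}.ncard * (Cj L x).ncard =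
      Nat.card G * {y | y ∈ L ∧ orderOf y = orderOf x}.ncard := by
  have key : ∀ x c : G, (Cj L (c * x * c⁻¹)).ncard = (Cj L x).ncard := fun x c =>
    Set.ncard_congr (fun g _ => g * c) (fun g hg => by simpa [Cj, mul_assoc] using hg) (by simp)
      fun g hg => ⟨g * c⁻¹, by simpa [Cj, mul_assoc] using hg, by simp⟩
  rw [← Set.ncard_univ]
  refine ncard_prod (fun y g => g * y * g⁻¹ ∈ L) (fun y hy => ?_) fun g _ => ?_
  · simp only [Set.mem_univ, true_and]
    obtain e | e := h y hy <;> obtain ⟨c, rfl⟩ := isConj_iff.1 e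
    · exact key x c
    · exact (key _ c).trans (congrArg _ (Set.ext fun g => L.inv_mem_iff.symm.trans (by simp [Cj, mul_assoc])))
  · exact Set.ncard_congr (fun y _ => g * y * g⁻¹) (fun y hy => ⟨hy.2, (Ree.orderOf_conj ..).trans hy.1⟩) (by simp)
      fun y hy => ⟨g⁻¹ * y * g, ⟨(Ree.orderOf_conj g _).symm.trans (by simpa [mul_assoc] using hy.2),
        by simpa [mul_assoc] using hy.1⟩, by simp [mul_assoc]⟩

/-- Frobenius-like local subgroups -/
structure Fro (A L : Subgroup G) : Prop where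
  cyc : IsCyclic A
  ne : A ≠ ⊥
  odd : Odd (Nat.card A)
  ti : ∀ a ∈ A, a ≠ 1 → ∀ x, x * a * x⁻¹ ∈ A ↔ x ∈ L
  cent : ∀ a ∈ A, a ≠ 1 → ∀ x, x * a = a * x → x ∈ A
  norm : Subgroup.normalizer (A : Set G) = L
  card : Nat.card L ∣ 4 * Nat.card A

lemma sq_of_two {s : G} (e : orderOf s = 2) : s * s = 1 := by rw [← sq, ← e, pow_orderOf_eq_one]

lemma eq_one_of_odd {y : G} (ho : Odd (orderOf y)) (e : y ^ 4 = 1) : y = 1 :=
  orderOf_eq_one_iff.1 (Nat.eq_one_of_dvd_coprimes (Nat.Coprime.pow_right 2 (Nat.coprime_two_right.2 ho)) dvd_rfl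
    (orderOf_dvd_of_pow_eq_one e))

namespace Fro

variable [Finite G] {A L : Subgroup G} (h : Fro A L)
include h

lemma le : A ≤ L := h.norm ▸ Subgroup.le_normalizer

lemma index : Nat.card (L ⧸ A.subgroupOf L) ∣ 4 := by
  have := h.card
  rwa [Subgroup.card_eq_card_quotient_mul_card_subgroup (A.subgroupOf L),
    Nat.card_congr (Subgroup.subgroupOfEquivOfLe h.le).toEquiv, Nat.mul_dvd_mul_iff_right Nat.card_pos] at this

lemma normal : (A.subgroupOf L).Normal := (Subgroup.normal_subgroupOf_iff_le_normalizer h.le).2 h.norm.ge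

lemma pow4 {y : G} (hy : y ∈ L) : y ∈ A ∨ y ^ 4 = 1 := by
  have := h.normal
  obtain ⟨c, hc⟩ := h.index
  refine or_iff_not_imp_right.2 fun h1 => h.cent _ ?_ h1 _ (by group)
  exact (QuotientGroup.eq_one_iff (N := A.subgroupOf L) ((⟨y, hy⟩ : L) ^ 4)).1 (by
    rw [QuotientGroup.mk_pow, hc, pow_mul, pow_card_eq_one', one_pow])

lemma solvable : Group.IsSolvable L := by
  have := h.normal
  have := h.cyc
  have := Fact.mk Nat.prime_two
  obtain ⟨n, -, hn⟩ := (Nat.dvd_prime_pow (m := 2) Nat.prime_two).1 h.index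
  have := (IsPGroup.of_card hn).isNilpotent
  have := (Subgroup.subgroupOfEquivOfLe h.le).isCyclic.2 h.cyc
  exact solvable_of_ker_le_range (A.subgroupOf L).subtype (QuotientGroup.mk' (A.subgroupOf L)) (by simp)

lemma odd_order {a : G} (ha : a ∈ A) : Odd (orderOf a) := h.odd.of_dvd_nat (A.orderOf_dvd_natCard ha)

lemma mem {y : G} (hy : y ∈ L) (ho : Odd (orderOf y)) : y ∈ A :=
  (h.pow4 hy).elim id fun e => (eq_one_of_odd ho e).symm ▸ one_mem _

lemma comm {a b : G} (ha : a ∈ A) (hb : b ∈ A) : a * b = b * a :=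
  have := h.cyc; congrArg Subtype.val (mul_comm' (⟨a, ha⟩ : A) ⟨b, hb⟩)

lemma inverts {t a : G} (ht : t ∈ L) (h2 : orderOf t = 2) (ha : a ∈ A) : t * a * t = a⁻¹ := by
  have h3 := sq_of_two h2
  have h1 : t * a * t ∈ A := by simpa [inv_eq_of_mul_eq_one_right h3] using (h.norm.ge ht a).1 ha
  refine eq_inv_of_mul_eq_one_left (by_contra fun e => ?_)
  have := h.odd_order (h.cent _ (mul_mem h1 ha) e t (by
    nth_rewrite 2 [h.comm h1 ha]; simp [← mul_assoc, h3]; simp [mul_assoc, h3]))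
  rw [h2] at this
  exact absurd this (by decide)

lemma ncard_two (h2 : 2 ∣ Nat.card L) : {y | y ∈ L ∧ orderOf y = 2}.ncard = Nat.card A := by
  have := Fact.mk Nat.prime_two
  obtain ⟨⟨t, ht⟩, h3⟩ := exists_prime_orderOf_dvd_card' 2 h2
  rw [← Subgroup.orderOf_coe] at h3
  have hA : ∀ {s : G}, orderOf s = 2 → s ∉ A := fun e e' => absurd (e ▸ h.odd_order e') (by decide)
  refine Eq.symm (show (A : Set G).ncard = _ from Set.ncard_congr (fun a _ => t * a)
    (fun a ha => ⟨mul_mem ht (h.le ha), ?_⟩) (by simp) fun s hs => ⟨t * s, ?_, by simp [← mul_assoc, sq_of_two h3]⟩)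
  · exact orderOf_eq_prime (by rw [sq, ← mul_assoc, h.inverts ht h3 ha, inv_mul_cancel])
      fun e => hA h3 ((A.mul_mem_cancel_right ha).1 (e ▸ one_mem A))
  · obtain ⟨⟨a, ha⟩, h1⟩ := Subgroup.ne_bot_iff_exists_ne_one.1 h.ne
    refine h.cent a ha (fun e => h1 (Subtype.ext e)) _ ?_
    have e : t * a * t = s * a * s := (h.inverts ht h3 ha).trans (h.inverts hs.1 hs.2 ha).symm
    calc t * s * a = t * (s * a * s) * s := by simp [mul_assoc, sq_of_two hs.2]
      _ = _ := by rw [← e]; simp [← mul_assoc, sq_of_two h3]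

lemma part : Nat.card L = Nat.card A + ({y | y ∈ L ∧ orderOf y = 2}.ncard + {y | y ∈ L ∧ orderOf y = 4}.ncard) := by
  rw [← Set.ncard_union_eq (Set.disjoint_left.2 fun y a b => absurd (a.2.symm.trans b.2) (by decide)),
    show Nat.card A = (A : Set G).ncard from rfl, ← Set.ncard_union_eq (Set.disjoint_left.2 fun y a b =>
      b.elim (fun b => absurd (b.2 ▸ h.odd_order a) (by decide)) fun b => absurd (b.2 ▸ h.odd_order a) (by decide))]
  refine congrArg Set.ncard (Set.ext fun y => ⟨fun hy => (h.pow4 hy).elim Or.inl fun e => ?_,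
    fun hy => hy.elim (h.le ·) fun hy => hy.elim (·.1) (·.1)⟩)
  obtain ⟨i, hi, e⟩ := (Nat.dvd_prime_pow (m := 2) Nat.prime_two).1 (orderOf_dvd_of_pow_eq_one e)
  interval_cases i
  exacts [Or.inl (orderOf_eq_one_iff.1 e ▸ one_mem A), Or.inr (Or.inl ⟨hy, e⟩), Or.inr (Or.inr ⟨hy, e⟩)]

end Fro

lemma conj_closure {L : Subgroup G} {x y g w : G} (hx : g * x * g⁻¹ ∈ L) (hy : g * y * g⁻¹ ∈ L)
    (hw : w ∈ Subgroup.closure {x, y}) : g * w * g⁻¹ ∈ L :=
  (Subgroup.closure_le (L.comap (MulAut.conj g).toMonoidHom)).2 (by rintro _ (rfl | rfl) <;> assumption) hw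

namespace SzS

variable {X : SzS P G} {A L : Subgroup G}

lemma le_U_of_two {x : G} (hx : x ∈ X.U) (h1 : x ≠ 1) {R : Subgroup G} (hR : IsPGroup 2 R) (h : x ∈ R) : R ≤ X.U := by
  obtain ⟨g, hg⟩ := X.exists_le_U hR
  exact fun y hy => by simpa [mul_assoc] using conj_mem_U (inv_mem (mem_B_of_conj hx h1 (X.U_le_B (hg x h)))) (hg y hy)

lemma exists_odd (h : Fro A L) {x y g : G} (hx : x ∈ X.U) (h1 : x ≠ 1) (hy : y ∉ X.B) (a : g * x * g⁻¹ ∈ L)
    (b : g * y * g⁻¹ ∈ L) : ∃ w ∈ Subgroup.closure {x, y}, w ≠ 1 ∧ g * w * g⁻¹ ∈ A := by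
  have := X.finite
  by_contra! e
  exact hy (X.U_le_B (le_U_of_two hx h1 (R := Subgroup.closure {x, y}) (fun w => ⟨2, Subtype.ext
    ((h.pow4 (conj_closure a b w.2)).elim (fun c => by simp [not_not.1 fun d => e w w.2 d c]) (by simp))⟩)
    (Subgroup.subset_closure (by simp)) (Subgroup.subset_closure (by simp))))

lemma disjoint_SL {A' L' : Subgroup G} (h : Fro A L) (h' : Fro A' L') (hc : (Nat.card A).Coprime (Nat.card A'))
    {x : G} (hx : x ∈ X.U) (h1 : x ≠ 1) : Disjoint (SL X.B L x) (SL X.B L' x) := by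
  have := X.finite
  refine Set.disjoint_left.2 fun y ⟨hy, g, a, b⟩ ⟨_, g', a', b'⟩ => ?_
  obtain ⟨w, hw, h2, e⟩ := exists_odd h hx h1 hy a b
  exact h2 (orderOf_eq_one_iff.1 (Nat.eq_one_of_dvd_coprimes hc (Ree.orderOf_conj g w ▸ A.orderOf_dvd_natCard e)
    (Ree.orderOf_conj g' w ▸ A'.orderOf_dvd_natCard (h'.mem (conj_closure a' b' hw)
      (by simpa [Ree.orderOf_conj] using h.odd_order e)))))

lemma card_inf (h : Fro A L) {x : G} (hx : x ∈ X.U) (h1 : x ≠ 1) (hL : x ∈ L) :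
    Nat.card ↥(L ⊓ X.B) = Nat.card (L ⧸ A.subgroupOf L) := by
  have := X.finite
  have := h.normal
  have := Fact.mk Nat.prime_two
  refine le_antisymm (Nat.card_le_card_of_injective ((QuotientGroup.mk' _).comp (Subgroup.inclusion inf_le_left))
    ((injective_iff_map_eq_one _).2 fun a ha => Subtype.ext (by_contra fun e => h1 ?_))) ?_
  · have ha : a.1 ∈ A := (QuotientGroup.eq_one_iff (N := A.subgroupOf L) ⟨a.1, a.2.1⟩).1 ha
    refine eq_one_of_odd (h.odd_order (h.cent _ ha e x (Eq.symm (mul_inv_eq_one.1 (eq_one_of_odd (h.odd_order ?_)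
      (pow_four (X := X) ?_)))))) (pow_four hx)
    · simpa [mul_assoc] using mul_mem ha ((h.norm.ge hL _).1 (inv_mem ha))
    · simpa [mul_assoc] using mul_mem (conj_mem_U a.2.2 hx) (inv_mem hx)
  · obtain ⟨R, hR⟩ := (X.isPGroup_U.comap_subtype (K := L)).exists_le_sylow
    obtain ⟨n, -, hn⟩ := (Nat.dvd_prime_pow (m := 2) Nat.prime_two).1 h.index
    refine (Nat.le_of_dvd Nat.card_pos (hn ▸ ?_)).trans ((Subgroup.card_map_of_injective L.subtype_injective).ge.trans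
      (Subgroup.card_le_of_le (le_inf (Subgroup.map_subtype_le R.1) ((le_U_of_two hx h1 (R.2.map _)
        ⟨⟨x, hL⟩, hR hx, rfl⟩).trans X.U_le_B))))
    exact (Nat.Coprime.pow_left n ((Nat.Prime.coprime_iff_not_dvd Nat.prime_two).2 R.not_dvd_index)).dvd_of_dvd_mul_right
      (R.1.card_mul_index ▸ hn ▸ Subgroup.card_quotient_dvd_card _)

lemma ncard_SL (h : Fro A L) {x : G} (hx : x ∈ X.U) (h1 : x ≠ 1) {m : ℕ} (hm : (Cj L x).ncard = m * Nat.card A) :
    (SL X.B L x).ncard = m * (Nat.card A - 1) := by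
  have := X.finite
  have := card_SL (B := X.B) (L := L) (x := x) (c := Nat.card (L ⧸ A.subgroupOf L)) (fun y hy g g' a b a' b' => by
    obtain ⟨w, hw, h2, e⟩ := exists_odd h hx h1 hy a b
    exact (h.ti _ e (by simpa) _).1 (by simpa [mul_assoc] using h.mem (conj_closure a' b' hw) (by
      simpa [Ree.orderOf_conj] using h.odd_order e))) fun g hg => by
    rw [← card_inf (X := X.conj g) h (X.mem_conj_U.2 (by simpa [mul_assoc])) (by simpa) hg,
      show cj g X.B = (X.conj g).B from Subgroup.ext fun _ => mem_cj.trans X.mem_conj_B.symm]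
  rw [hm, Subgroup.card_eq_card_quotient_mul_card_subgroup (A.subgroupOf L),
    Nat.card_congr (Subgroup.subgroupOfEquivOfLe h.le).toEquiv, ← Nat.mul_sub_one] at this
  exact Nat.eq_of_mul_eq_mul_right (Nat.mul_pos Nat.card_pos Nat.card_pos) (this.trans (by ring))

variable (X)

lemma exists_U {y : G} {i : ℕ} (h : orderOf y = 2 ^ i) : ∃ g, g * y * g⁻¹ ∈ X.U :=
  (X.exists_le_U (IsPGroup.of_card ((Nat.card_zpowers y).trans h))).imp fun _ hg => hg y (Subgroup.mem_zpowers y)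

lemma conj_two {y : G} (h : orderOf y = 2) : IsConj (X.T 0 1) y := by
  obtain ⟨g, hg⟩ := X.exists_U (i := 1) h
  obtain ⟨b, e⟩ := mem_Z_of_sq hg (sq_of_two ((Ree.orderOf_conj ..).trans h))
  obtain ⟨k, rfl⟩ := P.exists_mul_θ b
  have hk : k ≠ 0 := by rintro rfl; simp_all
  exact (isConj_iff.2 ⟨X.D (Units.mk0 k hk), by simp [X.D_T, e]⟩).trans (isConj_iff.2 ⟨g, rfl⟩).symm

lemma conj_four {y : G} (h : orderOf y = 4) : IsConj (X.T 1 0) y ∨ IsConj (X.T 1 0)⁻¹ y := by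
  obtain ⟨g, a, b, e⟩ := X.exists_U (i := 2) h
  have ha : a ≠ 0 := by
    rintro rfl
    have := orderOf_dvd_of_pow_eq_one ((sq _).trans (sq_of_mem_Z (X.T_mem_Z b)))
    rw [← e, Ree.orderOf_conj, h] at this
    omega
  have h2 := P.two
  let δ : F →+ F := P.θ.toAddMonoidHom + AddMonoidHom.id F
  have hi : δ.range.index = 2 := by
    rw [AddSubgroup.index_range]
    refine (Nat.card_eq_two_iff' 0).2 ⟨⟨1, by simpa [δ, one_add_one_eq_two]⟩, by simp, fun c hc => Subtype.ext ?_⟩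
    have h3 : P.θ c = c := by have := c.2; simp [δ] at this; grind
    have h4 := P.θθ c
    rw [h3, h3] at h4
    exact mul_left_cancel₀ (fun e => hc (Subtype.ext e)) (by linear_combination -h4)
  have h1 : 1 ∉ δ.range := fun ⟨c, hc⟩ => by
    have h3 : P.θ c + c = 1 := hc
    have h4 := congrArg P.θ h3
    rw [map_add, P.θθ, map_one] at h4
    rcases mul_eq_zero.1 (show c * (c + 1) = 0 by grind) with e | e
    · simp [e] at h3
    · rw [show c = 1 by grind, map_one] at h3; grind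
  have key : ∀ d c, P.θ c + c = b / (a * P.θ a) + d → IsConj (X.T 1 d) y := fun d c hc =>
    (isConj_iff.2 ⟨X.D (Units.mk0 a ha) * X.T c 0, by
      rw [mul_inv_rev, mul_assoc (X.D _), mul_assoc (X.D _), ← mul_assoc _ (X.T c 0)⁻¹, X.T_conj, ← mul_assoc, X.D_T, e,
        map_one, mul_one, one_mul, mul_one, add_assoc, hc]
      have : P.θ a ≠ 0 := by simpa
      congr 1 <;> simp; field_simp; grind⟩).trans (isConj_iff.2 ⟨g, rfl⟩).symm
  by_cases hb : b / (a * P.θ a) ∈ δ.range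
  · exact Or.inl (hb.elim fun c hc => key 0 c (by simpa [δ] using hc))
  · obtain ⟨c, hc⟩ := (AddSubgroup.add_mem_iff_of_index_two hi).2 (iff_of_false hb h1)
    exact Or.inr (by simpa [X.T_inv] using key 1 c hc)

lemma card_Cj' (L : Subgroup G) {x : G} {i : ℕ} (hi : orderOf x = 2 ^ (i + 1))
    (h : ∀ y, orderOf y = orderOf x → IsConj x y ∨ IsConj x⁻¹ y) :
    {u | u ∈ X.U ∧ orderOf u = orderOf x}.ncard * (Cj L x).ncard =
      Nat.card X.B * {y | y ∈ L ∧ orderOf y = orderOf x}.ncard := by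
  have := X.finite
  have h1 := card_Cj L h
  have h2 := Ree.card_cs (A := {u | u ∈ X.U ∧ orderOf u = orderOf x}) (N := X.B) fun g a ha => by
    rw [← X.ti_U g a ha.1 (by rintro rfl; exact absurd (hi.symm.trans ha.2.symm) (by simp))]
    simp [Ree.orderOf_conj, show orderOf a = _ from ha.2]
  rw [show Ree.cs {u | u ∈ X.U ∧ orderOf u = orderOf x} = {y | orderOf y = orderOf x} from Set.ext fun y => ⟨fun ⟨g, hg⟩ =>
    (Ree.orderOf_conj g y).symm.trans hg.2, fun hy => (X.exists_U (hy.trans hi)).imp fun g hg =>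
      ⟨hg, (Ree.orderOf_conj g y).trans hy⟩⟩] at h2
  refine Nat.eq_of_mul_eq_mul_left (Nat.card_pos (α := G)) ?_
  rw [← mul_assoc, ← h2, mul_right_comm, h1]; ring

lemma ncard_U2 : {u | u ∈ X.U ∧ orderOf u = 2}.ncard = P.q - 1 := by
  have := X.finite
  have := Fact.mk Nat.prime_two
  rw [show {u | u ∈ X.U ∧ orderOf u = 2} = (X.Z : Set G) \ {1} from Set.ext fun u => ⟨fun h =>
    ⟨mem_Z_of_sq h.1 (sq_of_two h.2), by rintro rfl; simp at h⟩, fun h => ⟨X.Z_le_U h.1,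
      orderOf_eq_prime ((sq u).trans (sq_of_mem_Z h.1)) h.2⟩⟩, Set.ncard_diff_singleton_of_mem (one_mem _), Par.q,
      ← X.card_Z]; rfl

lemma ncard_U4 : {u | u ∈ X.U ∧ orderOf u = 4}.ncard = P.q * (P.q - 1) := by
  have := X.finite
  rw [show {u | u ∈ X.U ∧ orderOf u = 4} = (X.U : Set G) \ X.Z from Set.ext fun u => ⟨fun h =>
    ⟨h.1, fun e => absurd (h.2 ▸ orderOf_dvd_of_pow_eq_one ((sq u).trans (sq_of_mem_Z e))) (by decide)⟩, ?_⟩,
    Set.ncard_diff X.Z_le_U, Nat.mul_sub_one, ← sq, Par.q, ← X.card_U, ← X.card_Z]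
  · rfl
  · rintro ⟨⟨a, b, rfl⟩, h⟩
    exact ⟨X.T_mem .., X.orderOf_T (by rintro rfl; exact h (X.T_mem_Z b)) b⟩

lemma SL_two (h : Fro A L) (h2 : 2 ∣ Nat.card L) {x : G} (hx : x ∈ X.U) (h1 : orderOf x = 2) :
    (SL X.B L x).ncard = P.q ^ 2 * (Nat.card A - 1) := by
  have := X.finite
  have := X.card_Cj' L (i := 0) h1 fun y hy => Or.inl ((X.conj_two h1).symm.trans (X.conj_two (hy.trans h1)))
  rw [h1, ncard_U2, h.ncard_two h2, card_B] at this
  have := P.eight_le_q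
  exact ncard_SL h hx (by rintro rfl; simp at h1) (Nat.eq_of_mul_eq_mul_left (n := P.q - 1) (by omega) (by linarith))

lemma SL_four (h : Fro A L) {n : ℕ} (h2 : Nat.card L = (n + 2) * Nat.card A) (hn : 2 ∣ n) {x : G} (hx : x ∈ X.U)
    (h1 : orderOf x = 4) : (SL X.B L x).ncard = P.q * n * (Nat.card A - 1) := by
  have := X.finite
  have inv : ∀ {a b : G}, IsConj a b → IsConj a⁻¹ b⁻¹ := fun h => (isConj_iff.1 h).elim fun c e =>
    isConj_iff.2 ⟨c, by simp [← e, mul_assoc]⟩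
  have := X.card_Cj' L (i := 1) h1 fun y hy => by
    rcases X.conj_four h1 with a | a <;> rcases X.conj_four (hy.trans h1) with b | b
    exacts [Or.inl (a.symm.trans b), Or.inr ((inv a).symm.trans b), Or.inr ((inv a).symm.trans ((inv_inv (X.T 1 0)).symm ▸ b)),
      Or.inl (a.symm.trans b)]
  have h3 := h.part
  rw [h.ncard_two (h2 ▸ Dvd.dvd.mul_right (by omega) _), h2] at h3
  rw [h1, ncard_U4, card_B, show {y | y ∈ L ∧ orderOf y = 4}.ncard = n * Nat.card A by linarith] at this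
  have := P.eight_le_q
  exact ncard_SL h hx (by rintro rfl; simp at h1) (Nat.eq_of_mul_eq_mul_left (n := P.q * (P.q - 1))
    (Nat.mul_pos (by omega) (by omega)) (by linarith))

lemma froH : Fro X.H X.N := by
  have := P.eight_le_q
  refine ⟨X.isCyclic_H, fun e => ?_, Nat.not_even_iff_odd.1 fun e => P.odd_tori (Or.inl rfl) (X.card_H ▸ e.two_dvd),
    fun a ha h1 x => X.ti_H x a ha h1, ?_, X.normalizer_H, by rw [card_N, card_H]; exact ⟨2, by ring⟩⟩
  · have := X.card_H; rw [e, Subgroup.card_bot, ← Par.q] at this; omega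
  · rintro _ ⟨k, rfl⟩ h1 x; exact mem_H_of_comm fun e => h1 (by simp [e])

variable {X} in
lemma Fpf.fro {g : G} (h : X.Fpf g) : Fro (Subgroup.centralizer {g})
    (Subgroup.normalizer (Subgroup.centralizer {g} : Set G)) :=
  ⟨h.cyclic, fun e => h.ne_one (e.le (mem_cent.2 rfl)), Nat.not_even_iff_odd.1 fun e =>
    P.odd_tori (Or.inr h.card_cent.1) e.two_dvd, fun a ha h1 x => h.ti x a ha h1,
    fun _ ha h1 _ e => h.cent_eq ha h1 ▸ mem_cent.2 e, rfl, h.card_cent.2.dvd⟩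

lemma solvable_B : Group.IsSolvable X.B := by
  have := X.finite
  have := Fact.mk Nat.prime_two
  have := (Subgroup.normal_subgroupOf_iff_le_normalizer X.U_le_B).2 X.normalizer_U.ge
  have := X.isCyclic_H
  have : Group.IsNilpotent (X.U.subgroupOf X.B) := (X.isPGroup_U.comap_subtype (K := X.B)).isNilpotent
  have : IsCyclic (X.B ⧸ X.U.subgroupOf X.B) := isCyclic_of_surjective ((QuotientGroup.mk' _).comp
    (Subgroup.inclusion X.H_le_B)) fun y => by
      obtain ⟨⟨_, a, b, k, rfl⟩, rfl⟩ := QuotientGroup.mk_surjective y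
      exact ⟨⟨_, X.D_mem k⟩, QuotientGroup.eq.2 (by
        simpa [Subgroup.mem_subgroupOf, mul_assoc] using conj_mem_U (inv_mem (X.D_mem_B k)) (X.T_mem a b))⟩
  exact solvable_of_ker_le_range (X.U.subgroupOf X.B).subtype (QuotientGroup.mk' (X.U.subgroupOf X.B)) (by simp)

lemma solv_of {L : Subgroup G} (h : Group.IsSolvable L) {x y g : G} (a : g * x * g⁻¹ ∈ L) (b : g * y * g⁻¹ ∈ L) :
    Group.IsSolvable (Subgroup.closure ({x, y} : Set G)) :=
  solvable_of_solvable_injective (f := ((MulAut.conj g).toMonoidHom.comp (Subgroup.subtype _)).codRestrict L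
    fun w => conj_closure a b w.2) fun _ _ e => Subtype.ext ((MulAut.conj g).injective (congrArg Subtype.val e))

/-- the solubilizer -/
def _root_.H6.Suz.Sol (x : G) : Set G := {y | Group.IsSolvable (Subgroup.closure ({x, y} : Set G))}

lemma mem_Sol {x y : G} : y ∈ Sol x ↔ (∃ g, g * x * g⁻¹ ∈ X.B ∧ g * y * g⁻¹ ∈ X.B) ∨
    (∃ g, g * x * g⁻¹ ∈ X.N ∧ g * y * g⁻¹ ∈ X.N) ∨ ∃ g, X.Fpf g ∧
      x ∈ Subgroup.normalizer (Subgroup.centralizer {g} : Set G) ∧
      y ∈ Subgroup.normalizer (Subgroup.centralizer {g} : Set G) := by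
  have := X.finite
  have a : x ∈ Subgroup.closure ({x, y} : Set G) := Subgroup.subset_closure (by simp)
  have b : y ∈ Subgroup.closure ({x, y} : Set G) := Subgroup.subset_closure (by simp)
  refine ⟨fun h => (X.solvable _ h).imp (·.imp fun _ h => ⟨h _ a, h _ b⟩) (·.imp (·.imp fun _ h => ⟨h _ a, h _ b⟩)
    (·.imp fun _ h => ⟨h.1, h.2 a, h.2 b⟩)), ?_⟩
  rintro (⟨g, a, b⟩ | ⟨g, a, b⟩ | ⟨g, h, a, b⟩)
  exacts [solv_of X.solvable_B a b, solv_of X.froH.solvable a b, solv_of (g := 1) h.fro.solvable (by simpa) (by simpa)]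

lemma ncard_Sol_U {x : G} (hx : x ∈ X.U) (h1 : x ≠ 1) : ∃ A₁ L₁ A₂ L₂ : Subgroup G, Fro A₁ L₁ ∧ Fro A₂ L₂ ∧
    Nat.card A₁ = P.q + 2 ^ (P.m + 1) + 1 ∧ Nat.card A₂ = P.q - 2 ^ (P.m + 1) + 1 ∧ Nat.card L₁ = 4 * Nat.card A₁ ∧
    Nat.card L₂ = 4 * Nat.card A₂ ∧ (Sol x).ncard = Nat.card X.B + ((SL X.B X.N x).ncard + ((SL X.B L₁ x).ncard +
      (SL X.B L₂ x).ncard)) := by
  have := X.finite
  obtain ⟨g₁, g₂, f1, f2, c1, c2, n1, n2, h⟩ := X.exists_tori
  have := P.r_lt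
  have := Nat.two_pow_pos (P.m + 1)
  have d : ∀ {g}, X.Fpf g → Disjoint (SL X.B X.N x) (SL X.B (Subgroup.normalizer (Subgroup.centralizer {g} : Set G)) x) :=
    fun f => disjoint_SL X.froH f.fro (X.card_H ▸ (P.coprime_B.symm.coprime_mul_left.coprime_dvd_right f.card_dvd)) hx h1
  refine ⟨_, _, _, _, f1.fro, f2.fro, c1, c2, n1, n2, ?_⟩
  rw [← Set.ncard_union_eq (disjoint_SL f1.fro f2.fro ((X.coprime_tori (Or.inr (Or.inl c1)) (Or.inr (Or.inr c2))).resolve_left
    (by omega)) hx h1), ← Set.ncard_union_eq (Set.disjoint_union_right.2 ⟨d f1, d f2⟩),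
    show Nat.card X.B = (X.B : Set G).ncard from rfl, ← Set.ncard_union_eq (Set.disjoint_left.2 fun y a b =>
      b.elim (·.1 a) fun b => b.elim (·.1 a) (·.1 a))]
  refine congrArg _ (Set.ext fun y => ⟨fun hy => or_iff_not_imp_left.2 fun hB => ?_, ?_⟩)
  · obtain ⟨g, a, b⟩ | ⟨g, a, b⟩ | ⟨g, f, a, b⟩ := X.mem_Sol.1 hy
    · have := mem_B_of_conj hx h1 a
      exact absurd ((X.B.mul_mem_cancel_left this).1 ((X.B.mul_mem_cancel_right (inv_mem this)).1 b)) hB
    · exact Or.inl ⟨hB, g, a, b⟩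
    have key : ∀ {g'}, X.Fpf g' → g ∈ cls (Subgroup.centralizer {g'}) →
        y ∈ SL X.B (Subgroup.normalizer (Subgroup.centralizer {g'} : Set G)) x := fun f' ⟨_, c, hc⟩ => by
      have : ∀ z ∈ Subgroup.normalizer (Subgroup.centralizer {g} : Set G), c * z * c⁻¹ ∈ Subgroup.normalizer
          (Subgroup.centralizer {c * g * c⁻¹} : Set G) := fun z hz =>
        ((f.conj c).ti _ _ (mem_cent.2 rfl) (f.conj c).ne_one).1 (mem_cent.2 (by
          simpa [mul_assoc] using congrArg (fun w => c * w * c⁻¹) (mem_cent.1 ((hz g).1 (mem_cent.2 rfl)))))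
      rw [f'.cent_eq hc (f.conj c).ne_one] at this
      exact ⟨hB, c, this x a, this y b⟩
    exact Or.inr ((h g f).imp (key f1) (key f2))
  · rintro (hy | ⟨-, g, a, b⟩ | ⟨-, g, a, b⟩ | ⟨-, g, a, b⟩)
    exacts [solv_of (g := 1) X.solvable_B (by simpa using X.U_le_B hx) (by simpa), solv_of X.froH.solvable a b,
      solv_of f1.fro.solvable a b, solv_of f2.fro.solvable a b]

include X in
theorem sol_two {x : G} (h : orderOf x = 2) : (Sol x).ncard = P.q ^ 2 * (4 * P.q - 3) := by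
  obtain ⟨g, hg⟩ := X.exists_U (i := 1) h
  have hx : x ∈ (X.conj g⁻¹).U := X.mem_conj_U.2 (by simpa)
  generalize X.conj g⁻¹ = Y at hx
  obtain ⟨A₁, L₁, A₂, L₂, f1, f2, c1, c2, n1, n2, e⟩ := Y.ncard_Sol_U hx (by rintro rfl; simp at h)
  have := P.r_lt
  have := P.eight_le_q
  rw [e, Y.SL_two Y.froH (by simp [card_N]) hx h, Y.SL_two f1 (by omega) hx h, Y.SL_two f2 (by omega) hx h, card_B,
    card_H, c1, c2, ← mul_add, ← mul_add, ← mul_add, ← Par.q]
  generalize 2 ^ (P.m + 1) = r at *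
  generalize P.q = Q at *
  exact congrArg _ (by omega)

include X in
theorem sol_four {x : G} (h : orderOf x = 4) : (Sol x).ncard = P.q ^ 2 * (P.q + 3) := by
  obtain ⟨g, hg⟩ := X.exists_U (i := 2) h
  have hx : x ∈ (X.conj g⁻¹).U := X.mem_conj_U.2 (by simpa)
  generalize X.conj g⁻¹ = Y at hx
  obtain ⟨A₁, L₁, A₂, L₂, f1, f2, c1, c2, n1, n2, e⟩ := Y.ncard_Sol_U hx (by rintro rfl; simp at h)
  have := P.r_lt
  have := P.eight_le_q
  rw [e, Y.SL_four (n := 0) Y.froH (by simp [card_N, card_H]) (by simp) hx h, Y.SL_four (n := 2) f1 n1 dvd_rfl hx h,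
    Y.SL_four (n := 2) f2 n2 dvd_rfl hx h, card_B, c1, c2, ← mul_add, ← Par.q,
    mul_zero, zero_mul]
  generalize 2 ^ (P.m + 1) = r at *
  generalize P.q = Q at *
  rw [show Q + r + 1 - 1 + (Q - r + 1 - 1) = 2 * Q by omega, show Q + 3 = Q - 1 + 4 by omega]
  ring

variable {X} in
theorem Fpf.sol {x : G} (h : X.Fpf x) : (Sol x).ncard = 4 * Nat.card (Subgroup.centralizer {x}) := by
  have := X.finite
  rw [← h.card_cent.2]
  refine congrArg Set.ncard (Set.ext fun y => ⟨fun hy => ?_, fun hy =>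
    X.mem_Sol.2 (Or.inr (Or.inr ⟨x, h, Subgroup.le_normalizer (mem_cent.2 rfl), hy⟩))⟩)
  have ho := h.fro.odd_order (mem_cent.2 rfl)
  obtain ⟨g, a, b⟩ | ⟨g, a, b⟩ | ⟨g, f, a, b⟩ := X.mem_Sol.1 hy
  · exact absurd a (h g)
  · exact absurd (X.H_le_B (X.froH.mem a (by rwa [Ree.orderOf_conj]))) (h g)
  · rwa [f.cent_eq (f.fro.mem a ho) h.ne_one]

theorem sol_D {k : Fˣ} (hk : k ≠ 1) : (Sol (X.D k)).ncard = 2 * P.q ^ 2 * (P.q - 1) := by
  have := X.finite
  have ho := X.froH.odd_order (X.D_mem k)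
  have h1 : X.D k ≠ 1 := fun e => hk (D_inj (e.trans (map_one _).symm))
  have e : Sol (X.D k) = (X.B : Set G) ∪ ((((X.conj X.W).B : Set G) \ X.H) ∪ ((X.N : Set G) \ X.H)) := by
    refine Set.ext fun y => ⟨fun hy => or_iff_not_imp_left.2 fun hB => ?_, ?_⟩
    · have hH : y ∉ X.H := fun e => hB (X.H_le_B e)
      obtain ⟨g, a, b⟩ | ⟨g, a, b⟩ | ⟨g, f, a, b⟩ := X.mem_Sol.1 hy
      · obtain ⟨v, hv, l, -, e⟩ := (mem_U_or a).resolve_left fun e => h1 (eq_one_of_odd ho (by simpa using pow_four e))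
        replace b := mul_mem (mul_mem (X.U_le_B hv) b) (inv_mem (X.U_le_B hv))
        obtain ⟨c, e | e⟩ := mem_N_of_conj (x := v * g) hk (by rw [mul_inv_rev, ← mul_assoc, mul_assoc v, mul_assoc v, e]; exact X.D_mem l) <;>
          rw [show v * (g * y * g⁻¹) * v⁻¹ = v * g * y * (v * g)⁻¹ by group, e] at b
        · exact absurd ((X.B.mul_mem_cancel_left (X.D_mem_B c)).1 ((X.B.mul_mem_cancel_right
            (inv_mem (X.D_mem_B c))).1 b)) hB
        · refine Or.inl ⟨X.mem_conj_B.2 ?_, hH⟩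
          simpa [mul_assoc] using mul_mem (mul_mem (inv_mem (X.D_mem_B c)) b) (X.D_mem_B c)
      · have := mem_N_of_conj hk (X.froH.mem a (by rwa [Ree.orderOf_conj]))
        exact Or.inr ⟨(X.N.mul_mem_cancel_left this).1 ((X.N.mul_mem_cancel_right (inv_mem this)).1 b), hH⟩
      · exact absurd (by simpa using X.D_mem_B k) (f.of_mem (f.fro.mem a ho) h1 1)
    · rintro (hy | ⟨hy, -⟩ | ⟨hy, -⟩)
      exacts [solv_of (g := 1) X.solvable_B (by simpa using X.D_mem_B k) (by simpa),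
        solv_of (g := X.W) X.solvable_B (by simpa [X.W_D] using inv_mem (X.D_mem_B k)) (by simpa using X.mem_conj_B.1 hy),
        solv_of (g := 1) X.froH.solvable (by simpa using X.H_le_N (X.D_mem k)) (by simpa)]
  have hN : ∀ y ∈ X.N, y ∉ X.H → y ∉ X.B ∧ X.W * y * X.W ∉ X.B := by
    rintro _ ⟨l, rfl | rfl⟩ h
    · exact absurd (X.D_mem l) h
    · exact ⟨by simpa using not_mem_B (X.D_mem_B l) (one_mem _), by simpa [← mul_assoc] using not_mem_B (one_mem _) (X.D_mem_B l)⟩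
  rw [e, Set.ncard_union_eq (Set.disjoint_left.2 fun y a b => b.elim (fun b => b.2 (mem_H_of_W a (by
    simpa using X.mem_conj_B.1 b.1))) fun b => (hN y b.1 b.2).1 a), Set.ncard_union_eq (Set.disjoint_left.2
    fun y a b => (hN y b.1 b.2).2 (by simpa using X.mem_conj_B.1 a.1)), Set.ncard_diff X.H_le_N, Set.ncard_diff (by
      rintro _ ⟨l, rfl⟩; exact X.mem_conj_B.2 (by simpa [X.W_D] using inv_mem (X.D_mem_B l)))]
  change Nat.card X.B + (Nat.card (X.conj X.W).B - Nat.card X.H + (Nat.card X.N - Nat.card X.H)) = _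
  have := Subgroup.card_le_of_le X.H_le_B
  rw [card_B, card_H, ← Par.q] at this
  rw [card_B, card_B, card_H, card_N, mul_assoc, ← Par.q]
  generalize P.q = Q at *
  omega

end SzS

end H6.Suz
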