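import Cfsg.Agent.H6.InvTF4

/-! Descent of parabolic cosets to twisted groups, and normal forms of unipotent elements under
abelian unipotent groups acting regularly. -/

set_option autoImplicit false
set_option linter.unusedSectionVars false

namespace H6
open Cfsg StSys

variable {Φ ι κ : Type} [Fintype ι] [DecidableEq ι] {R : RS Φ ι} {F : Type*} [Field F]
  {G : Type*} [Group G] [Fintype Φ]

namespace RS

/-- in a simply laced system, combinations are sums -/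
lemma Comb.eq_add (hsl : ∀ r s, R.nm r = R.nm s) {r s k : Φ} (h : s ≠ R.neg r) (hk : R.Comb r s k) :
    R.vec k = R.vec r + R.vec s := by
  obtain ⟨a, b, ha, hb, e⟩ := hk
  have sy : ∀ r s, R.pair r s = R.pair s r := fun r s =>
    mul_left_cancel₀ (nm_pos s).ne' ((nm_pair s r).trans (by rw [hsl r s]))
  have h1 := fun x => R.ev_comb (R.cov x) e
  simp only [ev_cov, Int.cast_id] at h1
  have h2 := h1 k
  rw [sy k r, sy k s, h1 r, h1 s, pair_self, pair_self, pair_self, sy s r] at h2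
  have h3 := pair_gt (hsl s r) h
  rw [sy s r] at h3
  obtain ⟨rfl, rfl⟩ : a = 1 ∧ b = 1 := by
    have : (a : ℤ) * b ≤ 1 := by
      nlinarith [sq_nonneg ((a : ℤ) - b), mul_nonneg (by positivity : (0 : ℤ) ≤ a * b)
        (by omega : 0 ≤ R.pair r s + 1)]
    constructor <;> nlinarith
  simpa using e

lemma kf_le_of_dom {f g : ι → ℤ} (hf : ∀ j, 0 ≤ f j) (hg : ∀ j, 0 ≤ g j) (w : R.W) :
    R.kf (R.da w g) f ≤ R.kf g f := by
  induction hn : R.gen.len w using Nat.strong_induction_on generalizing w with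
  | _ n ih =>
  by_cases hw : w⁻¹ = 1
  · rw [inv_eq_one.1 hw, da_one]
  obtain ⟨i, hi⟩ := R.exists_simple_neg hw
  have h1 := R.len_s_mul_of_neg hi
  refine le_trans ?_ (ih _ (by omega) (R.s i * w) rfl)
  have h2 : R.da w g i ≤ 0 := by
    have := ev_nonneg hg ((R.pos_neg_iff _).2 hi)
    rwa [ev_neg, neg_nonneg] at this
  rw [da_mul, show R.da (R.s i) (R.da w g) = R.da w g + (-R.da w g i) • R.cov (R.simple i) from
    funext fun j => by simp [da, ev_refl, ev_simple, cov, mul_comm, sub_eq_add_neg], kf_add]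
  have h3 := kf_cov (R := R) (R.simple i) f
  have h4 : R.kf ((-R.da w g i) • R.cov (R.simple i)) f = -R.da w g i * R.kf (R.cov (R.simple i)) f := by
    simp only [kf, ev_smul, Finset.mul_sum, mul_assoc]
  rw [ev_simple] at h3
  nlinarith [nm_pos (R := R) (R.simple i), hf i, mul_nonneg (nm_pos (R := R) (R.simple i)).le (hf i)]

/-- a dominant functional is determined by its orbit -/
theorem eq_of_dom {f : ι → ℤ} (hf : ∀ j, 0 ≤ f j) {w : R.W} (hg : ∀ j, 0 ≤ R.da w f j) :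
    R.da w f = f := by
  have h := kf_le_of_dom hf hg w⁻¹
  rw [← da_mul, inv_mul_cancel, da_one] at h
  exact sub_eq_zero.1 (eq_zero_of_kf (R := R) (by rw [kf_sub_self, kf_da]; omega))

lemma closed_of_ev {f : ι → ℤ} (h : ∀ r, R.ev f r < 4) {A : Set Φ} (hA : ∀ r ∈ A, 2 ≤ R.ev f r) :
    ∀ r ∈ A, ∀ s ∈ A, ∀ k, ¬ R.Comb r s k := fun r hr s hs k hk => by
  have := hA r hr; have := hA s hs; have := h k
  have := hk.ev_ge (f := f) (by omega) (by omega)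
  omega

end RS

namespace ChevSys
variable {S : ChevSys R F G}

/-- centralizers lie in the canonical parabolic subgroup -/
theorem mem_P_of_cent {L : List Φ} (h : L.Nodup ∧ (∀ j, 0 ≤ R.lam L j) ∧ ∀ a ∈ L,
      R.ev (R.lam L) a = 2 ∧ ∃ φ : ι → ℤ, (∀ j, 0 < φ j) ∧ ∀ b ∈ L, R.fv φ a ≤ R.fv φ b) {g : G}
    (hg : g ∈ S.grp) (e : g * S.w1 L * g⁻¹ = S.w1 L) : g ∈ S.P {j | R.lam L j = 0} := by
  have key : ∀ a ∈ L, S.Ess (S.w1 L) a :=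
    fun a ha => (h.2.2 a ha).2.elim fun _ hφ => ess_w1 hφ.1 h.1 ha (RS.pos_of_ev_pos h.2.1 (by
      rw [(h.2.2 a ha).1]; norm_num)) hφ.2
  have h1 := closed_ev (R := R) (R.lam L) two_pos
  have h2 := fun r (hr : 2 ≤ _) => RS.pos_of_ev_pos (R := R) (r := r) h.2.1 (two_pos.trans_le hr)
  have h3 := Up_le_normalizer_ev (S := S) h.2.1 two_pos
  have h4 := S.w1_mem (A := {r | 2 ≤ R.ev (R.lam L) r}) fun a ha => (h.2.2 a ha).1.ge
  obtain ⟨u, hu, n, hn, w, hw, v, hv, rfl, h5, h6⟩ := exists_da_of_conj hg e key key h1 h1 h2 h2 h3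
    h3 h4 h4
  exact mem_P_of hu hn hw (S.U_mono (fun _ h => h.1) hv) (RS.mem_WJ_of_da h.2.1 (RS.kempf
    (fun a ha => (h.2.2 a ha).1.le.trans (h5 a ha)) fun a ha => (h.2.2 a ha).1.le.trans (h6 a ha)))

lemma P_le_normalizer_ev {f : ι → ℤ} (hf : ∀ j, 0 ≤ f j) {m : ℤ} (hm : 0 < m) :
    S.P {j | f j = 0} ≤ Subgroup.normalizer (S.U {r | m ≤ R.ev f r} : Set G) := by
  have : ∀ r, R.Pos r ∨ R.InJ {j | f j = 0} r → 0 ≤ R.ev f r := fun r hr =>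
    hr.elim (RS.ev_nonneg hf) fun h => (RS.ev_eq_zero_of_inJ h).ge
  rw [S.nconj.P_eq]
  refine sup_le (S.nconj.H_le_normalizer _) (S.U_le_normalizer (fun r hr h => ?_)
    fun r hr s hs k hk => ?_) <;> have := this r hr <;> simp only [Set.mem_setOf_eq, RS.ev_neg] at *
  · omega
  · linarith [hk.ev_ge this (by omega)]

omit [Fintype Φ] in
lemma comm_mem_of {B : Set Φ} {D : Subgroup G} (hD : S.U B ≤ Subgroup.normalizer (D : Set G)) {x : G}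
    (h : ∀ β ∈ B, ∀ u, x⁻¹ * S.x β u * x * (S.x β u)⁻¹ ∈ D) {g : G} (hg : g ∈ S.U B) :
    x⁻¹ * g * x * g⁻¹ ∈ D :=
  S.U_induction (p := fun g => x⁻¹ * g * x * g⁻¹ ∈ D) (by simp) (fun g hg r hr t ih => by
    simpa [mul_assoc] using mul_mem ih ((norm_iff (hD hg) _).2 (h r hr t))) hg

omit [Fintype Φ] in
lemma comm_mem_U {β r : Φ} {B D : Set Φ} (hβ : β ∈ B) (hD : S.U B ≤ Subgroup.normalizer (S.U D : Set G))
    (h : β ≠ R.neg r) (h' : ∀ k, R.Comb r β k → k ∈ D) (t u : F) :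
    (S.x r t)⁻¹ * S.x β u * S.x r t * (S.x β u)⁻¹ ∈ S.U D := by
  obtain ⟨k, hk, e⟩ := S.exists_comm h h' t u
  simpa [mul_assoc, e] using (norm_iff (hD (S.x_mem_U hβ u)) _).2 hk

variable [CharP F 2] {r₀ : Φ} (hr : R.Pos r₀) {t : F} (ht : t ≠ 0) {Ψ B : Set Φ} (hΨ : R.Closed Ψ)
  (hΨ' : ∀ ψ ∈ Ψ, R.fv (fun _ => 1) r₀ < R.fv (fun _ => 1) ψ) (hB : R.Closed B)
  (hB' : ∀ β ∈ B, R.Pos β ∧ ∃ s ∉ Ψ, (β ≠ r₀ ∧ β ≠ R.neg r₀ ∧ R.t2 r₀ β = [(s, 1, 1)]) ∧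
    R.vec s = R.vec r₀ + R.vec β)
include hr ht hΨ hΨ' hB hB'

theorem kill_unique {h c c' : G} (hh : h ∈ S.U B) (hc : c ∈ S.U Ψ) (hc' : c' ∈ S.U Ψ)
    (e : h * (S.x r₀ t * c) * h⁻¹ = S.x r₀ t * c') : h = 1 := by
  refine S.peel_induction (fun _ => 1) (p := fun B' => B' ⊆ B → ∀ h ∈ S.U B',
    h * (S.x r₀ t * c) * h⁻¹ = S.x r₀ t * c' → h = 1) (fun _ h hh _ => by simpa [S.U_empty] using hh)
    (fun B' _ hp β hβ hmin _ hd ih hBB h hh' e => ?_) hB (fun r h => R.fv_one_pos (hB' r h).1) le_rfl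
    h hh e
  obtain ⟨u, h, hh, rfl⟩ := hd h hh'
  obtain rfl : u = 0 := by
    obtain ⟨-, s, hs, h1, h2⟩ := hB' β (hBB hβ)
    have h0 := R.fv_one_pos hr
    have h3 := R.fv_comb (fun _ => 1) (a := 1) (b := 1) (by simpa using h2)
    have h4 := hp β hβ
    set φ := R.fv fun _ => 1
    let D := Ψ ∪ {k | k ≠ s ∧ φ s ≤ φ k}
    have hD : ∀ r ∈ D, φ r₀ < φ r := fun r hr => hr.elim (hΨ' r) fun h => by have := h.2; omega
    have hDp : ∀ r ∈ D, R.Pos r := fun r hr => R.pos_set_eq.le (h0.trans (hD r hr))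
    have hc1 : ∀ a b k, R.Comb a b k → 0 < φ a → 0 < φ b → φ s < φ a + φ b → k ∈ D :=
      fun a b k hk ha hb h => by
        have : φ a + φ b ≤ φ k := hk.fv_ge ha.le hb.le
        exact Or.inr ⟨fun e => by rw [e] at this; omega, by change φ s ≤ φ k; omega⟩
    have hN : S.U B' ≤ Subgroup.normalizer (S.U D : Set G) := S.U_le_normalizer (fun r hr h =>
      (R.pos_neg_iff r).1 (hDp _ h) (hB' r (hBB hr)).1) fun r hr a ha k hk => hc1 r a k hk (hp r hr)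
        (h0.trans (hD a ha)) (by have := hD a ha; have := hmin r hr; omega)
    have hN' := (S.U_mono Set.diff_subset).trans hN (a := S.U (B' \ {β}))
    have h5 := comm_mem_of hN' (x := S.x r₀ t) (fun γ hγ u => comm_mem_U hγ hN'
      (hB' γ (hBB hγ.1)).2.choose_spec.2.1.2.1 (fun k ⟨a, b, ha, hb, e⟩ => by
        have e1 := R.fv_comb (fun _ => 1) e
        have := hmin γ hγ.1
        refine Or.inr ⟨fun e2 => hγ.2 (R.vec_inj ?_), by change φ s ≤ φ k; nlinarith⟩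
        obtain ⟨rfl, rfl⟩ : a = 1 ∧ b = 1 := by
          rw [e2] at e1; constructor <;> nlinarith
        simpa [e2, h2, eq_comm] using e) t u) hh
    have hc1' := fun g hg => S.U_mono (Set.subset_union_left (s := Ψ) (t := {k | k ≠ s ∧ φ s ≤ φ k}))
      (show g ∈ _ from hg)
    refine (mul_eq_zero.1 (eq_zero_of_mem (S := S) (A := D) (a := s) (d := t * u) ?_ hDp
      (R.pos_set_eq.le (show 0 < φ s by omega)) (by simp [D, hs]) ?_)).resolve_left ht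
    · rintro a (ha | ha) b (hb | hb) k hk
      · exact Or.inl (hΨ a ha b hb k hk)
      all_goals
        have := hD a (by simp [D, ha]); have := hD b (by simp [D, hb])
        exact hc1 a b k hk (by omega) (by omega) (by first | (have := hb.2; omega) | (have := ha.2; omega))
    · have e1 := S.comm2 h1 t u
      simp only [List.map_cons, List.map_nil, pow_one, wd_cons, wd_nil, mul_one] at e1
      rw [show S.x s (t * u) = (S.x β u)⁻¹ * c' * S.x β u * ((S.x r₀ t)⁻¹ * h * S.x r₀ t * h⁻¹ *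
          (h * c * h⁻¹))⁻¹ by
        rw [eq_inv_mul_of_mul_eq e.symm, eq_inv_mul_of_mul_eq e1.symm]; group]
      exact mul_mem (conj_mem_of_normalizer (hN (S.x_mem_U hβ u)) (hc1' _ hc'))
        (inv_mem (mul_mem h5 ((norm_iff (hN' hh) _).2 (hc1' _ hc))))
  simpa using ih (Set.diff_subset.trans hBB) h hh (by simpa using e)

theorem kill [Finite F] {A : Set Φ} (hA : R.Closed A) (hp : ∀ r ∈ A, R.Pos r) (hΨA : Ψ ⊆ A)
    (hBA : ∀ β ∈ B, ∀ a, a ∈ A ∨ a = r₀ → ∀ k, R.Comb β a k → k ∈ A)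
    (hcard : A.ncard = B.ncard + Ψ.ncard) {y : G} (hy : y ∈ S.U A) :
    ∃ g ∈ S.U B, ∃ c ∈ S.U Ψ, g * (S.x r₀ t * c) * g⁻¹ = S.x r₀ t * y := by
  have hN : S.U B ≤ Subgroup.normalizer (S.U A : Set G) := S.U_le_normalizer (fun r hr h =>
    (R.pos_neg_iff r).1 (hp _ h) (hB' r hr).1) fun r hr a ha => hBA r hr a (Or.inl ha)
  have c1 := S.inj.card_U hA fun r h => R.fv_one_pos (hp r h)
  have : Finite (S.U A) := Nat.finite_of_card_ne_zero (c1 ▸ pow_ne_zero _ Nat.card_pos.ne')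
  obtain ⟨⟨g, c⟩, e⟩ := (Function.Injective.bijective_of_nat_card_le (f := fun p : S.U B × S.U Ψ =>
    (⟨(S.x r₀ t)⁻¹ * (p.1 * (S.x r₀ t * p.2) * p.1⁻¹), by
      simpa [mul_assoc] using mul_mem (comm_mem_of hN (x := S.x r₀ t) (fun γ hγ u => comm_mem_U hγ hN
        (hB' γ hγ).2.choose_spec.2.1.2.1 (fun k hk => hBA γ hγ _ (Or.inr rfl) k hk.symm) t u) p.1.2)
        ((norm_iff (hN p.1.2) _).2 (S.U_mono hΨA p.2.2))⟩ : S.U A)) (fun ⟨g, c⟩ ⟨g', c'⟩ e => by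
      have e := mul_left_cancel (congrArg Subtype.val e)
      obtain rfl : g' = g := Subtype.ext (inv_mul_eq_one.1 (kill_unique hr ht hΨ hΨ' hB hB'
        (mul_mem (inv_mem g'.2) g.2) c.2 c'.2 (by
          simp only [Subgroup.coe_inv] at e
          calc _ = (g' : G)⁻¹ * (g * (S.x r₀ t * c) * (g : G)⁻¹) * g' := by group
            _ = _ := by rw [e]; group)))
      simpa using e) (by
      rw [Nat.card_prod, c1, S.inj.card_U hB fun r h => R.fv_one_pos (hB' r h).1,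
        S.inj.card_U hΨ fun r h => R.fv_one_pos (hp r (hΨA h)), hcard, pow_add])).2 ⟨y, hy⟩
  exact ⟨g, g.2, c, c.2, by simpa [inv_mul_eq_iff_eq_mul] using congrArg Subtype.val e⟩

end ChevSys

namespace Tw
variable {S : ChevSys R F G} {T : Sym R κ} {X : Tw S T} {Γ : Subgroup G}

lemma σ_mem_P {K : Set κ} {g : G} (hg : g ∈ S.P (T.J K)) : X.σ g ∈ S.P (T.J K) := by
  rw [S.nconj.P_eq, sup_comm] at hg ⊢
  obtain ⟨u, hu, y, hy, rfl⟩ := S.nconj.mem_U_sup_H.1 hg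
  rw [X.σ_mul _ (S.U_le_grp _ hu) _ (S.H_le_grp hy)]
  exact mul_mem (Subgroup.mem_sup_left (X.σ_mem_U (fun r hr => hr.imp (T.pos_ρ r).2
    (T.inJ_ρ K r).2) hu)) (Subgroup.mem_sup_right (X.σ_mem_H hy))

/-- stable cosets of stable parabolic subgroups contain fixed points -/
theorem Good.exists_mem_P (hΓ : X.Good Γ) {K : Set κ} {g : G} (hg : g ∈ S.grp)
    (h : g * (X.σ g)⁻¹ ∈ S.P (T.J K)) : ∃ γ ∈ Γ, g * γ⁻¹ ∈ S.P (T.J K) := by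
  set J := T.J K
  obtain ⟨u, hu, n₀, hn₀, w₀, hw₀, v₀, hv₀, rfl⟩ := S.exists_unu hg
  obtain ⟨d, a, ha, e, hd⟩ := (Sym.triv R).exists_min J (v := w₀⁻¹) (by simp [Sym.triv_W1])
  obtain ⟨n, hn, hw⟩ := S.nconj.exists_acts d⁻¹
  obtain ⟨b, hb, v, hv, e1⟩ := S.exists_bnu hw (S.U_inv_le_B _ hv₀)
  have hp : u * (n₀ * n⁻¹) * b ∈ S.P J := S.mem_P_iff.2 ⟨u, S.Up_le_B hu, _, mul_mem hn₀ (inv_mem hn),
    _, by rw [inv_inv, ← inv_inv w₀, e]; simpa using show a ∈ R.WJ J from ha.2, hw₀.mul hw.inv, b, hb, rfl⟩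
  have e2 : u * n₀ * v₀ = u * (n₀ * n⁻¹) * b * n * v := by
    rw [mul_assoc _ b, mul_assoc _ (b * n), ← e1]; group
  generalize u * (n₀ * n⁻¹) * b = p at hp e2
  have hng := S.N_le_grp hn
  have hvg := S.U_le_grp _ hv
  rw [e2, X.σ_mul3 (S.P_le_grp _ hp) hng hvg] at h
  have h1 : X.σ n * X.σ v * v⁻¹ * n⁻¹ ∈ S.P J := by
    simpa [mul_assoc] using mul_mem (mul_mem (inv_mem (σ_mem_P (X := X) hp)) (inv_mem h)) hp
  obtain ⟨w', hw'⟩ := S.nconj.exists_acts_of_mem_N (X.σ_mem_N hn)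
  have h2 := X.acts_σ hn hw hw'
  have hmin : ∀ r, R.InJ J (R.act d⁻¹ r) → (R.Pos (R.act d⁻¹ r) ↔ R.Pos r) := fun r hr => by
    simpa using (RS.pos_act_iff_of_simple hd hr).symm
  obtain rfl : w' = d⁻¹ := by
    obtain ⟨b₁, hb₁, m, hm, a', ha', hma, b₂, hb₂, e3⟩ := S.mem_P_iff.1 h1
    obtain ⟨b₃, hb₃, n', hn', a'', ha'', hn'a, b₄, hb₄, e4⟩ := S.exists_cell hm hma ha' hb₂ hn hw
    obtain rfl := S.acts_eq_of_eq (one_mem _) (S.Up_le_B (X.σ_mem_U (fun r h => (T.pos_ρ r).2 h.1) hv))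
      (mul_mem hb₁ hb₃) (mul_mem hb₄ (S.U_inv_le_B _ hv)) (X.σ_mem_N hn) hn' hw' hn'a (by
        rw [one_mul, eq_mul_of_mul_inv_eq (eq_mul_of_mul_inv_eq e3), mul_assoc b₁, mul_assoc b₁, e4]
        group)
    refine R.eq_of_inv_iff fun r => and_congr_right fun hr => not_congr ?_
    by_cases hJ : R.InJ J (R.act d⁻¹ r)
    · rw [hmin r hJ, iff_true_right hr]
      obtain ⟨r, rfl⟩ := T.ρ.surjective r
      rw [← R.inJ_act_WJ ha'', ← R.act_mul, h2, T.inJ_ρ] at hJ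
      rwa [h2, T.pos_ρ, hmin r hJ, ← T.pos_ρ]
    · rw [R.act_mul, R.pos_act_WJ ha'' hJ]
  obtain ⟨n₁, hn₁, hw₁⟩ := hΓ.exists_acts (w := d⁻¹) h2
  have hv' : X.σ v = v := by
    have h3 : n * (X.σ v * v⁻¹) * n⁻¹ ∈ S.P J := by
      simpa [mul_assoc] using mul_mem (S.B_le_P J (S.H_le_B (hw.conj_mem_H
        (S.inv_mul_mem_H (X.σ_mem_N hn) hn hw' hw)))) h1
    rw [S.nconj.P_eq, sup_comm] at h3
    refine mul_inv_eq_one.1 (conj_eq_one ((S.nd (-RS.fJ J)).le (Subgroup.mem_inf.2 ⟨hw.conj_mem_U (fun r hr => ?_)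
      (mul_mem (X.σ_mem_U (fun r => (T.inv_ρ h2 r).2) hv) (inv_mem hv)), by
        simpa only [R.fv_neg_fun, neg_nonpos, R.fv_fJ_nonneg_iff] using h3⟩)))
    rw [Set.mem_setOf_eq, R.fv_neg_fun, neg_pos, ← not_le, R.fv_fJ_nonneg_iff, not_or]
    exact ⟨hr.2, fun h => hr.2 ((hmin r h).2 hr.1)⟩
  refine ⟨n₁ * v, mul_mem hn₁.2 (hΓ.Up_le ⟨S.U_mono (fun _ h => h.1) hv, hvg, hv'⟩), ?_⟩
  simpa [e2, mul_assoc] using mul_mem hp (S.B_le_P J (S.H_le_B (hw₁.conj_mem_H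
    (S.inv_mul_mem_H hn₁.1 hn hw₁ hw))))

lemma Good.mem_of_U (hΓ : X.Good Γ) {A : Set Φ} (hA : (∀ r ∈ A, R.Pos r) ∨ ∀ r ∈ A, ¬ R.Pos r)
    {g : G} (hg : g ∈ S.U A) (h : g ∈ X.Fx) : g ∈ Γ :=
  hA.elim (fun hA => hΓ.Up_le ⟨S.U_mono hA hg, h⟩) fun hA => hΓ.Um_le ⟨S.U_mono hA hg, h⟩

variable [CharP F 2] {f : F →+* F} (hf : ∀ r t, X.φ r t = f t) (hΓ : X.Good Γ)
include hf hΓ

lemma Good.h_mem {r : Φ} (hr : T.ρ r = r) {c : F} (hc : f c = c) : S.h r c ∈ Γ := by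
  have : ∀ r, T.ρ r = r → ∀ c, f c = c → S.x r c ∈ Γ := fun r hr c hc =>
    hΓ.mem_of_U (A := {r}) (by simpa using em _) (S.x_mem_U (Set.mem_singleton r) c)
      ⟨S.x_mem_grp _ _, by rw [X.σ_x, hf, hr, hc]⟩
  have h2 : ∀ c, f c = c → S.n r c ∈ Γ := fun c hc => mul_mem (mul_mem (this r hr c hc)
    (this _ (by rw [T.ρ_neg, hr]) (-c⁻¹) (by simp [hc]))) (this r hr c hc)
  exact mul_mem (h2 c hc) (h2 (-1) (by simp))

/-- normalization by the torus -/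
lemma Good.exists_h [Finite F] {r : Φ} (hr : T.ρ r = r) {t : F} (ht : t ≠ 0) (h : S.x r t ∈ X.Fx) :
    ∃ c ≠ 0, S.h r c ∈ Γ ∧ S.h r c * S.x r t * (S.h r c)⁻¹ = S.x r 1 := by
  obtain ⟨s, hs⟩ : ∃ s : F, s ^ 2 = t⁻¹ := Finite.injective_iff_surjective.1 (frobenius_inj F 2) _
  have hs0 : s ≠ 0 := fun e => inv_ne_zero ht (by rw [← hs, e]; simp)
  have h1 : f t = t := S.inj.x_injective r (by rw [← h.2, X.σ_x, hf, hr])
  refine ⟨s, hs0, hΓ.h_mem hf hr (frobenius_inj F 2 (by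
    rw [frobenius_def, frobenius_def, ← map_pow, hs, map_inv₀, h1])), ?_⟩
  rw [S.nconj.h_conj r hs0, R.pair_self, zpow_ofNat, hs, inv_mul_cancel₀ ht]

end Tw

variable (T : Sym R κ) in
/-- action of a word in the generators of the twisted Weyl group -/
def Sym.wk (l : List κ) (r : Φ) : Φ := (l.flatMap T.wd).foldr R.refl r

lemma Sym.act_wk (T : Sym R κ) (l : List κ) (r : Φ) :
    R.act (R.gen.wp (l.flatMap T.wd)) r = T.wk l r := by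
  rw [Sym.wk]
  induction l.flatMap T.wd with
  | nil => rfl
  | cons i l ih => rw [InvGen.wp_cons, R.act_mul, ih]; rfl

lemma Sym.wk_ρ (T : Sym R κ) (l : List κ) (r : Φ) : T.wk l (T.ρ r) = T.ρ (T.wk l r) := by
  induction l with
  | nil => rfl
  | cons k l ih =>
    have := fun r => T.act_wk [k] r
    simp only [Sym.wk, List.flatMap_cons, List.foldr_append, List.flatMap_nil, List.append_nil] at *
    rw [ih, ← this, ← this]; exact T.w_mem k _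

/-- data for one reduction step -/
structure Step [DecidableEq Φ] (T : Sym R κ) (pre A A₃ A₄ B Ψ : List Φ) (r₀ s₀ γ : Φ) (lam : ι → ℤ)
    (tbl : List (Φ × List κ)) : Prop where
  lt : ∀ r, R.ev lam r < 4
  hA : ∀ a ∈ r₀ :: A, 2 ≤ R.ev lam a ∧ R.Pos a ∧ T.ρ a ∈ r₀ :: A
  nd : (r₀ :: A).Nodup ∧ B.Nodup ∧ Ψ.Nodup ∧ A.length = B.length + Ψ.length
  ρr : T.ρ r₀ = r₀
  hΨ : ∀ a ∈ Ψ, a ∈ A ∧ T.ρ a ∈ Ψ ∧ R.fv (fun _ => 1) r₀ < R.fv (fun _ => 1) a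
  hB : ∀ β ∈ B, T.ρ β ∈ B ∧ R.pair r₀ β = -1 ∧ R.Pos β ∧ ∃ s ∉ Ψ, (β ≠ r₀ ∧ β ≠ R.neg r₀ ∧
    R.t2 r₀ β = [(s, 1, 1)]) ∧ R.vec s = R.vec r₀ + R.vec β
  hBA : ∀ β ∈ B, ∀ a ∈ r₀ :: A, ∀ k, R.vec k = R.vec β + R.vec a → k ∈ A
  hE : ∀ p ∈ pre, ∀ a ∈ r₀ :: γ :: T.ρ γ :: B, R.pair p a = 0
  tb : ∀ s ∈ r₀ :: A, s ∉ A₃ → ∃ e ∈ tbl, e.1 = s ∧ (∀ a ∈ r₀ :: A, T.wk e.2 a ∈ r₀ :: A) ∧
    (∀ a ∈ A₃, T.wk e.2 a ∈ A₃) ∧ T.wk e.2 s = (if T.ρ s = s then r₀ else s₀) ∧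
    ∀ p ∈ pre, ∀ i ∈ e.2.flatMap T.wd, R.pair p (R.simple i) = 0
  hγ : ¬ R.Pos γ ∧ T.ρ (T.ρ γ) = γ ∧ R.Cm 2 γ (T.ρ γ) ∧ R.Cm 2 r₀ γ ∧ R.Cm 2 r₀ (T.ρ γ) ∧
    R.Cm 2 s₀ (T.ρ γ) ∧ R.Cm 2 (T.ρ s₀) γ ∧ (γ ≠ s₀ ∧ γ ≠ R.neg s₀ ∧ R.t2 s₀ γ = [(r₀, 1, 1)]) ∧
    (T.ρ γ ≠ T.ρ s₀ ∧ T.ρ γ ≠ R.neg (T.ρ s₀) ∧ R.t2 (T.ρ s₀) (T.ρ γ) = [(r₀, 1, 1)])
  hs : s₀ ∈ A ∧ T.ρ s₀ ∈ A ∧ T.ρ s₀ ≠ s₀ ∧ s₀ ∉ A₄ ∧ T.ρ s₀ ∉ A₄
  h4 : (∀ a ∈ r₀ :: A, a ∈ A₃ ∨ T.ρ a ≠ a → a ∈ s₀ :: T.ρ s₀ :: A₄) ∧ ∀ a ∈ A₄, a ∈ A ∧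
    ∀ g ∈ [γ, T.ρ γ], a ≠ R.neg g ∧ ∀ k, R.vec k = R.vec g + R.vec a → k ∈ A₄

namespace Step
variable [DecidableEq Φ] {S : ChevSys R F G} {T : Sym R κ} {X : Tw S T} {Γ : Subgroup G}
  {pre A A₃ A₄ B Ψ : List Φ} {r₀ s₀ γ : Φ} {lam : ι → ℤ} {tbl : List (Φ × List κ)}
  (h : Step T pre A A₃ A₄ B Ψ r₀ s₀ γ lam tbl)
include h

lemma nc : ∀ r ∈ r₀ :: A, ∀ s ∈ r₀ :: A, ∀ k, ¬ R.Comb r s k :=
  RS.closed_of_ev (A := {a | a ∈ r₀ :: A}) h.lt fun a ha => (h.hA a ha).1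

lemma closed {C : Set Φ} (hC : ∀ a ∈ C, a ∈ r₀ :: A) : R.Closed C :=
  fun r hr s hs k hk => (h.nc r (hC r hr) s (hC s hs) k hk).elim

lemma comm {r s : Φ} (hr : r ∈ r₀ :: A) (hs : s ∈ r₀ :: A) (t u : F) : Commute (S.x s u) (S.x r t) :=
  S.commute_of (fun e => (R.pos_neg_iff r).1 (e ▸ (h.hA s hs).2.1) (h.hA r hr).2.1) (h.nc r hr s hs) t u

lemma split {C : Set Φ} (hC : ∀ a ∈ C, a ∈ r₀ :: A) (s : Φ) {z : G} (hz : z ∈ S.U C) :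
    ∃ t, ∃ y ∈ S.U (C \ {s}), z = S.x s t * y := by
  obtain ⟨a, ha, y, hy, e⟩ := S.exists_mul_of_mem_U (h.closed hC)
    (fun r hr => R.fv_one_pos (h.hA r (hC r hr)).2.1) {s} hz
  obtain ⟨t, rfl⟩ := S.mem_U_singleton.1 (S.U_mono Set.inter_subset_right ha)
  exact ⟨t, y, hy, e⟩

lemma exists_ne {C D : Set Φ} (hC : ∀ a ∈ C, a ∈ r₀ :: A) {z : G} (hz : z ∈ S.U C) (h' : z ∉ S.U D) :
    ∃ s ∈ C, s ∉ D ∧ ∃ t ≠ 0, ∃ y ∈ S.U (C \ {s}), z = S.x s t * y := by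
  induction hn : C.ncard using Nat.strong_induction_on generalizing C with
  | _ n ih =>
  obtain ⟨s, hs, hs'⟩ : ∃ s ∈ C, s ∉ D := by
    by_contra! h''; exact h' (S.U_mono h'' hz)
  obtain ⟨t, y, hy, rfl⟩ := h.split hC s hz
  by_cases ht : t = 0
  · obtain ⟨s', h1, h2, t, ht, y, hy, e⟩ := ih _ (hn ▸ Set.ncard_lt_ncard (s := C \ {s})
      ⟨Set.diff_subset, fun h => (h hs).2 rfl⟩) (fun a ha => hC a ha.1) (by simpa [ht] using hy) rfl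
    exact ⟨s', h1.1, h2, t, ht, y, S.U_mono (Set.diff_subset_diff_left Set.diff_subset) hy, e⟩
  · exact ⟨s, hs, hs', t, ht, y, hy, rfl⟩

variable [CharP F 2] [Finite F] {f : F →+* F} (hf : ∀ r t, X.φ r t = f t) (hΓ : X.Good Γ)
  (hsl : ∀ r s, R.nm r = R.nm s) (hn : ∀ k, S.nw (T.wd k) ∈ Γ) (hff : ∀ t, f (f t) = t)
  (hf1 : ∃ t, f t ≠ t)
include hf hΓ hsl hn hff hf1

omit h hf hΓ hsl hff hf1 in
lemma nw_mem (l : List κ) : S.nw (l.flatMap T.wd) ∈ Γ := by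
  induction l with
  | nil => exact one_mem _
  | cons k l ih => rw [List.flatMap_cons, nw_append]; exact mul_mem (hn k) ih

theorem lead {z : G} (hz : z ∈ S.U {a | a ∈ r₀ :: A}) (h3 : z ∉ S.U {a | a ∈ A₃}) :
    ∃ g ∈ S.U {r | ∀ p ∈ pre, R.pair p r = 0} ⊓ Γ, ∃ t ≠ 0, ∃ y ∈ S.U {a | a ∈ A},
      g * z * g⁻¹ = S.x r₀ t * y := by
  have hw : ∀ s ∈ r₀ :: A, s ∉ A₃ → ∃ n ∈ S.U {r | ∀ p ∈ pre, R.pair p r = 0} ⊓ Γ, ∃ w : Φ → Φ,
      w.Injective ∧ (∀ r t, n * S.x r t * n⁻¹ = S.x (w r) t) ∧ (∀ r, w (T.ρ r) = T.ρ (w r)) ∧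
      (∀ a ∈ r₀ :: A, w a ∈ r₀ :: A) ∧ (∀ a ∈ A₃, w a ∈ A₃) ∧
      w s = if T.ρ s = s then r₀ else s₀ := fun s hs hs' => by
    obtain ⟨e, -, -, h1, h2, h3, h4⟩ := h.tb s hs hs'
    exact ⟨_, Subgroup.mem_inf.2 ⟨S.nw_mem fun i hi => S.n_mem_U (by exact fun p hp => h4 p hp i hi) (by
      intro p hp; rw [R.pair_neg_right, h4 p hp i hi, neg_zero]) 1, nw_mem hn e.2⟩, T.wk e.2,
      fun a b e => by
        rw [← T.act_wk, ← T.act_wk] at e; exact R.act_injective _ e, fun r t => by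
        rw [ChevSys.nw_conj_two, T.act_wk], T.wk_ρ _, h1, h2, h3⟩
  by_cases hc : z ∈ S.U {a | a ∈ r₀ :: A ∧ (a ∈ A₃ ∨ T.ρ a ≠ a)}
  swap
  · obtain ⟨s, hs, hs', t, ht, y, hy, rfl⟩ := h.exists_ne (fun _ h => h) hz hc
    simp only [Set.mem_setOf_eq, not_and, not_or, not_not] at hs hs'
    obtain ⟨n, hn, w, h0, h1, -, h2, -, h3⟩ := hw s hs (hs' hs).1
    rw [if_pos (hs' hs).2] at h3
    refine ⟨n, hn, t, ht, _, S.conj_mem_U_of (fun a ha u => h1 a u ▸ S.x_mem_U ?_ u) hy, by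
      rw [← h3, ← h1]; group⟩
    exact (List.mem_cons.1 (h2 a ha.1)).resolve_left fun e => ha.2 (h0 (e.trans h3.symm))
  obtain ⟨s, hs, hs', t, ht, y, hy, rfl⟩ := h.exists_ne (fun _ h => h.1) hc h3
  obtain ⟨n, hn, w, h0, h1, h2, h4, h5, h6⟩ := hw s hs.1 hs'
  rw [if_neg (hs.2.resolve_left hs')] at h6
  have hy' : n * y * n⁻¹ ∈ S.U {a | a ∈ T.ρ s₀ :: A₄} := S.conj_mem_U_of (fun a ha u => h1 a u ▸
    S.x_mem_U ((List.mem_cons.1 (h.h4.1 _ (h4 a ha.1.1) (ha.1.2.imp (h5 a) fun h e =>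
      h (h0 ((h2 a).trans e))))).resolve_left fun e => ha.2 (h0 (e.trans h6.symm))) u) hy
  have hA4 : ∀ a ∈ A₄, a ∈ r₀ :: A := fun a ha => List.mem_cons_of_mem _ (h.h4.2 a ha).1
  obtain ⟨t', y', hy', e⟩ := h.split (by
    simpa only [Set.mem_setOf_eq, List.forall_mem_cons] using ⟨List.mem_cons_of_mem _ h.hs.2.1, hA4⟩)
    (T.ρ s₀) hy'
  replace hy' : y' ∈ S.U {a | a ∈ A₄} := S.U_mono (fun a ha => (List.mem_cons.1 ha.1).resolve_left ha.2) hy'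
  obtain ⟨u, hu⟩ : ∃ u, t * u + t' * f u ≠ 0 := by
    by_contra! hu
    obtain ⟨u, hu'⟩ := hf1
    have h1 := hu 1
    have h2 := hu u
    have : (2 : F) = 0 := CharTwo.two_eq_zero
    rw [map_one] at h1
    grind
  obtain ⟨g1, g2, g3, g4, g5, g6, g7, g8, g9⟩ := h.hγ
  have hN : ∀ g ∈ [γ, T.ρ γ], ∀ u, S.x g u ∈ Subgroup.normalizer (S.U {a | a ∈ A₄} : Set G) :=
    fun g hg => S.x_mem_normalizer (fun h' => ((h.h4.2 _ h').2 g hg).1 rfl) fun a ha k hk =>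
      ((h.h4.2 a ha).2 g hg).2 k (hk.eq_add hsl ((h.h4.2 a ha).2 g hg).1)
  have cm : ∀ {r s}, R.Cm 2 r s → ∀ t u, S.x s u * S.x r t * (S.x s u)⁻¹ = S.x r t :=
    fun h t u => by rw [(h.commute _ t u).eq, mul_inv_cancel_right]
  have hg : S.x γ u * S.x (T.ρ γ) (f u) ∈ S.U {r | ∀ p ∈ pre, R.pair p r = 0} ⊓ Γ :=
    Subgroup.mem_inf.2 ⟨mul_mem (S.x_mem_U (by exact fun p hp => h.hE p hp _ (by simp)) _)
      (S.x_mem_U (by exact fun p hp => h.hE p hp _ (by simp)) _), hΓ.mem_of_U (A := {γ, T.ρ γ}) (Or.inr (by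
        rintro _ (rfl | rfl); exacts [g1, (T.pos_ρ _).not.2 g1])) (mul_mem (S.x_mem_U (by simp) _)
        (S.x_mem_U (by simp) _)) ⟨mul_mem (S.x_mem_grp _ _) (S.x_mem_grp _ _), by
          rw [X.σ_mul _ (S.x_mem_grp _ _) _ (S.x_mem_grp _ _), X.σ_x, X.σ_x, hf, hf, hff, g2,
            (g3.commute _ _ _).eq]⟩⟩
  refine ⟨_, mul_mem hg hn, _, hu, S.x s₀ t * S.x (T.ρ s₀) t' * (S.x γ u * (S.x (T.ρ γ) (f u) * y' *
    (S.x (T.ρ γ) (f u))⁻¹) * (S.x γ u)⁻¹), mul_mem (mul_mem (S.x_mem_U h.hs.1 _)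
      (S.x_mem_U h.hs.2.1 _)) (S.U_mono (fun a ha => (h.h4.2 a ha).1) ((norm_iff (hN _ (by simp) _) _).2
        ((norm_iff (hN _ (by simp) _) _).2 hy'))), ?_⟩
  have cj : ∀ g a b : G, g * (a * b) * g⁻¹ = g * a * g⁻¹ * (g * b * g⁻¹) := fun _ _ _ => by group
  have c1 := h.comm (S := S) (List.mem_cons_of_mem _ h.hs.1) List.mem_cons_self t
  have c2 := h.comm (S := S) (List.mem_cons_of_mem _ h.hs.2.1) List.mem_cons_self t'
  rw [show ∀ a b c d : G, a * b * c * d * (a * b * c)⁻¹ = a * (b * (c * d * c⁻¹) * b⁻¹) * a⁻¹ from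
    fun _ _ _ _ => by group, cj n, h1, h6, e, cj (S.x (T.ρ γ) _), cj (S.x (T.ρ γ) _), cm g6,
    S.conj2 g9 g5, cj (S.x γ u), cj (S.x γ u), cj (S.x γ u), S.conj2 g8 g4, cm g7, cm g4, S.add]
  simp only [mul_assoc, (c1 _).left_comm, (c2 _).left_comm]

omit hf hΓ hsl hn hff hf1 in
lemma fix {t : F} {y : G} (hy : y ∈ S.U {a | a ∈ A}) (hF : S.x r₀ t * y ∈ X.Fx) : S.x r₀ t ∈ X.Fx := by
  have hA : ∀ a ∈ A, a ∈ r₀ :: A := fun _ => List.mem_cons_of_mem _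
  refine (Tw.fix_mul (S.U_le_grp {r₀}) (S.U_le_grp _) (fun _ => X.σ_mem_U (by simp [h.ρr]))
    (fun _ => X.σ_mem_U fun a ha => ?_) ?_ (S.x_mem_U (Set.mem_singleton _) t) hy hF).1
  · exact (List.mem_cons.1 (h.hA a (hA a ha)).2.2).resolve_left fun e =>
      (List.nodup_cons.1 h.nd.1).1 (by rwa [← T.ρ.injective (e.trans h.ρr.symm)])
  · rw [S.inj.U_inf (f := fun _ => 1) (RS.closed_singleton _) (h.closed (C := {a | a ∈ A}) hA) (by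
      simpa using R.fv_one_pos (h.hA r₀ List.mem_cons_self).2.1)
      (fun a ha => R.fv_one_pos (h.hA a (hA a ha)).2.1),
      Set.singleton_inter_eq_empty.2 (by exact (List.nodup_cons.1 h.nd.1).1), S.U_empty]

omit hf hΓ hn hff hf1 in
lemma kill {t : F} (ht : t ≠ 0) {y : G} (hy : y ∈ S.U {a | a ∈ A}) (hF : S.x r₀ t * y ∈ X.Fx) :
    ∃ k ∈ S.U {a | a ∈ B} ⊓ X.Fx, ∃ c ∈ S.U {a | a ∈ Ψ}, k * (S.x r₀ t * c) * k⁻¹ = S.x r₀ t * y := by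
  have hA : ∀ a ∈ A, a ∈ r₀ :: A := fun _ => List.mem_cons_of_mem _
  have hr := (h.hA r₀ List.mem_cons_self).2.1
  have hx := h.fix hy hF
  have hΨ := h.closed (C := {a | a ∈ Ψ}) fun a ha => hA a (h.hΨ a ha).1
  have hB : R.Closed {a | a ∈ B} := fun a ha b hb k hk => by
    have h1 := hk.fv_le (f := R.cov r₀) (by rw [← RS.ev_int, RS.ev_cov, (h.hB a ha).2.1]; simp)
      (by rw [← RS.ev_int, RS.ev_cov, (h.hB b hb).2.1]; simp)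
    simp only [← RS.ev_int, RS.ev_cov, (h.hB a ha).2.1, (h.hB b hb).2.1] at h1
    have h2 := RS.pair_gt (hsl r₀ k) fun e => (R.pos_neg_iff k).1 (e ▸ hr)
      (hk.pos (h.hB a ha).2.2.1 (h.hB b hb).2.2.1)
    omega
  have hΨ' : ∀ a ∈ {a | a ∈ Ψ}, _ := fun a ha => (h.hΨ a ha).2.2
  have hB' : ∀ β ∈ {a | a ∈ B}, R.Pos β ∧ ∃ s ∉ {a | a ∈ Ψ}, _ := fun a ha => (h.hB a ha).2.2
  obtain ⟨k, hk, c, hc, e'⟩ := ChevSys.kill hr ht hΨ hΨ' hB hB' (h.closed (C := {a | a ∈ A}) hA)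
    (fun a ha => (h.hA a (hA a ha)).2.1) (fun a ha => (h.hΨ a ha).1) (fun β hβ a ha k hk => by
      have ha' : a ∈ r₀ :: A := List.mem_cons.2 ha.symm
      exact h.hBA β hβ a ha' k (hk.eq_add hsl fun e => (R.pos_neg_iff β).1 (e ▸ (h.hA a ha').2.1)
        (hB' β hβ).1)) (by
      simp only [← List.coe_toFinset, Set.ncard_coe_finset, List.toFinset_card_of_nodup h.nd.2.1,
        List.toFinset_card_of_nodup h.nd.2.2.1, List.toFinset_card_of_nodup h.nd.1.of_cons,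
        h.nd.2.2.2]) hy
  have hkg := S.U_le_grp _ hk
  have hcg := S.U_le_grp _ hc
  refine ⟨k, ⟨hk, hkg, (inv_mul_eq_one.1 (ChevSys.kill_unique hr ht hΨ hΨ' hB hB'
    (mul_mem (inv_mem hk) (X.σ_mem_U (fun a ha => (h.hB a ha).1) hk))
    (X.σ_mem_U (fun a ha => (h.hΨ a ha).2.1) hc) hc ?_)).symm⟩, c, hc, e'⟩
  have := hF.2
  rw [← e', X.σ_mul3 hkg (mul_mem hx.1 hcg) (inv_mem hkg), X.σ_inv hkg, X.σ_mul _ hx.1 _ hcg,
    hx.2] at this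
  calc _ = k⁻¹ * (X.σ k * (S.x r₀ t * X.σ c) * (X.σ k)⁻¹) * k := by group
    _ = _ := by rw [this]; group

theorem main {z : G} (hz : z ∈ S.U {a | a ∈ r₀ :: A}) (hz' : z ∈ Γ) (h3 : z ∉ S.U {a | a ∈ A₃}) :
    ∃ g ∈ S.U {r | ∀ p ∈ pre, R.pair p r = 0} ⊓ Γ, ∃ c ∈ S.U {a | a ∈ Ψ} ⊓ Γ,
      g * z * g⁻¹ = S.x r₀ 1 * c := by
  obtain ⟨g, hg, t, ht, y, hy, e⟩ := h.lead hf hΓ hsl hn hff hf1 hz h3
  have hF : S.x r₀ t * y ∈ X.Fx := by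
    rw [← e]; exact hΓ.le (mul_mem (mul_mem (ir hg) hz') (inv_mem (ir hg)))
  have hx := h.fix hy hF
  obtain ⟨k, hk, c, hc, e'⟩ := h.kill hsl ht hy hF
  have hkΓ := hΓ.mem_of_U (Or.inl fun a ha => (h.hB a ha).2.2.1) (il hk) (ir hk)
  have hcΓ : c ∈ Γ := hΓ.mem_of_U (Or.inl fun a ha =>
    (h.hA a (List.mem_cons_of_mem _ (h.hΨ a ha).1)).2.1) hc (by
      have := mul_mem (inv_mem hx) (mul_mem (mul_mem (inv_mem (ir hk)) hF) (ir hk))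
      rw [← e'] at this
      simpa [mul_assoc] using this)
  obtain ⟨s, hs, h1, h2⟩ := hΓ.exists_h hf h.ρr ht hx
  refine ⟨S.h r₀ s * k⁻¹ * g, mul_mem (Subgroup.mem_inf.2 ⟨mul_mem (S.h_mem_U (by
    exact fun p hp => h.hE p hp _ (by simp)) (by
      intro p hp; rw [R.pair_neg_right, h.hE p hp _ (by simp), neg_zero]) _)
    (inv_mem (S.U_mono (by exact fun a ha p hp => h.hE p hp _ (by simp [show a ∈ B from ha])) (il hk))),
    mul_mem h1 (inv_mem hkΓ)⟩) hg, S.h r₀ s * c * (S.h r₀ s)⁻¹, Subgroup.mem_inf.2 ⟨(norm_iff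
      (S.nconj.H_le_normalizer _ (S.h_mem_H _ hs)) _).2 hc, mul_mem (mul_mem h1 hcΓ) (inv_mem h1)⟩, ?_⟩
  calc _ = S.h r₀ s * k⁻¹ * (g * z * g⁻¹) * k * (S.h r₀ s)⁻¹ := by group
    _ = _ := by rw [e, ← e', ← h2]; group

end Step

end H6
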